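import Cfsg.Agent.OrthMinusDeg.Line

/-!
The transvections towards a coordinate fix every weight space with zero row there, and do not fix
the weight zero space.
-/

set_option autoImplicit false
set_option linter.unusedSectionVars false

noncomputable section

namespace CfsgLib.OrthMinusDeg

open Cfsg.Geo CfsgLib.OrthGeo Matrix CfsgLib.OrthPlusDeg
open scoped MatrixGroups

variable {F : Type*} [Field F] [Fintype F] [DecidableEq F] {m k : ℕ} (M : Dat F) (hm : 3 ≤ m)

/-- The swap away from a coordinate. -/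
def swapAway (a : Fin m) : IsoM M m := swapM M fun i => decide (i ≠ a)

theorem swapAway_eV (a : Fin m) :
    (((swapAway M a : IsoM M m) : GL (Idx m) F) : Matrix (Idx m) (Idx m) F) *ᵥ eV (Pi.single a 1) = eV (Pi.single a 1) := by
  rw [eV, swapAway, swapM_apply, mk_inj]
  refine ⟨?_, ?_, rfl⟩ <;> funext i <;> by_cases h : i = a <;> simp [h]

theorem swapAway_fV_za (a : Fin m) (y : Fin m → F) :
    (((swapAway M a : IsoM M m) : GL (Idx m) F) : Matrix (Idx m) (Idx m) F) *ᵥ fV (za a y) = eV (za a y) := by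
  rw [fV, eV, swapAway, swapM_apply, mk_inj]
  refine ⟨?_, ?_, rfl⟩ <;> funext i <;> by_cases h : i = a <;> simp [za, h]

theorem swapAway_zV (a : Fin m) (z : Fin 2 → F) :
    (((swapAway M a : IsoM M m) : GL (Idx m) F) : Matrix (Idx m) (Idx m) F) *ᵥ zV z = zV z := by
  rw [zV, swapAway, swapM_apply, mk_inj]
  refine ⟨?_, ?_, rfl⟩ <;> funext i <;> by_cases h : i = a <;> simp [h]

theorem swapAway_eV_za (a : Fin m) (y : Fin m → F) :
    (((swapAway M a : IsoM M m) : GL (Idx m) F) : Matrix (Idx m) (Idx m) F) *ᵥ eV (za a y) = fV (za a y) := by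
  rw [fV, eV, swapAway, swapM_apply, mk_inj]
  refine ⟨?_, ?_, rfl⟩ <;> funext i <;> by_cases h : i = a <;> simp [za, h]

theorem phi_eZ (a : Fin m) (y : Fin m → F) :
    MulAut.conjNormal (swapAway M a) (eZ M hm a y) = eC M hm a y := by
  apply Subtype.ext
  rw [MulAut.conjNormal_apply, eZ, sS_wflat]
  have h : bform (nondeg M m) (eV (Pi.single a 1) : Idx m → F) (eV (za a y)) = 0 := by
    simp [eV, bform_mk, zb, -bform_apply]
  rw [conj_eich M hm _ (qM_eV M _) h, swapAway_eV, swapAway_eV_za]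
  rfl

theorem phi_eE (a : Fin m) (z : Fin 2 → F) :
    MulAut.conjNormal (swapAway M a) (eE M hm (Pi.single a 1) z) = eE M hm (Pi.single a 1) z := by
  apply Subtype.ext
  rw [MulAut.conjNormal_apply, eE, conj_eich M hm _ (qM_eV M _) (eE_cond M _ z), swapAway_eV, swapAway_zV]

variable (R : OmM M m →* Matrix (Fin k) (Fin k) ℂ) {ψ : AddChar F ℂ}

/-- The twist by the swap. -/
def twistA (a : Fin m) : OmM M m →* Matrix (Fin k) (Fin k) ℂ :=
  R.comp (MulAut.conjNormal (swapAway M a) : OmM M m ≃* OmM M m).toMonoidHom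

theorem twistA_ne_one (a : Fin m) (hR : ∃ g, R g ≠ 1) : ∃ g, twistA M R a g ≠ 1 := by
  obtain ⟨g, hg⟩ := hR
  exact ⟨(MulAut.conjNormal (swapAway M a) : OmM M m ≃* OmM M m).symm g, by simpa [twistA] using hg⟩

theorem twistA_eZ (a : Fin m) (y : Fin m → F) : twistA M R a (eZ M hm a y) = R (eC M hm a y) := by
  rw [← phi_eZ M hm a y]; rfl

theorem twistA_eE (a : Fin m) (z : Fin 2 → F) :
    twistA M R a (eE M hm (Pi.single a 1) z) = R (eE M hm (Pi.single a 1) z) := by
  conv_rhs => rw [← phi_eE M hm a z]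
  rfl

theorem pZ_twistA (a : Fin m) : pZ M hm (twistA M R a) ψ a = pC M hm R ψ a := by
  simp only [pZ, pC, twistA_eZ]

theorem px_twistA (a : Fin m) (lam : Fin 2 → F) :
    px M hm (twistA M R a) ψ (Pi.single a 1) lam = px M hm R ψ (Pi.single a 1) lam := by
  simp only [px, twistA_eE]

theorem pW_mul_pZ (hψ : ψ 1 ≠ 1) {W : Matrix (Fin m) (Fin m) F} (hW : IsAlt W) (a : Fin m) :
    pW M hm R ψ W * pZ M hm R ψ a = if W a = 0 then pW M hm R ψ W else 0 := by
  classical
  have h : ∀ y, pW M hm R ψ W * R (eZ M hm a y) = ψ (y ⬝ᵥ W a) • pW M hm R ψ W := fun y => by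
    have e := flat2_dot_wflat (1 : F) (Pi.single a 1) (za a y) W
    rw [one_smul, one_mul, bil_row, za_dot (hW.1 a)] at e
    rw [eZ, pW_mul_sS, e]
  rw [pZ, weightProj_zero_eq, mul_smul_comm, Finset.mul_sum, Finset.sum_congr rfl (fun y _ => h y),
    ← Finset.sum_smul, sum_psi_dot_smul hψ, smul_smul]
  split_ifs with h0
  · rw [inv_mul_cancel₀ (Nat.cast_ne_zero.2 Fintype.card_ne_zero), one_smul]
  · simp

theorem pW_mul_px_of_row (hψ : ψ 1 ≠ 1) (hR : ∃ g, R g ≠ 1) (hk : SmallM F m k)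
    {W : Matrix (Fin m) (Fin m) F} (hW : IsWedge W ∨ W = 0) {a : Fin m} (h0 : W a = 0) :
    pW M hm R ψ W * px M hm R ψ (Pi.single a 1) 0 = pW M hm R ψ W := by
  have h : ∀ z, pW M hm R ψ W * R (eE M hm (Pi.single a 1) z) = pW M hm R ψ W := fun z => by
    rcases hW with hW | rfl
    · exact pW_mul_eE_eq M hm R hψ hR hk hW (fun u => by rw [bil_row, h0, dotProduct_zero]) z
    · exact pW_zero_mul_eE M hm R hψ (zero_weight_lt M hm R hψ hR hk) _ z
  rw [px, weightProj_zero_eq, mul_smul_comm, Finset.mul_sum, Finset.sum_congr rfl (fun z _ => h z),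
    Finset.sum_const, Finset.card_univ, ← Nat.cast_smul_eq_nsmul ℂ, smul_smul,
    inv_mul_cancel₀ (Nat.cast_ne_zero.2 Fintype.card_ne_zero), one_smul]

/-- The decomposable matrices with a zero row. -/
def rowZero (F : Type*) [Field F] [Fintype F] [DecidableEq F] (a : Fin m) : Finset (Matrix (Fin m) (Fin m) F) :=
  (wedgeSet F m).filter fun W => W a = 0

/-- The decomposable matrices with a nonzero row. -/
def rowMoved (F : Type*) [Field F] [Fintype F] [DecidableEq F] (a : Fin m) : Finset (Matrix (Fin m) (Fin m) F) :=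
  (wedgeSet F m).filter fun W => ¬ W a = 0

theorem mem_rowZero {a : Fin m} {W : Matrix (Fin m) (Fin m) F} :
    W ∈ rowZero F a ↔ IsWedge W ∧ W a = 0 := by simp [rowZero, mem_wedgeSet]

theorem mem_rowMoved {a : Fin m} {W : Matrix (Fin m) (Fin m) F} :
    W ∈ rowMoved F a ↔ IsWedge W ∧ W a ≠ 0 := by simp [rowMoved, mem_wedgeSet]

theorem sum_wedge_split (a : Fin m) (f : Matrix (Fin m) (Fin m) F → ℂ) :
    ∑ W ∈ wedgeSet F m, f W = ∑ W ∈ rowZero F a, f W + ∑ W ∈ rowMoved F a, f W := by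
  exact (Finset.sum_filter_add_sum_filter_not _ _ _).symm

theorem card_rows (a : Fin m) : (rowZero F a).card + (rowMoved F a).card = (wedgeSet F m).card ∧
    (rowMoved F a).card = (Fintype.card F ^ (m - 1) - 1) * Fintype.card F ^ (m - 2) := by
  refine ⟨Finset.card_filter_add_card_filter_not _, ?_⟩
  set A : Fin m → Finset F := fun i => if i = a then {0} else Finset.univ with hA
  set Rs : Finset (Fin m → F) := (Fintype.piFinset A).erase 0 with hRs
  have hRs' : ∀ r ∈ Rs, r ≠ 0 ∧ r a = 0 := fun r hr => by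
    obtain ⟨h1, h2⟩ := Finset.mem_erase.1 hr
    exact ⟨h1, by simpa [hA] using Fintype.mem_piFinset.1 h2 a⟩
  have h := card_wedge_row a Rs hRs'
  have e : rowMoved F a = (wedgeSet F m).filter fun W => W a ∈ Rs := by
    refine Finset.filter_congr fun W hW => ?_
    simp only [hRs, Finset.mem_erase, Fintype.mem_piFinset, ne_eq]
    refine ⟨fun h => ⟨h, fun i => ?_⟩, fun h => h.1⟩
    by_cases hi : i = a
    · subst hi; simp [hA, (mem_wedgeSet.1 hW).isAlt.1]
    · simp [hA, hi]
  rw [e, h, hRs, Finset.card_erase_of_mem (Fintype.mem_piFinset.2 fun i => by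
    by_cases hi : i = a <;> simp [hA, hi]), Fintype.card_piFinset, ← Finset.mul_prod_erase _ _ (Finset.mem_univ a),
    Finset.prod_congr rfl (g := fun _ => Fintype.card F) (fun i hi => by simp [hA, Finset.ne_of_mem_erase hi]),
    Finset.prod_const, Finset.card_erase_of_mem (Finset.mem_univ a), Finset.card_univ, Fintype.card_fin]
  simp [hA]

/-- The value of the averages over the radical side. -/
theorem trace_pZ (hψ : ψ 1 ≠ 1) (hR : ∃ g, R g ≠ 1) (hk : SmallM F m k) (a : Fin m) :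
    (pZ M hm R ψ a).trace = ((muW M hm R ψ 0 + (rowZero F a).card * Fintype.card F ^ 2 : ℕ) : ℂ) ∧
    (pZ M hm R ψ a * px M hm R ψ (Pi.single a 1) 0).trace =
      ((muW M hm R ψ 0 + (rowZero F a).card * Fintype.card F ^ 2 : ℕ) : ℂ) := by
  have h0 : IsAlt (0 : Matrix (Fin m) (Fin m) F) := ⟨fun _ => rfl, fun _ _ => by simp⟩
  have hterm : ∀ (Y : Matrix (Fin k) (Fin k) ℂ),
      (∀ W : Matrix (Fin m) (Fin m) F, (IsWedge W ∨ W = 0) → W a = 0 → pW M hm R ψ W * Y = pW M hm R ψ W) →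
      (pZ M hm R ψ a * Y).trace = ((muW M hm R ψ 0 + (rowZero F a).card * Fintype.card F ^ 2 : ℕ) : ℂ) := by
    intro Y hY
    rw [trace_weights M hm R hψ hR hk, ← Matrix.mul_assoc, pW_mul_pZ M hm R hψ h0, if_pos (show (0 : Matrix (Fin m) (Fin m) F) a = 0 from rfl),
      hY 0 (Or.inr rfl) rfl, trace_pW M hm R hψ, sum_wedge_split a,
      Finset.sum_eq_zero (s := rowMoved F a) (fun W hW => by
        rw [← Matrix.mul_assoc, pW_mul_pZ M hm R hψ (mem_rowMoved.1 hW).1.isAlt,
          if_neg (mem_rowMoved.1 hW).2, Matrix.zero_mul, Matrix.trace_zero]),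
      add_zero, Finset.sum_congr rfl (g := fun _ => ((Fintype.card F ^ 2 : ℕ) : ℂ)) (fun W hW => by
        obtain ⟨h1, h2⟩ := mem_rowZero.1 hW
        rw [← Matrix.mul_assoc, pW_mul_pZ M hm R hψ h1.isAlt, if_pos h2, hY W (Or.inl h1) h2,
          trace_pW M hm R hψ, (weight_structure_minus M hm R hψ hR hk W h1.1).1 h1]),
      Finset.sum_const, nsmul_eq_mul]
    push_cast; ring
  refine ⟨?_, hterm _ fun W hW h => pW_mul_px_of_row M hm R hψ hR hk hW h⟩
  have := hterm 1 fun W _ _ => Matrix.mul_one _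
  rwa [Matrix.mul_one] at this

theorem trace_pC (hψ : ψ 1 ≠ 1) (hR : ∃ g, R g ≠ 1) (hk : SmallM F m k) (a : Fin m) :
    (pC M hm R ψ a).trace = ((muW M hm R ψ 0 + (rowZero F a).card * Fintype.card F ^ 2 : ℕ) : ℂ) ∧
    (pC M hm R ψ a * px M hm R ψ (Pi.single a 1) 0).trace =
      ((muW M hm R ψ 0 + (rowZero F a).card * Fintype.card F ^ 2 : ℕ) : ℂ) := by
  have hR' := twistA_ne_one M R a hR
  have hD : muW M hm (twistA M R a) ψ 0 = muW M hm R ψ 0 := by
    have h1 := degree_split M hm R hψ hR hk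
    have h2 := degree_split M hm (twistA M R a) hψ hR' hk
    omega
  have h := trace_pZ M hm (twistA M R a) hψ hR' hk a
  rwa [pZ_twistA, px_twistA, hD] at h

theorem eC_comm_zero (a : Fin m) (y : Fin m → F) :
    R (eC M hm a y) * pW M hm R ψ 0 = pW M hm R ψ 0 * R (eC M hm a y) := by
  have h := eC_comm_pW M hm R (ψ := ψ) (W := (0 : Matrix (Fin m) (Fin m) F))
    ⟨fun _ => rfl, fun _ _ => by simp⟩ a y
  rwa [show wedge (za a y) ((0 : Matrix (Fin m) (Fin m) F) a) = 0 by ext i j; simp [wedge_apply],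
    add_zero] at h

theorem eC_comm_row {W : Matrix (Fin m) (Fin m) F} (hW : IsAlt W) {a : Fin m} (h0 : W a = 0)
    (y : Fin m → F) : R (eC M hm a y) * pW M hm R ψ W = pW M hm R ψ W * R (eC M hm a y) := by
  have h := eC_comm_pW M hm R (ψ := ψ) hW a y
  rwa [h0, show wedge (za a y) (0 : Fin m → F) = 0 by ext i j; simp [wedge_apply], add_zero] at h

theorem pC_comm_pW {W : Matrix (Fin m) (Fin m) F} (hW : IsAlt W) {a : Fin m} (h0 : W a = 0) :
    pW M hm R ψ W * pC M hm R ψ a = pC M hm R ψ a * pW M hm R ψ W :=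
  commute_weightProj (f := fun y => R (eC M hm a y)) (fun y => (eC_comm_row M hm R hW h0 y).symm) 0

/-- The transvections act by scalars on a weight space with zero row. -/
theorem pC_dichotomy (hψ : ψ 1 ≠ 1) (hR : ∃ g, R g ≠ 1) (hk : SmallM F m k)
    {W : Matrix (Fin m) (Fin m) F} (hW : IsWedge W) {a : Fin m} (h0 : W a = 0) :
    pW M hm R ψ W * pC M hm R ψ a = pW M hm R ψ W ∨ pW M hm R ψ W * pC M hm R ψ a = 0 := by
  classical
  set P := pW M hm R ψ W with hPdef
  have hμ := (weight_structure_minus M hm R hψ hR hk W hW.1).1 hW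
  have hν := fun z => pW_mul_eE_eq M hm R hψ hR hk hW (x := Pi.single a 1)
    (fun u => by rw [bil_row, h0, dotProduct_zero]) z
  have hsc : ∀ y, ∃ c : ℂ, P * R (eC M hm a y) = c • P := by
    intro y
    obtain ⟨p, q, hpq⟩ := exists_ne_zero_of_row hW.1
    have hcond : ∀ (x : Fin m → F) (z : Fin 2 → F),
        P * (R (eE M hm x z) * R (eC M hm a y)) = P * (R (eC M hm a y) * R (eE M hm x z)) := by
      intro x z
      have e := eE_comm_tT M hm (single_dot_za a y) x z
      have e' : R (eE M hm x z) * R (eC M hm a y) = R (eC M hm a y) *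
          R (eE M hm (Pi.single a 1) (-(x ⬝ᵥ za a y) • z)) *
          R (sS M hm ((-(x ⬝ᵥ za a y) * nz M z) • wflat (Pi.single a 1) x)) * R (eE M hm x z) := by
        rw [← map_mul, ← map_mul, ← map_mul, ← map_mul, eC, e]
      rw [e', ← Matrix.mul_assoc, ← Matrix.mul_assoc, ← Matrix.mul_assoc,
        ← eC_comm_row M hm R hW.isAlt h0 y, Matrix.mul_assoc (R (eC M hm a y)), hν,
        Matrix.mul_assoc (R (eC M hm a y)), pW_mul_sS, flat2_dot_wflat, bil_row, h0, dotProduct_zero, mul_zero,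
        AddChar.map_zero_eq_one, one_smul, eC_comm_row M hm R hW.isAlt h0 y, Matrix.mul_assoc]
    exact scalar_on_pW M hm R hψ hμ (x := Pi.single p 1) (y := Pi.single q 1) (by rwa [bil_single])
      (eC_comm_row M hm R hW.isAlt h0 y).symm (hcond _) (hcond _)
  choose c hc using hsc
  have h : P * pC M hm R ψ a = ((Fintype.card (Fin m → F) : ℂ)⁻¹ * ∑ y, c y) • P := by
    rw [pC, weightProj_zero_eq, mul_smul_comm, Finset.mul_sum, Finset.sum_congr rfl (fun y _ => hc y),
      ← Finset.sum_smul, smul_smul]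
  set κ := (Fintype.card (Fin m → F) : ℂ)⁻¹ * ∑ y, c y
  have hid := idem_mul (pW_idem M hm R hψ W) (pC_idem M hm R hψ a) (pC_comm_pW M hm R hW.isAlt h0)
  rw [← hPdef, h, smul_mul_smul_comm, pW_idem M hm R hψ] at hid
  have hP0 : P ≠ 0 := fun e => by
    have := trace_pW M hm R hψ W
    rw [← hPdef, e, Matrix.trace_zero, hμ] at this
    exact pow_ne_zero 2 (Fintype.card_ne_zero (α := F)) (by exact_mod_cast this.symm)
  have hκ : κ * κ = κ := smul_left_injective ℂ hP0 hid
  rcases mul_left_eq_self₀.1 hκ with h1 | h1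
  · exact Or.inl (by rw [h, h1, one_smul])
  · exact Or.inr (by rw [h, h1, zero_smul])

/-- Decomposable matrices are congruent. -/
theorem exists_congr_wedge {n : ℕ} (hn : 2 ≤ n) {B B' : Matrix (Fin n) (Fin n) F} (hB : IsWedge B)
    (hB' : IsWedge B') : ∃ G : Matrix (Fin n) (Fin n) F, G.det ≠ 0 ∧ G * B * Gᵀ = B' := by
  rcases (show n = 2 ∨ 3 ≤ n by omega) with rfl | hn3
  · have key : ∀ {B : Matrix (Fin 2) (Fin 2) F}, IsWedge B → B 0 1 ≠ 0 := fun {B} h h01 => h.1 (by
      ext i j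
      fin_cases i <;> fin_cases j <;> simp [h.isAlt.1, h.isAlt.2 0 1, h01])
    have h1 := key hB
    refine ⟨!![B' 0 1 / B 0 1, 0; 0, 1], by simp [key hB', h1], ?_⟩
    ext i j
    rw [CfsgLib.SympWeil.congr_apply']
    fin_cases i <;> fin_cases j <;>
      simp [dotProduct, Matrix.mulVec, Fin.sum_univ_two, hB.isAlt.1, hB'.isAlt.1, hB.isAlt.2 0 1,
        hB'.isAlt.2 0 1] <;>
      field_simp
  · have hne : (⟨0, by omega⟩ : Fin n) ≠ ⟨1, by omega⟩ := by simp
    obtain ⟨g, hg, hgB⟩ := hB.exists_det_one hn3 hne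
    obtain ⟨g', hg', hgB'⟩ := hB'.exists_det_one hn3 hne
    have hu : IsUnit g.det := by rw [hg]; exact isUnit_one
    refine ⟨g' * g⁻¹, by rw [Matrix.det_mul, Matrix.det_nonsing_inv, hg, hg']; simp, ?_⟩
    have hu' : IsUnit gᵀ.det := by rw [Matrix.det_transpose]; exact hu
    rw [← hgB, ← hgB', Matrix.transpose_mul, Matrix.transpose_nonsing_inv]
    simp only [Matrix.mul_assoc]
    rw [← Matrix.mul_assoc (gᵀ), Matrix.mul_nonsing_inv _ hu', Matrix.one_mul,
      ← Matrix.mul_assoc g⁻¹, Matrix.nonsing_inv_mul _ hu, Matrix.one_mul]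

/-- A transvection towards a scaled coordinate. -/
theorem tT_smul_left (τ : F) {x y : Fin m → F} (h : x ⬝ᵥ y = 0) :
    tT M hm (τ • x) y = tT M hm x (τ • y) := om_ext M fun X Y Z => by
  rw [tT_apply M hm (by rw [smul_dotProduct, h, smul_zero]),
    tT_apply M hm (by rw [dotProduct_smul, h, smul_zero]), mk_inj]
  refine ⟨?_, ?_, rfl⟩ <;> funext i <;> simp <;> ring

/-- An element of `SL_m` scaling a coordinate permutes the transvections towards it. -/
theorem slM_comm_pC (a : Fin m) (g : Matrix.SpecialLinearGroup (Fin m) F) {τ : F} (hτ : τ ≠ 0)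
    (h1 : (g : Matrix (Fin m) (Fin m) F) *ᵥ Pi.single a 1 = τ • Pi.single a 1)
    (h2 : (g : Matrix (Fin m) (Fin m) F)ᵀ *ᵥ Pi.single a 1 = τ • Pi.single a 1) {w w' : Fin m → F}
    (hw : ∀ v, (τ • ((g⁻¹ : Matrix.SpecialLinearGroup (Fin m) F) : Matrix (Fin m) (Fin m) F)ᵀ *ᵥ v) ⬝ᵥ w' =
      v ⬝ᵥ w) :
    R (slM M hm g) * weightProj (fun y => R (eC M hm a y)) ψ w =
      weightProj (fun y => R (eC M hm a y)) ψ w' * R (slM M hm g) := by
  set N := ((g⁻¹ : Matrix.SpecialLinearGroup (Fin m) F) : Matrix (Fin m) (Fin m) F)ᵀ with hN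
  have hgN : (g : Matrix (Fin m) (Fin m) F)ᵀ * N = 1 := by
    rw [hN, ← Matrix.transpose_mul, ← Matrix.SpecialLinearGroup.coe_mul, inv_mul_cancel,
      Matrix.SpecialLinearGroup.coe_one, Matrix.transpose_one]
  have hNg : N * (g : Matrix (Fin m) (Fin m) F)ᵀ = 1 := by
    rw [hN, ← Matrix.transpose_mul, ← Matrix.SpecialLinearGroup.coe_mul, mul_inv_cancel,
      Matrix.SpecialLinearGroup.coe_one, Matrix.transpose_one]
  have hNe : N *ᵥ Pi.single a 1 = τ⁻¹ • Pi.single a 1 := by
    have := congrArg (fun v => N *ᵥ v) h2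
    simp only [Matrix.mulVec_mulVec, hNg, Matrix.one_mulVec, Matrix.mulVec_smul] at this
    conv_rhs => rw [this, inv_smul_smul₀ hτ]
  have hrow : ∀ v, (N *ᵥ v) a = τ⁻¹ * v a := fun v => by
    have e : (Pi.single a 1 : Fin m → F) ᵥ* N = τ⁻¹ • Pi.single a 1 := by
      have h1' : (Pi.single a 1 : Fin m → F) ᵥ* (g : Matrix (Fin m) (Fin m) F)ᵀ = τ • Pi.single a 1 := by
        rw [Matrix.vecMul_transpose, h1]
      have := congrArg (fun v => v ᵥ* N) h1'
      simp only [Matrix.vecMul_vecMul, hgN, Matrix.vecMul_one, Matrix.smul_vecMul] at this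
      conv_rhs => rw [this, inv_smul_smul₀ hτ]
    have := Matrix.dotProduct_mulVec (Pi.single a 1 : Fin m → F) N v
    rw [e, single_dotProduct, one_mul, smul_dotProduct, single_dotProduct, one_mul, smul_eq_mul] at this
    exact this
  have hza : ∀ v, za a (τ • N *ᵥ v) = τ • N *ᵥ za a v := fun v => by
    have e : v = za a v + v a • (Pi.single a 1 : Fin m → F) := by
      funext i; by_cases h : i = a <;> simp [za, h]
    funext i
    by_cases h : i = a
    · subst h; simp [za, hrow]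
    · conv_lhs => rw [za, Function.update_of_ne h, e, Matrix.mulVec_add, Matrix.mulVec_smul, hNe]
      simp [h]
  let e : (Fin m → F) ≃ (Fin m → F) :=
    { toFun := fun v => τ • N *ᵥ v
      invFun := fun v => τ⁻¹ • (g : Matrix (Fin m) (Fin m) F)ᵀ *ᵥ v
      left_inv := fun v => by
        simp only [Matrix.mulVec_smul, Matrix.mulVec_mulVec, hgN, Matrix.one_mulVec, inv_smul_smul₀ hτ]
      right_inv := fun v => by
        simp only [Matrix.mulVec_smul, Matrix.mulVec_mulVec, hNg, Matrix.one_mulVec, smul_inv_smul₀ hτ] }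
  refine comm_weightProj e (fun y => ?_) hw
  refine rep_semiconj R ?_
  rw [eC, slM_tT M hm g (single_dot_za a y), h1, tT_smul_left]
  · change tT M hm _ _ * _ = tT M hm _ (za a (τ • N *ᵥ y)) * _
    rw [hza]
  · rw [dotProduct_comm, dotProduct_single, mul_one, hrow, za_apply_self, mul_zero]

theorem lowBlk_mulVec_zero {n : ℕ} (c : F) (G : Matrix (Fin n) (Fin n) F) :
    lowBlk c 0 G *ᵥ Pi.single 0 1 = c • Pi.single 0 1 := by
  funext i
  rw [Matrix.mulVec_single_one]
  refine Fin.cases ?_ (fun i => ?_) i <;> simp [lowBlk]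

theorem lowBlk_transpose {n : ℕ} (c : F) (G : Matrix (Fin n) (Fin n) F) :
    (lowBlk c 0 G)ᵀ = lowBlk c 0 Gᵀ := by
  ext i j
  refine Fin.cases ?_ (fun i => ?_) i <;> refine Fin.cases ?_ (fun j => ?_) j <;> simp [lowBlk]

/-- A block matrix moving one decomposable matrix with zero first row to another. -/
theorem exists_blk_congr {n : ℕ} (hn : 2 ≤ n) {W W' : Matrix (Fin (n + 1)) (Fin (n + 1)) F}
    (hW : IsWedge W) (h0 : W 0 = 0) (hW' : IsWedge W') (h0' : W' 0 = 0) :
    ∃ (c : F) (G : Matrix (Fin n) (Fin n) F), c * G.det = 1 ∧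
      lowBlk c 0 G * W * (lowBlk c 0 G)ᵀ = W' := by
  have hblk : ∀ {W : Matrix (Fin (n + 1)) (Fin (n + 1)) F}, IsWedge W → W 0 = 0 →
      IsWedge (W.submatrix Fin.succ Fin.succ) := by
    intro W hW h0
    obtain ⟨hne, u, v, huv⟩ := hW
    have hcol : ∀ i, W i 0 = 0 := fun i => by
      rw [← huv] at h0 ⊢
      have := congrFun h0 i
      simp [wedge_apply] at this ⊢
      linear_combination -this
    refine ⟨fun hz => hne ?_, fun i => u i.succ, fun i => v i.succ, by
      ext i j; simp [← huv, wedge_apply]⟩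
    ext i j
    refine Fin.cases ?_ (fun i => ?_) i
    · exact congrFun h0 j
    · refine Fin.cases ?_ (fun j => ?_) j
      · exact hcol _
      · exact congrFun (congrFun hz i) j
  obtain ⟨G, hG, hGW⟩ := exists_congr_wedge hn (hblk hW h0) (hblk hW' h0')
  refine ⟨G.det⁻¹, G, inv_mul_cancel₀ hG, ?_⟩
  have hcol : ∀ {W : Matrix (Fin (n + 1)) (Fin (n + 1)) F}, IsWedge W → W 0 = 0 → ∀ i, W i 0 = 0 :=
    fun hW h0 i => by rw [hW.isAlt.2 0 i, h0]; simp
  ext i j
  rw [CfsgLib.SympWeil.congr_apply']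
  refine Fin.cases ?_ (fun i => ?_) i <;> refine Fin.cases ?_ (fun j => ?_) j
  · simp [lowBlk, dotProduct, Matrix.mulVec, Fin.sum_univ_succ, h0, h0']
  · simp [lowBlk, dotProduct, Matrix.mulVec, Fin.sum_univ_succ, h0, h0']
  · simp [lowBlk, dotProduct, Matrix.mulVec, Fin.sum_univ_succ, hcol hW h0, hcol hW' h0']
  · rw [show W' i.succ j.succ = W'.submatrix Fin.succ Fin.succ i j from rfl, ← hGW,
      CfsgLib.SympWeil.congr_apply']
    simp [lowBlk, dotProduct, Matrix.mulVec, Fin.sum_univ_succ, h0, hcol hW h0]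

include hm in
theorem pC_dichotomy_all (hψ : ψ 1 ≠ 1) (hR : ∃ g, R g ≠ 1) (hk : SmallM F m k) :
    (∀ W ∈ rowZero F (⟨0, by omega⟩ : Fin m),
      pW M hm R ψ W * pC M hm R ψ ⟨0, by omega⟩ = pW M hm R ψ W) ∨
    (∀ W ∈ rowZero F (⟨0, by omega⟩ : Fin m), pW M hm R ψ W * pC M hm R ψ ⟨0, by omega⟩ = 0) := by
  classical
  obtain ⟨n, rfl⟩ : ∃ n, m = n + 1 := ⟨m - 1, by omega⟩
  by_contra hc
  push Not at hc
  obtain ⟨⟨W₁, hW₁, h₁⟩, ⟨W₂, hW₂, h₂⟩⟩ := hc
  obtain ⟨w1, z1⟩ := mem_rowZero.1 hW₁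
  obtain ⟨w2, z2⟩ := mem_rowZero.1 hW₂
  have e1 := (pC_dichotomy M hm R hψ hR hk w1 z1).resolve_left h₁
  have e2 := (pC_dichotomy M hm R hψ hR hk w2 z2).resolve_right h₂
  obtain ⟨c, G, hcG, hW⟩ := exists_blk_congr (by omega) w2 z2 w1 z1
  have hc0 : c ≠ 0 := left_ne_zero_of_mul (by rw [hcG]; exact one_ne_zero)
  let g : Matrix.SpecialLinearGroup (Fin (n + 1)) F :=
    ⟨(lowBlk c 0 G)ᵀ, by rw [Matrix.det_transpose, det_lowBlk, hcG]⟩
  have hL := slM_comm_pW M hm R (ψ := ψ) g W₂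
  have e : (g : Matrix (Fin (n + 1)) (Fin (n + 1)) F)ᵀ * W₂ * (g : Matrix (Fin (n + 1)) (Fin (n + 1)) F) = W₁ := by
    change (lowBlk c 0 G)ᵀᵀ * W₂ * (lowBlk c 0 G)ᵀ = W₁
    rw [Matrix.transpose_transpose, hW]
  rw [e] at hL
  have hC : R (slM M hm g) * pC M hm R ψ (0 : Fin (n + 1)) = pC M hm R ψ (0 : Fin (n + 1)) * R (slM M hm g) :=
    slM_comm_pC M hm R 0 g hc0
      (by change (lowBlk c 0 G)ᵀ *ᵥ _ = _; rw [lowBlk_transpose, lowBlk_mulVec_zero])
      (by change (lowBlk c 0 G)ᵀᵀ *ᵥ _ = _; rw [Matrix.transpose_transpose, lowBlk_mulVec_zero])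
      (fun v => by simp)
  have h3 : R (slM M hm g) * (pW M hm R ψ W₁ * pC M hm R ψ (0 : Fin (n + 1))) =
      pW M hm R ψ W₂ * pC M hm R ψ (0 : Fin (n + 1)) * R (slM M hm g) := by
    rw [← Matrix.mul_assoc, hL, Matrix.mul_assoc, hC, ← Matrix.mul_assoc]
  have h4 := trace_eq_of_rep_semiconj R _ h3
  simp only [show (⟨0, by omega⟩ : Fin (n + 1)) = 0 from rfl] at e1 e2
  rw [e1, e2, Matrix.trace_zero, trace_pW M hm R hψ,
    (weight_structure_minus M hm R hψ hR hk W₂ w2.1).1 w2] at h4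
  exact pow_ne_zero 2 (Fintype.card_ne_zero (α := F)) (by exact_mod_cast h4.symm)

/-- The dimension of the fixed space of the transvections on the weight zero space. -/
theorem exists_fix_nat (hψ : ψ 1 ≠ 1) (a : Fin m) :
    ∃ d : ℕ, d ≤ muW M hm R ψ 0 ∧ (pW M hm R ψ 0 * pC M hm R ψ a).trace = d := by
  have hc := pC_comm_pW M hm R (ψ := ψ) (W := (0 : Matrix (Fin m) (Fin m) F))
    ⟨fun _ => rfl, fun _ _ => by simp⟩ (a := a) rfl
  have hi := idem_mul (pW_idem M hm R hψ 0) (pC_idem M hm R hψ a) hc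
  have hc' : pW M hm R ψ 0 * (1 - pC M hm R ψ a) = (1 - pC M hm R ψ a) * pW M hm R ψ 0 := by
    rw [Matrix.mul_sub, Matrix.sub_mul, Matrix.mul_one, Matrix.one_mul, hc]
  have hi' := idem_mul (pW_idem M hm R hψ 0) (idem_one_sub (pC_idem M hm R hψ a)) hc'
  refine ⟨natTr hi, ?_, trace_eq_natTr hi⟩
  have h : (natTr hi : ℂ) + natTr hi' = (muW M hm R ψ (0 : Matrix (Fin m) (Fin m) F) : ℂ) := by
    rw [← trace_eq_natTr hi, ← trace_eq_natTr hi', ← Matrix.trace_add, ← Matrix.mul_add, add_sub_cancel,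
      Matrix.mul_one, trace_pW M hm R hψ]
  have h' : natTr hi + natTr hi' = muW M hm R ψ (0 : Matrix (Fin m) (Fin m) F) := by exact_mod_cast h
  omega

include hm in
/-- The transvections fix the weight spaces with zero row and do not fix the weight zero space. -/
theorem fix_main (hψ : ψ 1 ≠ 1) (hR : ∃ g, R g ≠ 1) (hk : SmallM F m k) :
    (∀ W ∈ rowZero F (⟨0, by omega⟩ : Fin m),
      pW M hm R ψ W * pC M hm R ψ ⟨0, by omega⟩ = pW M hm R ψ W) ∧
    pW M hm R ψ 0 * pC M hm R ψ ⟨0, by omega⟩ ≠ pW M hm R ψ 0 := by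
  classical
  set a : Fin m := ⟨0, by omega⟩
  have h0 : IsAlt (0 : Matrix (Fin m) (Fin m) F) := ⟨fun _ => rfl, fun _ _ => by simp⟩
  obtain ⟨hfix, hfixE⟩ := trace_pC M hm R hψ hR hk a
  set q := Fintype.card F with hq
  have hq2 : 2 ≤ q := Fintype.one_lt_card
  have hμ : ∀ W, IsWedge W → muW M hm R ψ W = q ^ 2 := fun W hW =>
    (weight_structure_minus M hm R hψ hR hk W hW.1).1 hW
  rcases pC_dichotomy_all M hm R hψ hR hk with hfull | hnone
  · refine ⟨hfull, fun hzero => ?_⟩
    rw [trace_weights M hm R hψ hR hk, hzero, trace_pW M hm R hψ, sum_wedge_split a,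
      Finset.sum_congr rfl (s₁ := rowZero F a) (g := fun _ => ((q ^ 2 : ℕ) : ℂ)) (fun W hW => by
        rw [hfull W hW, trace_pW M hm R hψ, hμ W (mem_rowZero.1 hW).1]),
      Finset.sum_const, nsmul_eq_mul] at hfix
    have hbig : ∑ W ∈ rowMoved F a, (pW M hm R ψ W * pC M hm R ψ a).trace = 0 := by
      push_cast at hfix
      linear_combination hfix
    set Q := ∑ W ∈ rowMoved F a, pW M hm R ψ W with hQ
    have hQi : Q * Q = Q := by
      rw [hQ, Finset.sum_mul]
      refine Finset.sum_congr rfl fun W hW => ?_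
      rw [Finset.mul_sum, Finset.sum_congr rfl (fun W' _ => pW_mul_pW M hm R hψ W W'), Finset.sum_ite_eq,
        if_pos hW]
    have hQc : ∀ y, Q * R (eC M hm a y) = R (eC M hm a y) * Q := by
      intro y
      rw [hQ, Finset.sum_mul, Finset.mul_sum]
      refine Finset.sum_nbij (fun W => W + wedge (za a y) (W a)) ?_ ?_ ?_ ?_
      · intro W hW
        obtain ⟨hw, hr⟩ := mem_rowMoved.1 hW
        have hrow : (W + wedge (za a y) (W a)) a = W a := by
          funext j; simp [wedge_apply, za_apply_self, hw.isAlt.1]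
        refine mem_rowMoved.2 ⟨?_, by rw [hrow]; exact hr⟩
        rw [← congr_vecMulVec hw.isAlt]
        have := hw.congr (g := (1 + vecMulVec (Pi.single a 1) (za a y))ᵀ) (by
          rw [Matrix.det_transpose, Matrix.vecMulVec_eq Unit, Matrix.det_one_add_replicateCol_mul_replicateRow,
            dotProduct_comm, single_dot_za, add_zero]
          exact one_ne_zero)
        rwa [Matrix.transpose_transpose] at this
      · intro W hW W' hW' h
        have h1 : W a = W' a := by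
          have := congrFun h a
          funext j
          have := congrFun this j
          simpa [wedge_apply, za_apply_self, (mem_rowMoved.1 hW).1.isAlt.1,
            (mem_rowMoved.1 hW').1.isAlt.1] using this
        simpa [h1] using h
      · intro W' hW'
        obtain ⟨hw, hr⟩ := mem_rowMoved.1 hW'
        refine ⟨W' + wedge (za a (-y)) (W' a), ?_, ?_⟩
        · refine mem_rowMoved.2 ⟨?_, ?_⟩
          · rw [← congr_vecMulVec hw.isAlt]
            have := hw.congr (g := (1 + vecMulVec (Pi.single a 1) (za a (-y)))ᵀ) (by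
              rw [Matrix.det_transpose, Matrix.vecMulVec_eq Unit, Matrix.det_one_add_replicateCol_mul_replicateRow,
                dotProduct_comm, single_dot_za, add_zero]
              exact one_ne_zero)
            rwa [Matrix.transpose_transpose] at this
          · have hrow : (W' + wedge (za a (-y)) (W' a)) a = W' a := by
              funext j; simp [wedge_apply, za_apply_self, hw.isAlt.1]
            rw [hrow]; exact hr
        · have hrow : (W' + wedge (za a (-y)) (W' a)) a = W' a := by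
            funext j; simp [wedge_apply, za_apply_self, hw.isAlt.1]
          show W' + wedge (za a (-y)) (W' a) + wedge (za a y) _ = W'
          rw [hrow, add_assoc, add_eq_left]
          ext i j
          by_cases hi : i = a <;> by_cases hj : j = a <;> simp [wedge_apply, za, hi, hj] <;> ring
      · intro W hW
        exact (eC_comm_pW M hm R (mem_rowMoved.1 hW).1.isAlt a y).symm
    have hQC : Q * pC M hm R ψ a = pC M hm R ψ a * Q :=
      commute_weightProj (f := fun y => R (eC M hm a y)) hQc 0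
    have hz : Q * pC M hm R ψ a = 0 := eq_zero_of_trace_idem (idem_mul hQi (pC_idem M hm R hψ a) hQC)
      (by rw [hQ, Finset.sum_mul, Matrix.trace_sum, hbig])
    obtain ⟨c, hca⟩ : ∃ c : Fin m, a ≠ c := ⟨⟨1, by omega⟩, by simp [a]⟩
    set W := wedge (Pi.single a (1 : F)) (Pi.single c 1) with hWdef
    have hWr : W a = Pi.single c 1 := by
      funext j; simp [hWdef, wedge_apply, hca]
    have hr : W a ≠ 0 := by rw [hWr]; simp
    have hW : IsWedge W := ⟨fun h => hr (by rw [h]; rfl), _, _, rfl⟩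
    obtain ⟨s, P1, -, -, hP1t, h1, h2, hfix1⟩ := line_data M hm R hψ hW (hμ W hW) hr
    have hQP : Q * P1 = P1 := by
      rw [← h1, ← Matrix.mul_assoc, hQ, Finset.sum_mul, Finset.sum_congr rfl (fun W' _ => pW_mul_pW M hm R hψ W' W),
        Finset.sum_ite_eq', if_pos (mem_rowMoved.2 ⟨hW, hr⟩)]
    have htr := trace_pC_line M hm R hψ hW h1 h2 hP1t hr (χ := fun _ => 1)
      (fun t => by rw [hfix1 t, one_smul])
    rw [← hQP, ← Matrix.mul_assoc, ← hQC, hz, Matrix.zero_mul, Matrix.trace_zero, mul_zero] at htr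
    simp at htr
  · exfalso
    obtain ⟨d, hd, hdt⟩ := exists_fix_nat M hm R hψ a
    have hterm : ∀ W ∈ rowMoved F a, ∃ j : ℕ, j ≤ 1 ∧
        (q : ℂ) ^ m * (pW M hm R ψ W * (pC M hm R ψ a * px M hm R ψ (Pi.single a 1) 0)).trace =
          ((q ^ 2 * j : ℕ) : ℂ) := by
      intro W hW
      obtain ⟨hw, hr⟩ := mem_rowMoved.1 hW
      obtain ⟨s, P1, hs, h0t, -, -, -, -⟩ := line_data M hm R hψ hw (hμ W hw) hr
      set P0 := pW M hm R ψ W * px M hm R ψ (Pi.single a 1) 0 with hP0
      have h1 : pW M hm R ψ W * P0 = P0 := by rw [hP0, ← Matrix.mul_assoc, pW_idem M hm R hψ]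
      have h2 : P0 * pW M hm R ψ W = P0 := by
        rw [hP0, Matrix.mul_assoc, ← pW_comm_px, ← Matrix.mul_assoc, pW_idem M hm R hψ]
      have h := trace_pC_line M hm R hψ hw h1 h2 h0t hr hs
      have e : (pW M hm R ψ W * (pC M hm R ψ a * px M hm R ψ (Pi.single a 1) 0)).trace =
          (pC M hm R ψ a * P0).trace := by
        rw [Matrix.trace_mul_comm, Matrix.mul_assoc, hP0, pW_comm_px]
      rw [e, h]
      have hsum : ∑ t : F, ψ (t * s) = if s = 0 then (q : ℂ) else 0 := by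
        by_cases hs0 : s = 0
        · simp [hs0, q]
        · rw [if_neg hs0]
          have hψ0 : ψ ≠ 0 := fun h => hψ (by rw [h]; rfl)
          have e := AddChar.sum_eq_zero_iff_ne_zero.2 hψ0
          rwa [← Equiv.sum_comp (Equiv.mulRight₀ s hs0)] at e
      rw [hsum]
      by_cases hs0 : s = 0
      · exact ⟨1, le_rfl, by rw [if_pos hs0]; push_cast; ring⟩
      · exact ⟨0, by omega, by rw [if_neg hs0]; simp⟩
    have key := congrArg (fun x => (q : ℂ) ^ m * x) hfixE
    rw [trace_weights M hm R hψ hR hk, ← Matrix.mul_assoc (pW M hm R ψ 0), pC_comm_pW M hm R h0 (a := a) rfl,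
      Matrix.mul_assoc (pC M hm R ψ a), pW_mul_px_of_row M hm R hψ hR hk (Or.inr rfl) (a := a) rfl,
      ← pC_comm_pW M hm R h0 (a := a) rfl, hdt, sum_wedge_split a,
      Finset.sum_eq_zero (s := rowZero F a) (fun W hW => by
        rw [← Matrix.mul_assoc, hnone W hW, Matrix.zero_mul, Matrix.trace_zero]), zero_add, mul_add,
      Finset.mul_sum] at key
    choose! j hj hjeq using hterm
    rw [Finset.sum_congr rfl hjeq, ← Nat.cast_sum] at key
    have key' : q ^ m * d + ∑ W ∈ rowMoved F a, q ^ 2 * j W =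
        q ^ m * (muW M hm R ψ 0 + (rowZero F a).card * q ^ 2) := by exact_mod_cast key
    have hj' : ∑ W ∈ rowMoved F a, q ^ 2 * j W ≤ (rowMoved F a).card * q ^ 2 := by
      rw [← smul_eq_mul]
      exact Finset.sum_le_card_nsmul _ _ _ fun W hW => by
        calc q ^ 2 * j W ≤ q ^ 2 * 1 := Nat.mul_le_mul_left _ (hj W hW)
          _ = q ^ 2 := mul_one _
    have hcnt := card_rows (F := F) a
    have hS := card_wedgeSet (F := F) m
    rw [← hcnt.1, hcnt.2, ← hq] at hS
    rw [hcnt.2, ← hq] at hj'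
    have h1 : q ^ m * ((rowZero F a).card * q ^ 2) ≤ (q ^ (m - 1) - 1) * q ^ (m - 2) * q ^ 2 := by
      have : q ^ m * d ≤ q ^ m * muW M hm R ψ (0 : Matrix (Fin m) (Fin m) F) := Nat.mul_le_mul_left _ hd
      rw [Nat.mul_add] at key'
      omega
    generalize (rowZero F a).card = S' at hS h1
    obtain ⟨i, rfl⟩ : ∃ i, m = i + 3 := ⟨m - 3, by omega⟩
    rw [show i + 3 - 1 = i + 2 from rfl, show i + 3 - 2 = i + 1 from rfl] at hS h1
    have hqi : 1 ≤ q ^ i := Nat.one_le_pow _ _ (by omega)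
    rw [pow_succ q (i + 2), pow_succ q (i + 1), pow_succ q i] at hS h1
    generalize q ^ i = u at *
    obtain ⟨v, rfl⟩ : ∃ v, u = v + 1 := ⟨u - 1, by omega⟩
    obtain ⟨p, hp⟩ : ∃ p, q = p + 2 := ⟨q - 2, by omega⟩
    rw [hp] at hS h1
    obtain ⟨B, hB⟩ : ∃ B, (v + 1) * (p + 2) * (p + 2) = B + 1 :=
      ⟨(v + 1) * (p + 2) * (p + 2) - 1, by
        have : 0 < (v + 1) * (p + 2) * (p + 2) := by positivity
        omega⟩
    obtain ⟨A, hA⟩ : ∃ A, (v + 1) * (p + 2) * (p + 2) * (p + 2) = A + 1 :=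
      ⟨(v + 1) * (p + 2) * (p + 2) * (p + 2) - 1, by
        have : 0 < (v + 1) * (p + 2) * (p + 2) * (p + 2) := by positivity
        omega⟩
    rw [hA, hB, Nat.add_sub_cancel, Nat.add_sub_cancel, show (p + 2) ^ 2 - 1 = (p + 1) * (p + 3) by
      ring_nf; omega] at hS
    rw [hA, hB, Nat.add_sub_cancel] at h1
    obtain ⟨t, ht⟩ : ∃ t, (v + 1) * (p + 2) = t + 2 :=
      ⟨(v + 1) * (p + 2) - 2, by have : 2 ≤ (v + 1) * (p + 2) := by nlinarith
                                 omega⟩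
    have hAt : A + 1 = (p + 2) * (p + 2) * (t + 2) := by rw [← hA, ← ht]; ring
    have hBt : B + 1 = (p + 2) * (t + 2) := by rw [← hB, ← ht]; ring
    rw [ht] at hS h1
    have hB0 : 0 < B := by nlinarith
    have e : (p + 1) * (p + 3) * S' = B * (t + 1) := by
      have e2 : (p + 1) * (p + 3) * (B * (t + 2)) + B * (t + 1) = A * B := by
        have : (p + 1) * (p + 3) * (t + 2) + (t + 1) = A := by
          have h : (p + 2) * (p + 2) = (p + 1) * (p + 3) + 1 := by ring
          rw [h, Nat.add_mul, one_mul] at hAt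
          omega
        rw [← this]; ring
      rw [Nat.mul_add] at hS
      omega
    have h2 : (p + 2) * (p + 2) * (t + 2) * S' ≤ B * (t + 2) := by
      refine Nat.le_of_mul_le_mul_right (c := (p + 2) ^ 2) ?_ (by positivity)
      rw [← hAt]
      linarith [h1]
    have h3 := Nat.mul_le_mul_left ((p + 1) * (p + 3)) h2
    have h4 : ((p + 2) * (p + 2) * (t + 1)) * (B * (t + 2)) ≤ ((p + 1) * (p + 3)) * (B * (t + 2)) := by
      refine le_trans (le_of_eq ?_) h3
      rw [show (p + 1) * (p + 3) * ((p + 2) * (p + 2) * (t + 2) * S') =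
        (p + 2) * (p + 2) * (t + 2) * ((p + 1) * (p + 3) * S') by ring, e]
      ring
    have h5 := Nat.le_of_mul_le_mul_right h4 (Nat.mul_pos hB0 (by omega))
    have h6 : (p + 2) * (p + 2) ≤ (p + 2) * (p + 2) * (t + 1) := Nat.le_mul_of_pos_right _ (by omega)
    have h7 : (p + 2) * (p + 2) = (p + 1) * (p + 3) + 1 := by ring
    omega

end CfsgLib.OrthMinusDeg
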