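import Cfsg.Agent.OrthPlusDeg.Weights2
import Cfsg.Agent.Classical.Orth.Forms
import Cfsg.Agent.Classical.Orth.Index
import Cfsg.Agent.Classical.Linear.Generation

/-!
Elements of the parabolic subgroup of `Omega^-_{2m+2}(q)` stabilising a maximal totally singular
subspace: Siegel elements, Eichler elements, Levi elements, coordinate swaps and a rotation.
-/

set_option autoImplicit false
set_option linter.unusedSectionVars false

noncomputable section

namespace CfsgLib.OrthMinusDeg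

open Cfsg.Geo CfsgLib.OrthGeo Matrix CfsgLib.OrthPlusDeg
open scoped MatrixGroups

/-- An anisotropic binary form `z₁² + a z₁ z₂ + b z₂²`. -/
structure Dat (F : Type*) [Field F] where
  a : F
  b : F
  aniso : ∀ z₁ z₂ : F, z₁ ^ 2 + a * z₁ * z₂ + b * z₂ ^ 2 = 0 → z₁ = 0 ∧ z₂ = 0

/-- The coordinate index. -/
abbrev Idx (m : ℕ) : Type := (Fin m ⊕ Fin m) ⊕ Fin 2

variable {F : Type*} [Field F] [Fintype F] [DecidableEq F] {m : ℕ} (M : Dat F)

/-- The form of minus type. -/
abbrev qM (m : ℕ) : (Idx m → F) → F := Cfsg.quadFormMinus m F M.a M.b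

/-- The isometry group. -/
abbrev IsoM (m : ℕ) : Subgroup (GL (Idx m) F) := Cfsg.isometryGroup F (qM M m)

/-- The group `Omega^-`. -/
abbrev OmM (m : ℕ) : Subgroup (IsoM M m) := Cfsg.Omega F (qM M m)

theorem nondeg (m : ℕ) : IsNondegenerateQuadraticForm (qM M m) :=
  CfsgLib.Classical.Orth.isNondegQF_quadFormMinus m M.a M.b M.aniso

/-- A vector from its three parts. -/
def mk (x y : Fin m → F) (z : Fin 2 → F) : Idx m → F := Sum.elim (Sum.elim x y) z

/-- A vector of the first totally singular subspace. -/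
def eV (x : Fin m → F) : Idx m → F := mk x 0 0

/-- A vector of the second totally singular subspace. -/
def fV (y : Fin m → F) : Idx m → F := mk 0 y 0

/-- A vector of the anisotropic plane. -/
def zV (z : Fin 2 → F) : Idx m → F := mk 0 0 z

theorem mk_eta (v : Idx m → F) :
    v = mk (fun i => v (.inl (.inl i))) (fun i => v (.inl (.inr i))) fun i => v (.inr i) := by
  funext i; rcases i with (i | i) | i <;> rfl

theorem exists_mk (v : Idx m → F) : ∃ x y z, v = mk x y z := ⟨_, _, _, mk_eta v⟩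

theorem mk_add (x y x' y' : Fin m → F) (z z' : Fin 2 → F) :
    mk x y z + mk x' y' z' = mk (x + x') (y + y') (z + z') := by
  funext i; rcases i with (i | i) | i <;> rfl

theorem mk_smul (c : F) (x y : Fin m → F) (z : Fin 2 → F) :
    c • mk x y z = mk (c • x) (c • y) (c • z) := by
  funext i; rcases i with (i | i) | i <;> rfl

theorem mk_inj {x y x' y' : Fin m → F} {z z' : Fin 2 → F} :
    mk x y z = mk x' y' z' ↔ x = x' ∧ y = y' ∧ z = z' := by
  refine ⟨fun h => ⟨?_, ?_, ?_⟩, fun h => by rw [h.1, h.2.1, h.2.2]⟩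
  · funext i; exact congrFun h (.inl (.inl i))
  · funext i; exact congrFun h (.inl (.inr i))
  · funext i; exact congrFun h (.inr i)

theorem mk_sub (x y x' y' : Fin m → F) (z z' : Fin 2 → F) :
    mk x y z - mk x' y' z' = mk (x - x') (y - y') (z - z') := by
  funext i; rcases i with (i | i) | i <;> rfl

/-- The binary form. -/
def nz (z : Fin 2 → F) : F := z 0 ^ 2 + M.a * z 0 * z 1 + M.b * z 1 ^ 2

/-- The matrix of the polar form of the binary form. -/
def Bz : Matrix (Fin 2) (Fin 2) F := !![2, M.a; M.a, 2 * M.b]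

/-- The polar form of the binary form. -/
def zb (z z' : Fin 2 → F) : F := z ⬝ᵥ Bz M *ᵥ z'

theorem zb_eq (z z' : Fin 2 → F) : zb M z z' =
    2 * z 0 * z' 0 + M.a * (z 0 * z' 1 + z 1 * z' 0) + 2 * M.b * z 1 * z' 1 := by
  simp [zb, Bz, dotProduct, Matrix.mulVec, Fin.sum_univ_two]
  ring

theorem zb_comm (z z' : Fin 2 → F) : zb M z z' = zb M z' z := by rw [zb_eq, zb_eq]; ring

theorem zb_self (z : Fin 2 → F) : zb M z z = 2 * nz M z := by rw [zb_eq, nz]; ring

theorem nz_add (z z' : Fin 2 → F) : nz M (z + z') = nz M z + nz M z' + zb M z z' := by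
  rw [zb_eq]; simp [nz]; ring

theorem det_Bz : (Bz M).det ≠ 0 := by
  have := CfsgLib.Classical.Orth.four_mul_sub_sq_ne_zero M.aniso
  rw [Bz, Matrix.det_fin_two_of]
  intro h
  exact this (by linear_combination h)

theorem qM_mk (x y : Fin m → F) (z : Fin 2 → F) : qM M m (mk x y z) = x ⬝ᵥ y + nz M z := by
  simp [qM, Cfsg.quadFormMinus, mk, nz, dotProduct]

theorem bform_mk (x y x' y' : Fin m → F) (z z' : Fin 2 → F) :
    bform (nondeg M m) (mk x y z) (mk x' y' z') = x ⬝ᵥ y' + x' ⬝ᵥ y + zb M z z' := by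
  have h := q_add (nondeg M m) (mk x y z) (mk x' y' z')
  rw [mk_add, qM_mk, qM_mk, qM_mk, nz_add, dotProduct_add, add_dotProduct, add_dotProduct] at h
  linear_combination -h

theorem qM_eV (x : Fin m → F) : qM M m (eV x) = 0 := by simp [eV, qM_mk, nz]

theorem qM_zV (z : Fin 2 → F) : qM M m (zV z : Idx m → F) = nz M z := by simp [zV, qM_mk]

/-- The underlying matrix. -/
abbrev mat (g : OmM M m) : Matrix (Idx m) (Idx m) F :=
  (((g : IsoM M m) : GL (Idx m) F) : Matrix (Idx m) (Idx m) F)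

theorem om_ext {g h : OmM M m} (H : ∀ x y z, mat M g *ᵥ mk x y z = mat M h *ᵥ mk x y z) : g = h := by
  apply Subtype.ext; apply Subtype.ext; apply gl_ext
  intro v
  obtain ⟨x, y, z, rfl⟩ := exists_mk v
  exact H x y z

theorem mat_mul_mulVec (g h : OmM M m) (v : Idx m → F) :
    mat M (g * h) *ᵥ v = mat M g *ᵥ (mat M h *ᵥ v) := by
  simp [mat, Matrix.mulVec_mulVec]

theorem mem_omega_of_eq {g : IsoM M m} (h : (g : GL (Idx m) F) ∈ omegaGL (qM M m)) : g ∈ OmM M m := by
  obtain ⟨g', hg', he⟩ := h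
  rwa [← Subtype.ext (p := fun x => x ∈ IsoM M m) he]

theorem five_le (hm : 3 ≤ m) : 5 ≤ Fintype.card (Idx m) := by
  simp
  omega

theorem hexc (hm : 3 ≤ m) : ¬ (Nat.card F = 2 ∧ Fintype.card (Idx m) = 4) := fun h => by
  have := five_le hm
  omega

variable (hm : 3 ≤ m)

open scoped Classical in
/-- An Eichler element. -/
def eich (u w : Idx m → F) : OmM M m :=
  if h : qM M m u = 0 ∧ bform (nondeg M m) u w = 0 then
    ⟨⟨eichler (nondeg M m) h.1 h.2, eichler_mem_isometryGroup (nondeg M m) h.1 h.2⟩,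
      mem_omega_of_eq M (eichler_mem_omega (nondeg M m) (five_le hm) h.1 h.2)⟩
  else 1

theorem coe_eich {u w : Idx m → F} (h1 : qM M m u = 0) (h2 : bform (nondeg M m) u w = 0) :
    ((eich M hm u w : IsoM M m) : GL (Idx m) F) = eichler (nondeg M m) h1 h2 := by
  rw [eich, dif_pos ⟨h1, h2⟩]

theorem eich_apply {u w : Idx m → F} (h1 : qM M m u = 0) (h2 : bform (nondeg M m) u w = 0)
    (v : Idx m → F) : mat M (eich M hm u w) *ᵥ v =
      v + bform (nondeg M m) w v • u - bform (nondeg M m) u v • w -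
        (qM M m w * bform (nondeg M m) u v) • u := by
  rw [mat, coe_eich M hm h1 h2, eichler_mulVec]

theorem conj_eich (g : IsoM M m) {u w : Idx m → F} (h1 : qM M m u = 0)
    (h2 : bform (nondeg M m) u w = 0) :
    g * (eich M hm u w : IsoM M m) * g⁻¹ =
      eich M hm (((g : GL (Idx m) F) : Matrix _ _ F) *ᵥ u) (((g : GL (Idx m) F) : Matrix _ _ F) *ᵥ w) := by
  have h1' : qM M m (((g : GL (Idx m) F) : Matrix _ _ F) *ᵥ u) = 0 :=
    (mem_isometryGroup.1 g.2 u).trans h1
  have h2' : bform (nondeg M m) (((g : GL (Idx m) F) : Matrix _ _ F) *ᵥ u)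
      (((g : GL (Idx m) F) : Matrix _ _ F) *ᵥ w) = 0 := (isometry_b (nondeg M m) g.2 _ _).trans h2
  apply Subtype.ext
  rw [Subgroup.coe_mul, Subgroup.coe_mul, Subgroup.coe_inv, coe_eich M hm h1 h2, coe_eich M hm h1' h2']
  exact conj_eichler (nondeg M m) g.2 _ _ _ _ rfl rfl

theorem semiconj_eich (g : OmM M m) {u w u' w' : Idx m → F} (h1 : qM M m u = 0)
    (h2 : bform (nondeg M m) u w = 0) (eu : mat M g *ᵥ u = u') (ew : mat M g *ᵥ w = w') :
    g * eich M hm u w = eich M hm u' w' * g := by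
  apply Subtype.ext
  rw [Subgroup.coe_mul, Subgroup.coe_mul, ← eu, ← ew, ← conj_eich M hm _ h1 h2, inv_mul_cancel_right]

theorem eich_add {u w w' : Idx m → F} (h1 : qM M m u = 0) (h2 : bform (nondeg M m) u w = 0)
    (h3 : bform (nondeg M m) u w' = 0) :
    eich M hm u (w + w') = eich M hm u w * eich M hm u w' := by
  have hs : bform (nondeg M m) u (w + w') = 0 := by rw [map_add, h2, h3, add_zero]
  apply Subtype.ext; apply Subtype.ext
  rw [Subgroup.coe_mul, Subgroup.coe_mul, coe_eich M hm h1 hs, coe_eich M hm h1 h2, coe_eich M hm h1 h3,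
    eichler_mul (nondeg M m) h1 h2 h3 hs]

/-- The element `E(x, z)` moving a totally singular vector into the anisotropic plane. -/
def eE (x : Fin m → F) (z : Fin 2 → F) : OmM M m := eich M hm (eV x) (zV z)

theorem eE_cond (x : Fin m → F) (z : Fin 2 → F) : bform (nondeg M m) (eV x) (zV z) = 0 := by
  simp [eV, zV, bform_mk, zb, -bform_apply]

theorem eE_apply (x : Fin m → F) (z : Fin 2 → F) (X Y : Fin m → F) (Z : Fin 2 → F) :
    mat M (eE M hm x z) *ᵥ mk X Y Z =
      mk (X + (zb M z Z - nz M z * (x ⬝ᵥ Y)) • x) Y (Z - (x ⬝ᵥ Y) • z) := by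
  rw [eE, eich_apply M hm (qM_eV M x) (eE_cond M x z), qM_zV]
  simp only [eV, zV, bform_mk, mk_smul, mk_add, mk_sub, mk_inj]
  refine ⟨?_, ?_, ?_⟩ <;> funext i <;> simp [zb] <;> ring

theorem eE_add (x : Fin m → F) (z z' : Fin 2 → F) :
    eE M hm x (z + z') = eE M hm x z * eE M hm x z' := by
  rw [eE, eE, eE, ← eich_add M hm (qM_eV M x) (eE_cond M x z) (eE_cond M x z')]
  simp [zV, mk_add]

/-- A transvection of the Levi subgroup. -/
def tT (x y : Fin m → F) : OmM M m := eich M hm (eV x) (fV y)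

theorem tT_cond {x y : Fin m → F} (h : x ⬝ᵥ y = 0) : bform (nondeg M m) (eV x) (fV y) = 0 := by
  simp [eV, fV, bform_mk, zb, h, -bform_apply]

theorem tT_apply {x y : Fin m → F} (h : x ⬝ᵥ y = 0) (X Y : Fin m → F) (Z : Fin 2 → F) :
    mat M (tT M hm x y) *ᵥ mk X Y Z = mk (X + (X ⬝ᵥ y) • x) (Y - (x ⬝ᵥ Y) • y) Z := by
  rw [tT, eich_apply M hm (qM_eV M x) (tT_cond M h)]
  simp only [eV, fV, bform_mk, mk_smul, mk_add, mk_sub, mk_inj, qM_mk]
  refine ⟨?_, ?_, ?_⟩ <;> funext i <;> simp [zb, nz, dotProduct_comm y] <;> ring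

theorem tT_add {x y y' : Fin m → F} (h : x ⬝ᵥ y = 0) (h' : x ⬝ᵥ y' = 0) :
    tT M hm x (y + y') = tT M hm x y * tT M hm x y' := by
  rw [tT, tT, tT, ← eich_add M hm (qM_eV M x) (tT_cond M h) (tT_cond M h')]
  simp [fV, mk_add]

/-- The parameter of a root element of the Siegel radical. -/
def wflat (x x' : Fin m → F) : Fin m × Fin m → F := flat2 (vecMulVec x x')

/-- A Siegel element, as an isometry. -/
def sIso (v : Fin m × Fin m → F) : IsoM M m :=
  ⟨⟨fromBlocks (fromBlocks 1 (altOf v) 0 1) 0 0 1, fromBlocks (fromBlocks 1 (-altOf v) 0 1) 0 0 1,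
    by simp [fromBlocks_multiply], by simp [fromBlocks_multiply]⟩,
   mem_isometryGroup.2 fun u => by
    obtain ⟨x, y, z, rfl⟩ := exists_mk u
    have e : fromBlocks (fromBlocks 1 (altOf v) 0 1) 0 0 1 *ᵥ mk x y z = mk (x + altOf v *ᵥ y) y z := by
      simp [mk, fromBlocks_mulVec]
    rw [e, qM_mk, qM_mk, add_dotProduct, dotProduct_comm (altOf v *ᵥ y),
      dot_alt_self (isAlt_altOf v), add_zero]⟩

theorem sIso_apply (v : Fin m × Fin m → F) (X Y : Fin m → F) (Z : Fin 2 → F) :
    ((sIso M v : GL (Idx m) F) : Matrix (Idx m) (Idx m) F) *ᵥ mk X Y Z = mk (X + altOf v *ᵥ Y) Y Z := by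
  change fromBlocks (fromBlocks 1 (altOf v) 0 1) 0 0 1 *ᵥ mk X Y Z = _
  simp [mk, fromBlocks_mulVec]

theorem sIso_add (u v : Fin m × Fin m → F) : sIso M (u + v) = sIso M u * sIso M v := by
  apply Subtype.ext; apply Units.ext
  change fromBlocks (fromBlocks 1 (altOf (u + v)) 0 1) 0 0 1 =
    fromBlocks (fromBlocks 1 (altOf u) 0 1) 0 0 1 * fromBlocks (fromBlocks 1 (altOf v) 0 1) 0 0 1
  simp [fromBlocks_multiply, altOf_add, add_comm]

theorem altOf_wflat (x x' : Fin m → F) : altOf (wflat x x') = wedge x x' := by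
  ext i j; simp [altOf_apply, wflat, flat2, wedge_apply, vecMulVec_apply]; ring

theorem altOf_wflat_smul (c : F) (x x' : Fin m → F) : altOf (c • wflat x x') = c • wedge x x' := by
  rw [altOf_smul, altOf_wflat]

theorem eich_eV_eV (x x' : Fin m → F) (X Y : Fin m → F) (Z : Fin 2 → F) :
    mat M (eich M hm (eV x) (eV x')) *ᵥ mk X Y Z = mk (X + wedge x x' *ᵥ Y) Y Z := by
  have h : bform (nondeg M m) (eV x : Idx m → F) (eV x') = 0 := by simp [eV, bform_mk, zb, -bform_apply]
  rw [eich_apply M hm (qM_eV M x) h]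
  simp only [eV, bform_mk, mk_smul, mk_add, mk_sub, mk_inj, qM_mk]
  refine ⟨?_, ?_, ?_⟩ <;> funext i <;>
    simp [zb, nz, wedge, Matrix.sub_mulVec, Matrix.vecMulVec_mulVec, op_smul_eq_smul]
  ring

theorem sIso_mem (hm : 3 ≤ m) (v : Fin m × Fin m → F) : sIso M v ∈ OmM M m := by
  classical
  have h0 : sIso M (0 : Fin m × Fin m → F) = 1 := by
    have := sIso_add M (0 : Fin m × Fin m → F) 0
    rwa [add_zero, left_eq_mul] at this
  have key : ∀ (p : Fin m × Fin m) (c : F), sIso M (Pi.single p c) ∈ OmM M m := by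
    intro p c
    have e : sIso M (Pi.single p c) = (eich M hm (eV (Pi.single p.1 c)) (eV (Pi.single p.2 1)) : IsoM M m) := by
      apply Subtype.ext; apply gl_ext
      intro u
      obtain ⟨X, Y, Z, rfl⟩ := exists_mk u
      have := eich_eV_eV M hm (Pi.single p.1 c) (Pi.single p.2 1) X Y Z
      rw [mat] at this
      rw [sIso_apply, this]
      obtain ⟨p1, p2⟩ := p
      have hp : (Pi.single (p1, p2) c : Fin m × Fin m → F) = wflat (Pi.single p1 c) (Pi.single p2 1) := by
        funext l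
        obtain ⟨i, j⟩ := l
        by_cases hi : i = p1 <;> by_cases hj : j = p2 <;>
          simp [wflat, flat2, vecMulVec_apply, hi, hj]
      rw [hp, altOf_wflat]
    rw [e]; exact SetLike.coe_mem _
  rw [← Finset.univ_sum_single v]
  induction (Finset.univ : Finset (Fin m × Fin m)) using Finset.induction with
  | empty => rw [Finset.sum_empty, h0]; exact one_mem _
  | insert p s hp ih => rw [Finset.sum_insert hp, sIso_add]; exact mul_mem (key p _) ih

/-- A Siegel element. -/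
def sS (v : Fin m × Fin m → F) : OmM M m := ⟨sIso M v, sIso_mem M hm v⟩

theorem sS_apply (v : Fin m × Fin m → F) (X Y : Fin m → F) (Z : Fin 2 → F) :
    mat M (sS M hm v) *ᵥ mk X Y Z = mk (X + altOf v *ᵥ Y) Y Z := sIso_apply M v X Y Z

theorem sS_add (u v : Fin m × Fin m → F) : sS M hm (u + v) = sS M hm u * sS M hm v :=
  Subtype.ext (sIso_add M u v)

theorem sS_zero : sS M hm (0 : Fin m × Fin m → F) = 1 := by
  have := sS_add M hm (0 : Fin m × Fin m → F) 0
  rwa [add_zero, left_eq_mul] at this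

theorem sS_congr {u v : Fin m × Fin m → F} (h : altOf u = altOf v) : sS M hm u = sS M hm v :=
  om_ext M fun X Y Z => by rw [sS_apply, sS_apply, h]

theorem sS_wflat (x x' : Fin m → F) : sS M hm (wflat x x') = eich M hm (eV x) (eV x') :=
  om_ext M fun X Y Z => by rw [sS_apply, eich_eV_eV, altOf_wflat]

theorem sS_smul_wflat (c : F) (x x' : Fin m → F) :
    sS M hm (c • wflat x x') = eich M hm (eV x) (eV (c • x')) :=
  om_ext M fun X Y Z => by
    rw [sS_apply, eich_eV_eV, altOf_wflat_smul]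
    congr 3
    ext i j; simp [wedge_apply]; ring

theorem sS_comm_eE (v : Fin m × Fin m → F) (x : Fin m → F) (z : Fin 2 → F) :
    sS M hm v * eE M hm x z = eE M hm x z * sS M hm v :=
  semiconj_eich M hm _ (qM_eV M x) (eE_cond M x z) (by rw [eV, sS_apply]; simp)
    (by rw [zV, sS_apply]; simp)

theorem eE_comm_eE (x x' : Fin m → F) (z z' : Fin 2 → F) :
    eE M hm x z * eE M hm x' z' =
      eE M hm x' z' * sS M hm (zb M z z' • wflat x' x) * eE M hm x z := by
  have h1 : bform (nondeg M m) (eV x' : Idx m → F) (zV z') = 0 := eE_cond M x' z'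
  have h2 : bform (nondeg M m) (eV x' : Idx m → F) (eV (zb M z z' • x)) = 0 := by
    simp [eV, bform_mk, zb, -bform_apply]
  rw [sS_smul_wflat]
  change _ = eich M hm (eV x') (zV z') * eich M hm (eV x') (eV (zb M z z' • x)) * _
  rw [← eich_add M hm (qM_eV M x') h1 h2]
  refine semiconj_eich M hm _ (qM_eV M x') h1 ?_ ?_
  · rw [eV, eE_apply]; simp [mk_inj, zb]
  · rw [zV, eE_apply]
    simp [eV, mk_add, mk_inj]

theorem eE_comm_tT {x y : Fin m → F} (h : x ⬝ᵥ y = 0) (x' : Fin m → F) (z : Fin 2 → F) :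
    eE M hm x' z * tT M hm x y = tT M hm x y * eE M hm x (-(x' ⬝ᵥ y) • z) *
      sS M hm ((-(x' ⬝ᵥ y) * nz M z) • wflat x x') * eE M hm x' z := by
  have h1 := tT_cond M h
  have h2 : bform (nondeg M m) (eV x : Idx m → F) (zV (-(x' ⬝ᵥ y) • z)) = 0 := eE_cond M _ _
  have h3 : bform (nondeg M m) (eV x : Idx m → F) (eV ((-(x' ⬝ᵥ y) * nz M z) • x')) = 0 := by
    simp [eV, bform_mk, zb, -bform_apply]
  rw [sS_smul_wflat]
  change _ = eich M hm (eV x) (fV y) * eich M hm (eV x) (zV _) * eich M hm (eV x) (eV _) * _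
  rw [← eich_add M hm (qM_eV M x) h1 h2, ← eich_add M hm (qM_eV M x) (by rw [map_add, h1, h2, add_zero]) h3]
  refine semiconj_eich M hm _ (qM_eV M x) h1 ?_ ?_
  · rw [eV, eE_apply]; simp [mk_inj, zb]
  · rw [fV, eE_apply]
    simp [zV, eV, mk_add, mk_inj, zb, mul_comm (nz M z), sub_eq_add_neg]

theorem eE_add_left (x x' : Fin m → F) (z : Fin 2 → F) :
    eE M hm x z * eE M hm x' z = eE M hm (x + x') z * sS M hm (nz M z • wflat x' x) := by
  refine om_ext M fun X Y Z => ?_
  rw [mat_mul_mulVec, mat_mul_mulVec, eE_apply, eE_apply, sS_apply, eE_apply, altOf_wflat_smul]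
  simp only [mk_inj]
  refine ⟨?_, trivial, ?_⟩
  · funext i
    simp [zb_eq, nz, wedge, Matrix.smul_mulVec, Matrix.sub_mulVec, Matrix.vecMulVec_mulVec,
      op_smul_eq_smul, add_dotProduct]
    ring
  · funext i; simp [add_dotProduct]; ring

/-! ### The Levi subgroup -/

/-- The Levi embedding. -/
def levi3 : GL (Fin m) F →* IsoM M m where
  toFun g :=
    ⟨⟨fromBlocks (fromBlocks (g : Matrix (Fin m) (Fin m) F) 0 0
          ((g⁻¹ : GL (Fin m) F) : Matrix (Fin m) (Fin m) F)ᵀ) 0 0 1,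
      fromBlocks (fromBlocks ((g⁻¹ : GL (Fin m) F) : Matrix (Fin m) (Fin m) F) 0 0
          (g : Matrix (Fin m) (Fin m) F)ᵀ) 0 0 1,
      by simp [fromBlocks_multiply, ← transpose_mul],
      by simp [fromBlocks_multiply, ← transpose_mul]⟩,
     mem_isometryGroup.2 fun u => by
      obtain ⟨x, y, z, rfl⟩ := exists_mk u
      have e : fromBlocks (fromBlocks (g : Matrix (Fin m) (Fin m) F) 0 0
          ((g⁻¹ : GL (Fin m) F) : Matrix (Fin m) (Fin m) F)ᵀ) 0 0 1 *ᵥ mk x y z =
          mk ((g : Matrix (Fin m) (Fin m) F) *ᵥ x)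
            (((g⁻¹ : GL (Fin m) F) : Matrix (Fin m) (Fin m) F)ᵀ *ᵥ y) z := by
        simp [mk, fromBlocks_mulVec]
      rw [e, qM_mk, qM_mk, mulVec_transpose, dotProduct_comm, ← dotProduct_mulVec, mulVec_mulVec,
        ← Units.val_mul, inv_mul_cancel, Units.val_one, one_mulVec, dotProduct_comm]⟩
  map_one' := Subtype.ext (Units.ext (by simp))
  map_mul' g h := Subtype.ext (Units.ext (by simp [fromBlocks_multiply, transpose_mul]))

theorem levi3_apply (g : GL (Fin m) F) (X Y : Fin m → F) (Z : Fin 2 → F) :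
    ((levi3 M g : GL (Idx m) F) : Matrix (Idx m) (Idx m) F) *ᵥ mk X Y Z =
      mk ((g : Matrix (Fin m) (Fin m) F) *ᵥ X)
        (((g⁻¹ : GL (Fin m) F) : Matrix (Fin m) (Fin m) F)ᵀ *ᵥ Y) Z := by
  change fromBlocks (fromBlocks _ 0 0 _) 0 0 1 *ᵥ mk X Y Z = _
  simp [mk, fromBlocks_mulVec]

theorem levi3_sl_mem (hm : 3 ≤ m) (g : Matrix.SpecialLinearGroup (Fin m) F) :
    levi3 M (Matrix.SpecialLinearGroup.toGL g) ∈ OmM M m := by
  refine CfsgLib.Classical.Linear.sl_induction
    (P := fun g => levi3 M (Matrix.SpecialLinearGroup.toGL g) ∈ OmM M m)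
    (by simp) (fun i j hij c => ?_)
    (fun A B hA hB => by simp only [map_mul]; exact mul_mem hA hB) g
  set T := Matrix.SpecialLinearGroup.transvection hij c
  have hinv : (((Matrix.SpecialLinearGroup.toGL T)⁻¹ : GL (Fin m) F) : Matrix (Fin m) (Fin m) F) =
      Matrix.transvection i j (-c) := by
    refine Units.inv_eq_of_mul_eq_one_right ?_
    change Matrix.transvection i j c * _ = 1
    rw [Matrix.transvection_mul_transvection_same _ _ hij, add_neg_cancel, Matrix.transvection_zero]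
  have h : (Pi.single i 1 : Fin m → F) ⬝ᵥ Pi.single j c = 0 := by simp [hij]
  have e : levi3 M (Matrix.SpecialLinearGroup.toGL T) =
      (tT M hm (Pi.single i 1) (Pi.single j c) : IsoM M m) := by
    apply Subtype.ext; apply gl_ext
    intro u
    obtain ⟨X, Y, Z, rfl⟩ := exists_mk u
    have e2 := tT_apply M hm h X Y Z
    rw [mat] at e2
    rw [levi3_apply, e2, hinv, mk_inj]
    refine ⟨?_, ?_, rfl⟩
    · change Matrix.transvection i j c *ᵥ X = _
      simp [Matrix.transvection, Matrix.add_mulVec, Matrix.single_mulVec, Function.update_apply]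
      funext l
      by_cases hl : l = i <;> simp [hl] <;> ring
    · simp [Matrix.transvection, Matrix.add_mulVec, Matrix.transpose_single, Matrix.single_mulVec,
        Function.update_apply]
      funext l
      by_cases hl : l = j <;> simp [hl] <;> ring
  rw [e]; exact SetLike.coe_mem _

/-- `SL_m` inside `Omega`. -/
def slM : Matrix.SpecialLinearGroup (Fin m) F →* OmM M m where
  toFun g := ⟨levi3 M (Matrix.SpecialLinearGroup.toGL g), levi3_sl_mem M hm g⟩
  map_one' := Subtype.ext (by simp)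
  map_mul' g h := Subtype.ext (by simp)

theorem slM_apply (g : Matrix.SpecialLinearGroup (Fin m) F) (X Y : Fin m → F) (Z : Fin 2 → F) :
    mat M (slM M hm g) *ᵥ mk X Y Z = mk ((g : Matrix (Fin m) (Fin m) F) *ᵥ X)
      (((g⁻¹ : Matrix.SpecialLinearGroup (Fin m) F) : Matrix (Fin m) (Fin m) F)ᵀ *ᵥ Y) Z := by
  change (((levi3 M (Matrix.SpecialLinearGroup.toGL g) : IsoM M m) : GL (Idx m) F) :
    Matrix (Idx m) (Idx m) F) *ᵥ _ = _
  rw [levi3_apply, ← map_inv]
  rfl

theorem slM_sS (g : Matrix.SpecialLinearGroup (Fin m) F) (v : Fin m × Fin m → F) :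
    slM M hm g * sS M hm v =
      sS M hm (flat2 ((g : Matrix (Fin m) (Fin m) F) * sq2 v * (g : Matrix (Fin m) (Fin m) F)ᵀ)) *
        slM M hm g := by
  refine om_ext M fun X Y Z => ?_
  rw [mat_mul_mulVec, mat_mul_mulVec, sS_apply, slM_apply, slM_apply, sS_apply]
  have hA : altOf (flat2 ((g : Matrix (Fin m) (Fin m) F) * sq2 v * (g : Matrix (Fin m) (Fin m) F)ᵀ)) =
      (g : Matrix (Fin m) (Fin m) F) * altOf v * (g : Matrix (Fin m) (Fin m) F)ᵀ := by
    change (g : Matrix (Fin m) (Fin m) F) * sq2 v * (g : Matrix (Fin m) (Fin m) F)ᵀ -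
      ((g : Matrix (Fin m) (Fin m) F) * sq2 v * (g : Matrix (Fin m) (Fin m) F)ᵀ)ᵀ = _ * (sq2 v - (sq2 v)ᵀ) * _
    simp [Matrix.mul_sub, Matrix.sub_mul, Matrix.transpose_mul, Matrix.mul_assoc]
  have h1 : (g : Matrix (Fin m) (Fin m) F)ᵀ *
      ((g⁻¹ : Matrix.SpecialLinearGroup (Fin m) F) : Matrix (Fin m) (Fin m) F)ᵀ = 1 := by
    rw [← Matrix.transpose_mul, ← Matrix.SpecialLinearGroup.coe_mul, inv_mul_cancel,
      Matrix.SpecialLinearGroup.coe_one, Matrix.transpose_one]
  rw [hA, mk_inj]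
  refine ⟨?_, rfl, rfl⟩
  rw [Matrix.mulVec_mulVec, Matrix.mul_assoc, Matrix.mul_assoc, h1, Matrix.mul_one, Matrix.mulVec_add,
    Matrix.mulVec_mulVec]

theorem slM_eE (g : Matrix.SpecialLinearGroup (Fin m) F) (x : Fin m → F) (z : Fin 2 → F) :
    slM M hm g * eE M hm x z = eE M hm ((g : Matrix (Fin m) (Fin m) F) *ᵥ x) z * slM M hm g :=
  semiconj_eich M hm _ (qM_eV M x) (eE_cond M x z) (by rw [eV, slM_apply]; simp [eV])
    (by rw [zV, slM_apply]; simp [zV])

theorem slM_tT (g : Matrix.SpecialLinearGroup (Fin m) F) {x y : Fin m → F} (h : x ⬝ᵥ y = 0) :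
    slM M hm g * tT M hm x y = tT M hm ((g : Matrix (Fin m) (Fin m) F) *ᵥ x)
      (((g⁻¹ : Matrix.SpecialLinearGroup (Fin m) F) : Matrix (Fin m) (Fin m) F)ᵀ *ᵥ y) * slM M hm g :=
  semiconj_eich M hm _ (qM_eV M x) (tT_cond M h) (by rw [eV, slM_apply]; simp [eV])
    (by rw [fV, slM_apply]; simp [fV])

theorem tT_sS {x y : Fin m → F} (h : x ⬝ᵥ y = 0) (v : Fin m × Fin m → F) :
    tT M hm x y * sS M hm v = sS M hm (flat2 ((1 + vecMulVec x y) * sq2 v * (1 + vecMulVec x y)ᵀ)) *
      tT M hm x y := by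
  have hd : (1 + vecMulVec x y : Matrix (Fin m) (Fin m) F).det = 1 := by
    rw [Matrix.vecMulVec_eq Unit, Matrix.det_one_add_replicateCol_mul_replicateRow, dotProduct_comm, h,
      add_zero]
  let g : Matrix.SpecialLinearGroup (Fin m) F := ⟨1 + vecMulVec x y, hd⟩
  have hinv : ((g⁻¹ : Matrix.SpecialLinearGroup (Fin m) F) : Matrix (Fin m) (Fin m) F) =
      1 - vecMulVec x y := by
    rw [Matrix.SpecialLinearGroup.coe_inv]
    have h2 : (g : Matrix (Fin m) (Fin m) F) * (1 - vecMulVec x y) = 1 := by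
      change (1 + vecMulVec x y) * (1 - vecMulVec x y) = 1
      rw [Matrix.add_mul, Matrix.mul_sub, Matrix.mul_sub, Matrix.vecMulVec_mul_vecMulVec, dotProduct_comm, h]
      simp
    have h3 := congrArg (fun N => Matrix.adjugate (g : Matrix (Fin m) (Fin m) F) * N) h2
    simp only [← Matrix.mul_assoc, Matrix.adjugate_mul, Matrix.mul_one] at h3
    rw [show (g : Matrix (Fin m) (Fin m) F).det = 1 from hd, one_smul, Matrix.one_mul] at h3
    exact h3.symm
  have e : tT M hm x y = slM M hm g := by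
    refine om_ext M fun X Y Z => ?_
    rw [tT_apply M hm h, slM_apply, hinv, mk_inj]
    refine ⟨?_, ?_, rfl⟩
    · change _ = (1 + vecMulVec x y) *ᵥ X
      rw [Matrix.add_mulVec, Matrix.one_mulVec, Matrix.vecMulVec_mulVec, op_smul_eq_smul, dotProduct_comm]
    · rw [Matrix.transpose_sub, Matrix.transpose_one, Matrix.transpose_vecMulVec, Matrix.sub_mulVec,
        Matrix.one_mulVec, Matrix.vecMulVec_mulVec, op_smul_eq_smul]
  rw [e]
  exact slM_sS M hm g v

/-! ### Coordinate swaps -/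

/-- The permutation exchanging the two halves at the chosen places. -/
def swapIdx (s : Fin m → Bool) : Idx m → Idx m
  | .inl (.inl i) => if s i then .inl (.inr i) else .inl (.inl i)
  | .inl (.inr i) => if s i then .inl (.inl i) else .inl (.inr i)
  | .inr j => .inr j

theorem swapIdx_swapIdx (s : Fin m → Bool) (l : Idx m) : swapIdx s (swapIdx s l) = l := by
  rcases l with (i | i) | j <;> simp only [swapIdx]
  · by_cases h : s i <;> simp [h, swapIdx]
  · by_cases h : s i <;> simp [h, swapIdx]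

theorem swapMat_mulVec (s : Fin m → Bool) (v : Idx m → F) :
    (1 : Matrix (Idx m) (Idx m) F).submatrix (swapIdx s) id *ᵥ v = v ∘ swapIdx s := by
  funext l
  simp [Matrix.mulVec, dotProduct, Matrix.one_apply]

theorem swapMat_mul_self (s : Fin m → Bool) :
    (1 : Matrix (Idx m) (Idx m) F).submatrix (swapIdx s) id *
      (1 : Matrix (Idx m) (Idx m) F).submatrix (swapIdx s) id = 1 :=
  Matrix.ext_of_mulVec_single fun i => by
    rw [← Matrix.mulVec_mulVec, swapMat_mulVec, swapMat_mulVec, Matrix.one_mulVec]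
    funext l
    simp [Function.comp, swapIdx_swapIdx]

/-- The swap isometry. -/
def swapM (s : Fin m → Bool) : IsoM M m :=
  ⟨⟨(1 : Matrix (Idx m) (Idx m) F).submatrix (swapIdx s) id,
    (1 : Matrix (Idx m) (Idx m) F).submatrix (swapIdx s) id, swapMat_mul_self s, swapMat_mul_self s⟩,
   mem_isometryGroup.2 fun u => by
    change qM M m ((1 : Matrix (Idx m) (Idx m) F).submatrix (swapIdx s) id *ᵥ u) = _
    rw [swapMat_mulVec]
    simp only [qM, Cfsg.quadFormMinus, Function.comp]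
    congr 1
    refine Finset.sum_congr rfl fun i _ => ?_
    by_cases h : s i <;> simp [swapIdx, h, mul_comm]⟩

theorem swapM_apply (s : Fin m → Bool) (X Y : Fin m → F) (Z : Fin 2 → F) :
    ((swapM M s : GL (Idx m) F) : Matrix (Idx m) (Idx m) F) *ᵥ mk X Y Z =
      mk (fun i => if s i then Y i else X i) (fun i => if s i then X i else Y i) Z := by
  change (1 : Matrix (Idx m) (Idx m) F).submatrix (swapIdx s) id *ᵥ mk X Y Z = _
  rw [swapMat_mulVec]
  funext l
  rcases l with (i | i) | j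
  · by_cases h : s i <;> simp [Function.comp, swapIdx, mk, h]
  · by_cases h : s i <;> simp [Function.comp, swapIdx, mk, h]
  · simp [Function.comp, swapIdx, mk]

/-! ### A rotation of the anisotropic plane -/

include hm in
/-- A rotation in `Omega` without nonzero fixed vectors in the plane. -/
theorem exists_rotation : ∃ (g : OmM M m) (ρ : (Fin 2 → F) →ₗ[F] (Fin 2 → F)),
    (∀ X Y Z, mat M g *ᵥ mk X Y Z = mk X Y (ρ Z)) ∧ ∀ Z, ρ Z = Z → Z = 0 := by
  classical
  obtain ⟨z', hz', hzi⟩ : ∃ z' : Fin 2 → F, nz M z' = 1 ∧ z' 1 ≠ 0 := by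
    have hb : M.b ≠ 0 := fun h => one_ne_zero (M.aniso 0 1 (by rw [h]; ring)).2
    by_cases ha : M.a = 0
    · have hb1 : (1 : F) + M.b ≠ 0 := fun h =>
        one_ne_zero (M.aniso 1 1 (by rw [ha]; linear_combination h)).1
      have h2 : (2 : F) ≠ 0 := fun h => det_Bz M (by rw [Bz, Matrix.det_fin_two_of, ha, h]; ring)
      refine ⟨![1 - 2 / (1 + M.b), -(2 / (1 + M.b))], ?_, by simp [h2, hb1]⟩
      simp [nz, ha]
      field_simp
      ring
    · refine ⟨![1, -(M.a / M.b)], ?_, by simp [ha, hb]⟩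
      simp [nz]
      field_simp
      ring
  set z : Fin 2 → F := ![1, 0] with hz
  have hnz : nz M z = 1 := by simp [hz, nz]
  have hq : ∀ w : Fin 2 → F, nz M w = 1 → qM M m (zV w : Idx m → F) ≠ 0 := fun w hw => by
    rw [qM_zV, hw]; exact one_ne_zero
  set hu := hq z hnz
  set hv := hq z' hz'
  have hsq : IsSquare (qM M m (zV z : Idx m → F) * qM M m (zV z')) := by
    rw [qM_zV, qM_zV, hnz, hz', mul_one]; exact IsSquare.one
  let r : (Fin 2 → F) → (Fin 2 → F) →ₗ[F] (Fin 2 → F) := fun w =>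
    LinearMap.id - ((dotProductBilin F F) (Bz M *ᵥ w)).smulRight w
  have hfix : ∀ w Z' : Fin 2 → F, r w Z' = Z' - zb M w Z' • w := fun w Z' => by
    have e : (Bz M *ᵥ w) ⬝ᵥ Z' = zb M w Z' := by rw [dotProduct_comm, zb_comm M w Z', zb]
    change Z' - ((Bz M *ᵥ w) ⬝ᵥ Z') • w = _
    rw [e]
  have hr : ∀ (w : Fin 2 → F) (hw : nz M w = 1) (X Y : Fin m → F) (Z : Fin 2 → F),
      ((reflection (nondeg M m) (hq w hw) : GL (Idx m) F) : Matrix (Idx m) (Idx m) F) *ᵥ mk X Y Z =
        mk X Y (r w Z) := by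
    intro w hw X Y Z
    rw [reflection_mulVec (nondeg M m) (hq w hw), qM_zV, hw]
    simp only [zV, bform_mk, mk_smul, mk_sub, mk_inj]
    refine ⟨by simp, by simp, ?_⟩
    simp [hfix]
  refine ⟨⟨_, CfsgLib.Classical.Orth.refl_mul_refl_mem_omega (nondeg M m) (hexc hm) hu hv hsq⟩,
    (r z').comp (r z), fun X Y Z => ?_, fun Z hZ => ?_⟩
  · change ((CfsgLib.Classical.Orth.refl (nondeg M m) hv * CfsgLib.Classical.Orth.refl (nondeg M m) hu :
      IsoM M m) : GL (Idx m) F).1 *ᵥ _ = _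
    rw [Subgroup.coe_mul, Units.val_mul, ← Matrix.mulVec_mulVec, CfsgLib.Classical.Orth.coe_refl,
      CfsgLib.Classical.Orth.coe_refl, hr z hnz, hr z' hz']
    rfl
  · simp only [LinearMap.comp_apply] at hZ
    rw [hfix, hfix] at hZ
    set c := zb M z Z
    set c' := zb M z' (Z - c • z)
    have h1 := congrFun hZ 1
    simp only [hz, Pi.sub_apply, Pi.smul_apply, smul_eq_mul, Matrix.cons_val_one, Matrix.cons_val_fin_one,
      mul_zero, sub_zero, sub_eq_self] at h1
    have hc' : c' = 0 := (mul_eq_zero.1 h1).resolve_right hzi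
    have h0 := congrFun hZ 0
    simp only [hz, hc', Pi.sub_apply, Pi.smul_apply, smul_eq_mul, Matrix.cons_val_zero, mul_one, zero_mul,
      sub_zero, sub_eq_self] at h0
    have h2 : zb M z' Z = 0 := by
      have : c' = 0 := hc'
      simp only [c'] at this
      rwa [show c = 0 from h0, zero_smul, sub_zero] at this
    have h3 : zb M z Z = 0 := h0
    have hB : Bz M *ᵥ Z = 0 := by
      have e0 : (Bz M *ᵥ Z) 0 = 0 := by
        rw [zb, hz] at h3
        simpa [dotProduct, Fin.sum_univ_two] using h3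
      funext i
      fin_cases i
      · exact e0
      · rw [zb, dotProduct, Fin.sum_univ_two, e0, mul_zero, zero_add] at h2
        exact (mul_eq_zero.1 h2).resolve_left hzi
    exact Matrix.eq_zero_of_mulVec_eq_zero (det_Bz M) hB

end CfsgLib.OrthMinusDeg
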