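import Cfsg.Agent.OrthMinusDeg.ZeroWeight

/-!
For `m = 3` the fixed space of the transvections on the weight zero space has dimension at least
`q - 1`.
-/

set_option autoImplicit false
set_option linter.unusedSectionVars false

noncomputable section

namespace CfsgLib.OrthMinusDeg

open Cfsg.Geo CfsgLib.OrthGeo Matrix CfsgLib.OrthPlusDeg
open scoped MatrixGroups

variable {F : Type*} [Field F] [Fintype F] [DecidableEq F] {k : ℕ} (M : Dat F) (hm : 3 ≤ 3)
variable (R : OmM M 3 →* Matrix (Fin k) (Fin k) ℂ) {ψ : AddChar F ℂ}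

/-- The swap of the last coordinate. -/
def swapLast : IsoM M 3 := swapM M fun i => decide (i = 2)

theorem swapLast_mk (X Y : Fin 3 → F) (Z : Fin 2 → F) :
    (((swapLast M : IsoM M 3) : GL (Idx 3) F) : Matrix (Idx 3) (Idx 3) F) *ᵥ mk X Y Z =
      mk ![X 0, X 1, Y 2] ![Y 0, Y 1, X 2] Z := by
  rw [swapLast, swapM_apply, mk_inj]
  refine ⟨?_, ?_, rfl⟩ <;> funext i <;> fin_cases i <;> simp

/-- The twist by the swap of the last coordinate. -/
def twistLast : OmM M 3 →* Matrix (Fin k) (Fin k) ℂ :=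
  R.comp (MulAut.conjNormal (swapLast M) : OmM M 3 ≃* OmM M 3).toMonoidHom

theorem twistLast_ne_one (hR : ∃ g, R g ≠ 1) : ∃ g, twistLast M R g ≠ 1 := by
  obtain ⟨g, hg⟩ := hR
  exact ⟨(MulAut.conjNormal (swapLast M) : OmM M 3 ≃* OmM M 3).symm g, by simpa [twistLast] using hg⟩

theorem twistLast_eich {u w : Idx 3 → F} (h1 : qM M 3 u = 0) (h2 : bform (nondeg M 3) u w = 0) :
    twistLast M R (eich M hm u w) =
      R (eich M hm ((((swapLast M : IsoM M 3) : GL (Idx 3) F) : Matrix (Idx 3) (Idx 3) F) *ᵥ u)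
        ((((swapLast M : IsoM M 3) : GL (Idx 3) F) : Matrix (Idx 3) (Idx 3) F) *ᵥ w)) := by
  change R (MulAut.conjNormal (swapLast M) (eich M hm u w)) = _
  congr 1
  apply Subtype.ext
  rw [MulAut.conjNormal_apply, conj_eich M hm _ h1 h2]

theorem eZ_mul_eC {m : ℕ} (M : Dat F) (hm : 3 ≤ m) (a : Fin m) (y y' : Fin m → F) :
    eZ M hm a y * eC M hm a y' = eich M hm (eV (Pi.single a 1)) (mk (za a y) (za a y') 0) := by
  have h : bform (nondeg M m) (eV (Pi.single a 1) : Idx m → F) (eV (za a y)) = 0 := by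
    simp [eV, bform_mk, zb, -bform_apply]
  rw [eZ, sS_wflat, eC, tT, ← eich_add M hm (qM_eV M _) h (tT_cond M (single_dot_za a y'))]
  simp [eV, fV, mk_add]

/-- The averaging projection of a root element group of the radical. -/
def pX (ψ : AddChar F ℂ) : Matrix (Fin k) (Fin k) ℂ :=
  weightProj (fun t : Fin 1 → F =>
    R (sS M hm (wflat (Pi.single 1 1) (Pi.single 2 (t (0 : Fin 1)))))) ψ 0

/-- The averaging projection of a transvection group. -/
def pT (ψ : AddChar F ℂ) : Matrix (Fin k) (Fin k) ℂ :=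
  weightProj (fun t : Fin 1 → F => R (tT M hm (Pi.single 1 1) (Pi.single 2 (t (0 : Fin 1))))) ψ 0

theorem pT_twistLast : pT M hm (twistLast M R) ψ = pX M hm R ψ := by
  simp only [pT, pX]
  congr 1
  funext t
  rw [tT, twistLast_eich M hm R (qM_eV M _) (tT_cond M (by simp)), sS_wflat, eV, eV, fV,
    swapLast_mk, swapLast_mk]
  congr 2 <;> rw [mk_inj] <;> refine ⟨?_, ?_, rfl⟩ <;> funext i <;> fin_cases i <;> simp

theorem pZC_twistLast :
    pZ M hm (twistLast M R) ψ 0 * pC M hm (twistLast M R) ψ 0 = pZ M hm R ψ 0 * pC M hm R ψ 0 := by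
  classical
  simp only [pZ, pC, weightProj_zero_eq, smul_mul_smul_comm, Finset.sum_mul, Finset.mul_sum, ← map_mul,
    eZ_mul_eC]
  congr 1
  rw [← Fintype.sum_prod_type', ← Fintype.sum_prod_type']
  let e : (Fin 3 → F) × (Fin 3 → F) ≃ (Fin 3 → F) × (Fin 3 → F) :=
    { toFun := fun p => (![p.1 0, p.1 1, p.2 2], ![p.2 0, p.2 1, p.1 2])
      invFun := fun p => (![p.1 0, p.1 1, p.2 2], ![p.2 0, p.2 1, p.1 2])
      left_inv := fun p => by
        ext i <;> fin_cases i <;> simp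
      right_inv := fun p => by
        ext i <;> fin_cases i <;> simp }
  refine Fintype.sum_equiv e _ _ fun p => ?_
  have hc : bform (nondeg M 3) (eV (Pi.single 0 1) : Idx 3 → F) (mk (za 0 p.2) (za 0 p.1) 0) = 0 := by
    simp [eV, bform_mk, zb, za, -bform_apply]
  rw [twistLast_eich M hm R (qM_eV M _) hc, eV, swapLast_mk, swapLast_mk]
  congr 2 <;> rw [mk_inj] <;> refine ⟨?_, ?_, rfl⟩ <;> funext i <;> fin_cases i <;> simp [e, za]

theorem pW_mul_pX (hψ : ψ 1 ≠ 1) (W : Matrix (Fin 3) (Fin 3) F) :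
    pW M hm R ψ W * pX M hm R ψ = if W 1 2 = 0 then pW M hm R ψ W else 0 := by
  classical
  have h : ∀ t : Fin 1 → F, pW M hm R ψ W * R (sS M hm (wflat (Pi.single 1 1) (Pi.single 2 (t 0)))) =
      ψ (t ⬝ᵥ fun _ => W 1 2) • pW M hm R ψ W := fun t => by
    rw [pW_mul_sS]
    congr 2
    simp [wflat, flat2, dotProduct, Fintype.sum_prod_type, vecMulVec_apply, Fin.sum_univ_three]
  rw [pX, weightProj_zero_eq, mul_smul_comm, Finset.mul_sum, Finset.sum_congr rfl (fun t _ => h t),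
    ← Finset.sum_smul, sum_psi_dot_smul hψ, smul_smul]
  have e : (fun _ : Fin 1 => W 1 2) = 0 ↔ W 1 2 = 0 :=
    ⟨fun h => congrFun h 0, fun h => funext fun _ => h⟩
  by_cases h0 : W 1 2 = 0
  · rw [if_pos (e.2 h0), if_pos h0, inv_mul_cancel₀ (Nat.cast_ne_zero.2 Fintype.card_ne_zero), one_smul]
  · rw [if_neg (fun h => h0 (e.1 h)), if_neg h0, mul_zero, zero_smul]

theorem pW_comm_pZ {m : ℕ} (M : Dat F) (hm : 3 ≤ m) (R : OmM M m →* Matrix (Fin k) (Fin k) ℂ)
    (W : Matrix (Fin m) (Fin m) F) (a : Fin m) :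
    pW M hm R ψ W * pZ M hm R ψ a = pZ M hm R ψ a * pW M hm R ψ W :=
  commute_weightProj (f := fun y => R (eZ M hm a y)) (fun y =>
    (commute_pW M hm R (fun v => by
      rw [eZ, ← map_mul, ← map_mul, ← sS_add, ← sS_add, add_comm]) W).symm) 0

theorem card_rowZero_three : (rowZero F (0 : Fin 3)).card = Fintype.card F - 1 := by
  have hcnt := card_rows (F := F) (0 : Fin 3)
  have hS := card_wedgeSet (F := F) 3
  rw [← hcnt.1, hcnt.2] at hS
  set q := Fintype.card F
  have hq2 : 2 ≤ q := Fintype.one_lt_card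
  obtain ⟨p, hp⟩ : ∃ p, q = p + 1 := ⟨q - 1, by omega⟩
  have h3 : q ^ 2 - 1 = p * (p + 2) := by rw [hp]; ring_nf; omega
  have h4 : q ^ 3 - 1 = p * (p + 2) * q + p := by
    rw [hp]; ring_nf; omega
  simp only [show 3 - 1 = 2 from rfl, show 3 - 2 = 1 from rfl, pow_one, h3, h4] at hS
  rw [hp] at hS ⊢
  rw [Nat.add_sub_cancel]
  have hp0 : 0 < p * (p + 2) := Nat.mul_pos (by omega) (by omega)
  refine Nat.eq_of_mul_eq_mul_left hp0 ?_
  rw [Nat.mul_add] at hS
  linarith [hS]

theorem le_fix_zero_three (hψ : ψ 1 ≠ 1) (hR : ∃ g, R g ≠ 1) (hk : SmallM F 3 k) {d : ℕ}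
    (hd : (pW M hm R ψ 0 * pC M hm R ψ 0).trace = d) : Fintype.card F - 1 ≤ d := by
  classical
  have h0 : IsAlt (0 : Matrix (Fin 3) (Fin 3) F) := ⟨fun _ => rfl, fun _ _ => by simp⟩
  have hsplit : (pX M hm R ψ * pZ M hm R ψ 0 * pC M hm R ψ 0).trace = d := by
    rw [trace_weights M hm R hψ hR hk, ← Matrix.mul_assoc, ← Matrix.mul_assoc, pW_mul_pX M hm R hψ,
      if_pos (show (0 : Matrix (Fin 3) (Fin 3) F) 1 2 = 0 from rfl), pW_mul_pZ M hm R hψ h0,
      if_pos (show (0 : Matrix (Fin 3) (Fin 3) F) 0 = 0 from rfl), hd, Finset.sum_eq_zero, add_zero]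
    intro W hW
    rw [← Matrix.mul_assoc, ← Matrix.mul_assoc, pW_mul_pX M hm R hψ]
    by_cases h12 : W 1 2 = 0
    · rw [if_pos h12, pW_mul_pZ M hm R hψ (mem_wedgeSet.1 hW).isAlt, if_neg, Matrix.zero_mul, Matrix.trace_zero]
      intro hrow
      have hw := mem_wedgeSet.1 hW
      refine hw.1 ?_
      have ha := hw.isAlt
      have e01 : W 0 1 = 0 := congrFun hrow 1
      have e02 : W 0 2 = 0 := congrFun hrow 2
      ext i j
      fin_cases i <;> fin_cases j <;>
        simp [ha.1, ha.2 0 1, ha.2 0 2, ha.2 1 2, e01, e02, h12]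
    · rw [if_neg h12, Matrix.zero_mul, Matrix.zero_mul, Matrix.trace_zero]
  set R' := twistLast M R with hR'def
  have hR' := twistLast_ne_one M R hR
  have hY : (pZ M hm R' ψ 0 * pC M hm R' ψ 0 * pT M hm R' ψ).trace = d := by
    rw [pZC_twistLast, pT_twistLast, Matrix.trace_mul_comm, ← Matrix.mul_assoc, hsplit]
  -- the decomposition over the weights of the twisted representation
  set C := pC M hm R' ψ (0 : Fin 3) with hC
  set T := pT M hm R' ψ with hT
  let f : (Fin 1 → F) → Matrix (Fin k) (Fin k) ℂ :=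
    fun t => R' (tT M hm (Pi.single 1 1) (Pi.single 2 (t (0 : Fin 1))))
  have fadd : ∀ u v, f (u + v) = f u * f v := fun u v => by
    simp only [f, Pi.add_apply, Pi.single_add, ← map_mul]
    rw [tT_add M hm (by simp) (by simp)]
  have hTi : T * T = T := weightProj_idem (R := f) fadd hψ 0
  have hCi : C * C = C := pC_idem M hm R' hψ 0
  have hCf : ∀ t, C * f t = f t * C := by
    intro t
    symm
    let e : (Fin 3 → F) ≃ (Fin 3 → F) :=
      { toFun := fun y => y - (y 1 * t 0) • Pi.single 2 1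
        invFun := fun y => y + (y 1 * t 0) • Pi.single 2 1
        left_inv := fun y => by simp
        right_inv := fun y => by simp }
    refine comm_weightProj (w := 0) (w' := 0) e (fun y => ?_) (fun v => by simp)
    refine rep_semiconj R' ?_
    rw [eC, eC]
    refine semiconj_eich M hm _ (qM_eV M _) (tT_cond M (single_dot_za 0 y)) ?_ ?_
    · rw [eV, tT_apply M hm (by simp)]; simp
    · rw [fV, tT_apply M hm (by simp)]
      simp only [fV, mk_inj]
      refine ⟨by simp, ?_, trivial⟩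
      funext i
      fin_cases i <;> simp [e, za] <;> ring
  have hTW : ∀ W : Matrix (Fin 3) (Fin 3) F, IsAlt W → W 0 = 0 →
      pW M hm R' ψ W * T = T * pW M hm R' ψ W := by
    intro W hW h00
    refine commute_weightProj (f := f) (fun t => ?_) 0
    have := tT_comm_pW M hm R' (ψ := ψ) (x := Pi.single 1 1) (y := Pi.single 2 (t (0 : Fin 1))) (by simp) W
    rw [congr_vecMulVec hW, show wedge (Pi.single 2 (t (0 : Fin 1))) (W 1) = 0 by
      have e10 : W 1 0 = 0 := by rw [hW.2 0 1, h00]; simp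
      ext i j
      fin_cases i <;> fin_cases j <;> simp [wedge_apply, e10, hW.1] <;> ring, add_zero] at this
    exact this.symm
  have hCT : C * T = T * C := commute_weightProj (f := f) hCf 0
  have hP0C : pW M hm R' ψ 0 * C = C * pW M hm R' ψ 0 := pC_comm_pW M hm R' h0 rfl
  have hP0T := hTW 0 h0 rfl
  have hP0CT : pW M hm R' ψ 0 * (C * T) = C * T * pW M hm R' ψ 0 := by
    rw [← Matrix.mul_assoc, hP0C, Matrix.mul_assoc, hP0T, ← Matrix.mul_assoc]
  obtain ⟨d0, hd0⟩ := exists_nat_trace (idem_mul (pW_idem M hm R' hψ 0) (idem_mul hCi hTi hCT) hP0CT)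
  obtain ⟨hfull, -⟩ := fix_main M hm R' hψ hR' hk
  have hterm : ∀ W ∈ rowZero F (0 : Fin 3), ∃ j : ℕ, 1 ≤ j ∧
      (pW M hm R' ψ W * (pZ M hm R' ψ 0 * C * T)).trace = j := by
    intro W hW
    obtain ⟨hw, hr0⟩ := mem_rowZero.1 hW
    have e : pW M hm R' ψ W * (pZ M hm R' ψ 0 * C * T) = pW M hm R' ψ W * T := by
      rw [← Matrix.mul_assoc, ← Matrix.mul_assoc, pW_mul_pZ M hm R' hψ hw.isAlt, if_pos hr0,
        hC, show pW M hm R' ψ W * pC M hm R' ψ 0 = pW M hm R' ψ W from hfull W hW]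
    rw [e]
    have hi := idem_mul (pW_idem M hm R' hψ W) hTi (hTW W hw.isAlt hr0)
    obtain ⟨j, hj⟩ := exists_nat_trace hi
    refine ⟨j, Nat.one_le_iff_ne_zero.2 fun hz => ?_, hj⟩
    have hzero := eq_zero_of_trace_idem hi (by rw [hj, hz, Nat.cast_zero])
    have h10 : W 1 0 = 0 := by rw [hw.isAlt.2 0 1, hr0]; simp
    have hW12 : W 1 2 ≠ 0 := fun h12 => hw.1 (by
      have e01 : W 0 1 = 0 := congrFun hr0 1
      have e02 : W 0 2 = 0 := congrFun hr0 2
      ext i j
      fin_cases i <;> fin_cases j <;>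
        simp [hw.isAlt.1, hw.isAlt.2 0 1, hw.isAlt.2 0 2, hw.isAlt.2 1 2, e01, e02, h12])
    have hrow1 : W 1 ≠ 0 := fun h => hW12 (by rw [h]; rfl)
    obtain ⟨s, P1, -, -, hP1t, hP1a, -, hfix1⟩ :=
      line_data M hm R' hψ hw ((weight_structure_minus M hm R' hψ hR' hk W hw.1).1 hw) (a := 1) hrow1
    have hTP1 : T * P1 = P1 := by
      have hf : ∀ t : Fin 1 → F, f t * P1 = P1 := fun t => by
        have h := hfix1 (t 0 / W 1 2)
        have e : za 1 ((t (0 : Fin 1) / W 1 2) • W 1) = Pi.single 2 (t 0) := by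
          funext i
          fin_cases i <;> simp [za, h10, hW12]
        rw [eC, e] at h
        exact h
      rw [hT, pT, weightProj_zero_eq, smul_mul_assoc, Finset.sum_mul, Finset.sum_congr rfl (fun t _ => hf t),
        Finset.sum_const, Finset.card_univ, ← Nat.cast_smul_eq_nsmul ℂ, smul_smul,
        inv_mul_cancel₀ (Nat.cast_ne_zero.2 Fintype.card_ne_zero), one_smul]
    have : P1 = 0 := by
      rw [← hP1a, ← hTP1, ← Matrix.mul_assoc, hzero, Matrix.zero_mul]
    rw [this, Matrix.trace_zero] at hP1t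
    exact zero_ne_one hP1t
  choose! j hj1 hj using hterm
  rw [trace_weights M hm R' hψ hR' hk, sum_wedge_split (0 : Fin 3),
    Finset.sum_eq_zero (s := rowMoved F (0 : Fin 3)) (fun W hW => by
      rw [← Matrix.mul_assoc, ← Matrix.mul_assoc, pW_mul_pZ M hm R' hψ (mem_rowMoved.1 hW).1.isAlt,
        if_neg (mem_rowMoved.1 hW).2, Matrix.zero_mul, Matrix.zero_mul, Matrix.trace_zero]),
    add_zero, Finset.sum_congr rfl hj, ← Matrix.mul_assoc, ← Matrix.mul_assoc, pW_mul_pZ M hm R' hψ h0,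
    if_pos (show (0 : Matrix (Fin 3) (Fin 3) F) 0 = 0 from rfl), Matrix.mul_assoc, hd0] at hY
  have hY' : d0 + ∑ W ∈ rowZero F (0 : Fin 3), j W = d := by exact_mod_cast hY
  have hsum : (rowZero F (0 : Fin 3)).card * 1 ≤ ∑ W ∈ rowZero F (0 : Fin 3), j W := by
    rw [← smul_eq_mul]; exact Finset.card_nsmul_le_sum _ _ _ hj1
  rw [card_rowZero_three, mul_one] at hsum
  omega

end CfsgLib.OrthMinusDeg
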