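import Cfsg.Agent.OrthMinusDeg.Radical

/-!
The two groups of order `q^(m-1)` attached to a coordinate, in the Siegel radical and in the Levi
subgroup, and the fixed line of a weight space under the transvections fixing the weight.
-/

set_option autoImplicit false
set_option linter.unusedSectionVars false

noncomputable section

namespace CfsgLib.OrthMinusDeg

open Cfsg.Geo CfsgLib.OrthGeo Matrix CfsgLib.OrthPlusDeg
open scoped MatrixGroups

variable {F : Type*} [Field F] [Fintype F] [DecidableEq F] {m k : ℕ} (M : Dat F) (hm : 3 ≤ m)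

/-- A vector with one coordinate removed. -/
def za (a : Fin m) (y : Fin m → F) : Fin m → F := Function.update y a 0

theorem za_add (a : Fin m) (y y' : Fin m → F) : za a (y + y') = za a y + za a y' := by
  funext i; by_cases h : i = a <;> simp [za, h]

theorem za_zero (a : Fin m) : za a (0 : Fin m → F) = 0 := by
  funext i; by_cases h : i = a <;> simp [za, h]

theorem za_of_eq_zero {a : Fin m} {y : Fin m → F} (h : y a = 0) : za a y = y := by
  funext i; by_cases hi : i = a
  · subst hi; simp [za, h]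
  · simp [za, hi]

theorem za_apply_self (a : Fin m) (y : Fin m → F) : za a y a = 0 := by simp [za]

theorem single_dot_za (a : Fin m) (y : Fin m → F) : (Pi.single a 1 : Fin m → F) ⬝ᵥ za a y = 0 := by
  simp [za]

theorem za_dot {a : Fin m} {r : Fin m → F} (hr : r a = 0) (y : Fin m → F) : za a y ⬝ᵥ r = y ⬝ᵥ r :=
  Finset.sum_congr rfl fun i _ => by by_cases h : i = a <;> simp [za, h, hr]

/-- A transvection towards a coordinate. -/
def eC (a : Fin m) (y : Fin m → F) : OmM M m := tT M hm (Pi.single a 1) (za a y)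

/-- A root element towards a coordinate. -/
def eZ (a : Fin m) (y : Fin m → F) : OmM M m := sS M hm (wflat (Pi.single a 1) (za a y))

theorem eC_add (a : Fin m) (y y' : Fin m → F) : eC M hm a (y + y') = eC M hm a y * eC M hm a y' := by
  rw [eC, za_add, tT_add M hm (single_dot_za a y) (single_dot_za a y')]; rfl

theorem eC_zero (a : Fin m) : eC M hm a (0 : Fin m → F) = 1 := by
  have := eC_add M hm a 0 0
  rwa [add_zero, left_eq_mul] at this

theorem eZ_add (a : Fin m) (y y' : Fin m → F) : eZ M hm a (y + y') = eZ M hm a y * eZ M hm a y' := by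
  rw [eZ, eZ, eZ, ← sS_add]
  refine sS_congr M hm ?_
  rw [altOf_add, altOf_wflat, altOf_wflat, altOf_wflat, za_add]
  ext i j; simp [wedge_apply]; ring

variable (R : OmM M m →* Matrix (Fin k) (Fin k) ℂ) {ψ : AddChar F ℂ}

theorem rC_zero (a : Fin m) : R (eC M hm a 0) = 1 := by rw [eC_zero, map_one]

theorem rC_add (a : Fin m) (y y' : Fin m → F) :
    R (eC M hm a (y + y')) = R (eC M hm a y) * R (eC M hm a y') := by rw [eC_add, map_mul]

theorem rZ_add (a : Fin m) (y y' : Fin m → F) :
    R (eZ M hm a (y + y')) = R (eZ M hm a y) * R (eZ M hm a y') := by rw [eZ_add, map_mul]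

theorem rZ_zero (a : Fin m) : R (eZ M hm a 0) = 1 := by
  have h : eZ M hm a (0 : Fin m → F) = 1 := by
    have := eZ_add M hm a (0 : Fin m → F) 0
    rwa [add_zero, left_eq_mul] at this
  rw [h, map_one]

variable (ψ) in
/-- The averaging projection of the transvections towards a coordinate. -/
def pC (a : Fin m) : Matrix (Fin k) (Fin k) ℂ := weightProj (fun y => R (eC M hm a y)) ψ 0

variable (ψ) in
/-- The averaging projection of the root elements towards a coordinate. -/
def pZ (a : Fin m) : Matrix (Fin k) (Fin k) ℂ := weightProj (fun y => R (eZ M hm a y)) ψ 0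

theorem pC_idem (hψ : ψ 1 ≠ 1) (a : Fin m) : pC M hm R ψ a * pC M hm R ψ a = pC M hm R ψ a :=
  weightProj_idem (rC_add M hm R a) hψ 0

/-- The effect of a transvection on a weight. -/
theorem congr_vecMulVec {W : Matrix (Fin m) (Fin m) F} (hW : IsAlt W) (a : Fin m) (y : Fin m → F) :
    (1 + vecMulVec (Pi.single a 1) y)ᵀ * W * (1 + vecMulVec (Pi.single a 1) y) = W + wedge y (W a) := by
  ext i j
  simp only [Matrix.transpose_add, Matrix.transpose_one, Matrix.transpose_vecMulVec, Matrix.add_mul,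
    Matrix.mul_add, Matrix.one_mul, Matrix.mul_one, Matrix.vecMulVec_mul, Matrix.mul_vecMulVec,
    Matrix.add_apply, Matrix.sub_apply, vecMulVec_apply, wedge_apply, Matrix.single_one_vecMul,
    Matrix.mulVec_single_one, Matrix.col_apply, Matrix.row_apply]
  rw [hW.2 a i]
  simp [Matrix.vecMulVec_mulVec, hW.1]
  ring

theorem row_apply_self {W : Matrix (Fin m) (Fin m) F} (hW : IsAlt W) (a : Fin m) : W a a = 0 := hW.1 a

theorem bil_row (W : Matrix (Fin m) (Fin m) F) (a : Fin m) (u : Fin m → F) :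
    bil W (Pi.single a 1) u = u ⬝ᵥ W a := by
  rw [bil, single_dotProduct, one_mul, dotProduct_comm]; rfl

theorem eC_comm_pW {W : Matrix (Fin m) (Fin m) F} (hW : IsAlt W) (a : Fin m) (y : Fin m → F) :
    R (eC M hm a y) * pW M hm R ψ (W + wedge (za a y) (W a)) = pW M hm R ψ W * R (eC M hm a y) := by
  rw [← congr_vecMulVec hW]
  exact tT_comm_pW M hm R (single_dot_za a y) W

theorem eC_comm_eE (a : Fin m) (y : Fin m → F) (z : Fin 2 → F) :
    eC M hm a y * eE M hm (Pi.single a 1) z = eE M hm (Pi.single a 1) z * eC M hm a y :=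
  semiconj_eich M hm _ (qM_eV M _) (eE_cond M _ z)
    (by rw [eV, eC, tT_apply M hm (single_dot_za a y), single_dot_za]; simp)
    (by rw [zV, eC, tT_apply M hm (single_dot_za a y)]; simp)

theorem px_comm_pC (a : Fin m) (lam : Fin 2 → F) :
    px M hm R ψ (Pi.single a 1) lam * pC M hm R ψ a = pC M hm R ψ a * px M hm R ψ (Pi.single a 1) lam :=
  commute_weightProj (f := fun y => R (eC M hm a y))
    (fun y => (commute_weightProj (f := fun z => R (eE M hm (Pi.single a 1) z))
      (fun z => rep_semiconj R (eC_comm_eE M hm a y z)) lam).symm) 0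

include hm in
theorem exists_nz_eq (s : F) : ∃ z : Fin 2 → F, nz M z = s := by
  by_cases hs : s = 0
  · exact ⟨0, by simp [nz, hs]⟩
  · obtain ⟨v, hv⟩ := CfsgLib.Classical.Orth.exists_q_eq (nondeg M 0) (by simp) hs
    obtain ⟨x, y, z, rfl⟩ := exists_mk v
    exact ⟨z, by rw [← hv, qM_mk]; simp [dotProduct]⟩

theorem exists_pair_vec {r : Fin m → F} (hr : r ≠ 0) : ∃ u : Fin m → F, u ⬝ᵥ r = 1 := by
  obtain ⟨j, hj⟩ := Function.ne_iff.1 hr
  exact ⟨Pi.single j (r j)⁻¹, by rw [single_dotProduct, inv_mul_cancel₀ hj]⟩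

set_option maxHeartbeats 800000 in
/-- The character of the transvections fixing a weight on its first weight line, and a line that they
fix. -/
theorem line_data (hψ : ψ 1 ≠ 1) {W : Matrix (Fin m) (Fin m) F} (hW : IsWedge W)
    (hμ : muW M hm R ψ W = Fintype.card F ^ 2) {a : Fin m} (hr : W a ≠ 0) :
    ∃ (s : F) (P1 : Matrix (Fin k) (Fin k) ℂ),
      (∀ t : F, R (eC M hm a (t • W a)) * (pW M hm R ψ W * px M hm R ψ (Pi.single a 1) 0) =
        ψ (t * s) • (pW M hm R ψ W * px M hm R ψ (Pi.single a 1) 0)) ∧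
      (pW M hm R ψ W * px M hm R ψ (Pi.single a 1) 0).trace = 1 ∧
      P1.trace = 1 ∧ pW M hm R ψ W * P1 = P1 ∧ P1 * pW M hm R ψ W = P1 ∧
      ∀ t : F, R (eC M hm a (t • W a)) * P1 = P1 := by
  classical
  have halt := hW.isAlt
  obtain ⟨u, hu⟩ := exists_pair_vec hr
  have ht : bil W (Pi.single a 1) u = 1 := by rw [bil_row, hu]
  set P := pW M hm R ψ W with hPdef
  set P0 := P * px M hm R ψ (Pi.single a 1) 0 with hP0
  have hP0i : P0 * P0 = P0 := sub_idem M hm R hψ W _ 0
  have hq : Fintype.card F ^ 2 ≠ 0 := pow_ne_zero _ Fintype.card_ne_zero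
  have hP0t : P0.trace = 1 := by
    have h := muW_eq_sq_mul M hm R hψ (show bil W (Pi.single a 1) u ≠ 0 by rw [ht]; exact one_ne_zero)
    rw [hμ] at h
    rw [trace_eq_natTr hP0i, show natTr hP0i = 1 from (Nat.eq_of_mul_eq_mul_left (Nat.pos_of_ne_zero hq)
      (h.symm.trans (mul_one _).symm)), Nat.cast_one]
  have hza : ∀ t : F, za a (t • W a) = t • W a := fun t => za_of_eq_zero (by simp [halt.1])
  have hwedge : ∀ t : F, wedge (za a (t • W a)) (W a) = 0 := fun t => by
    rw [hza]; ext i j; simp [wedge_apply]; ring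
  have hTP : ∀ t : F, R (eC M hm a (t • W a)) * P = P * R (eC M hm a (t • W a)) := fun t => by
    have := eC_comm_pW M hm R (ψ := ψ) halt a (t • W a)
    rwa [hwedge, add_zero] at this
  have hTE : ∀ (t : F) (lam : Fin 2 → F), R (eC M hm a (t • W a)) * px M hm R ψ (Pi.single a 1) lam =
      px M hm R ψ (Pi.single a 1) lam * R (eC M hm a (t • W a)) := fun t lam =>
    commute_weightProj (f := fun z => R (eE M hm (Pi.single a 1) z))
      (fun z => rep_semiconj R (eC_comm_eE M hm a _ z)) lam
  let f : (Fin 1 → F) → Matrix (Fin k) (Fin k) ℂ := fun v => R (eC M hm a ((v (0 : Fin 1) : F) • W a))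
  have f0 : f 0 = 1 := by simp [f, eC_zero]
  have fadd : ∀ u v, f (u + v) = f u * f v := fun u v => by simp [f, add_smul, eC_add]
  obtain ⟨w, hw⟩ := exists_char_of_trace_one f0 fadd hψ hP0i hP0t (fun v => by
    simp only [f, hP0]
    rw [← Matrix.mul_assoc, hTP, Matrix.mul_assoc, ← hTE, ← Matrix.mul_assoc])
  set s := w 0
  have hs : ∀ t : F, R (eC M hm a (t • W a)) * P0 = ψ (t * s) • P0 := fun t => by
    have h := hw (fun _ => t)
    have e : (fun _ => t : Fin 1 → F) ⬝ᵥ w = t * s := by simp [dotProduct, s]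
    rw [e] at h
    rw [← h]
    simp only [f, hP0]
    rw [← Matrix.mul_assoc, hTP, Matrix.mul_assoc, hTE, ← Matrix.mul_assoc]
  obtain ⟨z1, hz1⟩ := exists_nz_eq M hm s
  set lam : Fin 2 → F := -(Bz M *ᵥ z1) with hlam
  set P1 := P * px M hm R ψ (Pi.single a 1) lam with hP1
  set L := R (eE M hm u z1) with hL
  have htr : L * P0 = P1 * L := by
    have := translate M hm R (pW_mul_sS M hm R (ψ := ψ) W) (x := Pi.single a 1) (y := u)
      (fun z => eE_comm_pW M hm R _ z W) (fun z => eE_comm_pW M hm R _ z W) z1 0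
    rw [ht, one_smul, zero_sub] at this
    exact this
  refine ⟨s, P1, hs, hP0t, ?_, ?_, ?_, fun t => ?_⟩
  · exact (trace_eq_of_rep_semiconj R _ htr).symm.trans hP0t
  · rw [hP1, ← Matrix.mul_assoc, pW_idem M hm R hψ]
  · rw [hP1, Matrix.mul_assoc, ← pW_comm_px, ← Matrix.mul_assoc, pW_idem M hm R hψ]
  have hdot : (Pi.single a 1 : Fin m → F) ⬝ᵥ za a (t • W a) = 0 := single_dot_za a _
  have e1 := eE_comm_tT M hm hdot u z1
  have hs' : u ⬝ᵥ za a (t • W a) = t := by rw [hza, dotProduct_smul, hu, smul_eq_mul, mul_one]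
  rw [hs'] at e1
  set T := R (eC M hm a (t • W a)) with hT
  set A := R (eE M hm (Pi.single a 1) (-t • z1)) with hA
  set S := R (sS M hm ((-t * nz M z1) • wflat (Pi.single a 1) u)) with hS
  have e2 : L * T = T * A * S * L := by
    simp only [hL, hT, hA, hS, eC, ← map_mul]
    rw [e1]
  have hSP : S * P1 = ψ (-t * nz M z1) • P1 := by
    have hSP' : S * P = ψ (-t * nz M z1) • P := by
      have h := mul_weightProj (ψ := ψ) (rz_add M hm R) ((-t * nz M z1) • wflat (Pi.single a 1) u) (flat2 W)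
      rw [flat2_dot_wflat, ht, mul_one] at h
      exact h
    rw [hP1, ← Matrix.mul_assoc, hSP', smul_mul_assoc]
  have hAP : A * P1 = ψ (t * (2 * nz M z1)) • P1 := by
    have hAx : A * px M hm R ψ (Pi.single a 1) lam =
        ψ ((-t • z1) ⬝ᵥ lam) • px M hm R ψ (Pi.single a 1) lam :=
      mul_weightProj (R := fun z => R (eE M hm (Pi.single a 1) z)) (ψ := ψ) (rE_add M hm R (Pi.single a 1)) (-t • z1) lam
    have hAP' : A * P = P * A := eE_comm_pW M hm R (ψ := ψ) (Pi.single a 1) (-t • z1) W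
    have hd : (-t • z1) ⬝ᵥ lam = t * (2 * nz M z1) := by
      rw [hlam, ← zb_self M z1, zb, smul_dotProduct, dotProduct_neg, smul_eq_mul]
      ring
    calc A * P1 = A * P * px M hm R ψ (Pi.single a 1) lam := (Matrix.mul_assoc _ _ _).symm
      _ = P * (A * px M hm R ψ (Pi.single a 1) lam) := by rw [hAP', Matrix.mul_assoc]
      _ = ψ (t * (2 * nz M z1)) • P1 := by rw [hAx, hd, mul_smul_comm]
  have e3 : L * (T * P0) = ψ (t * nz M z1) • (T * P1 * L) := by
    rw [← Matrix.mul_assoc, e2, Matrix.mul_assoc, htr, Matrix.mul_assoc (T * A), ← Matrix.mul_assoc S, hSP,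
      smul_mul_assoc, mul_smul_comm, Matrix.mul_assoc T, ← Matrix.mul_assoc A, hAP, smul_mul_assoc,
      mul_smul_comm, smul_smul, ← AddChar.map_add_eq_mul, ← Matrix.mul_assoc]
    congr 2
    ring
  rw [hs, mul_smul_comm, htr, hz1] at e3
  have hne : ψ (t * s) ≠ 0 := fun h => by
    have := AddChar.map_add_eq_mul ψ (t * s) (-(t * s))
    rw [add_neg_cancel, AddChar.map_zero_eq_one, h, zero_mul] at this
    exact one_ne_zero this
  have e4 := congrArg (fun N => N * R (eE M hm u z1)⁻¹) (smul_right_injective _ hne e3)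
  simp only [hL, Matrix.mul_assoc, rep_mul_inv, Matrix.mul_one] at e4
  exact e4.symm

/-- The transvections fixing a weight with nonzero row. -/
theorem wedge_eq_zero_iff {r y : Fin m → F} (hr : r ≠ 0) : wedge y r = 0 ↔ ∃ t : F, y = t • r := by
  refine ⟨fun h => ?_, fun ⟨t, ht⟩ => by subst ht; ext i j; simp [wedge_apply]; ring⟩
  obtain ⟨j, hj⟩ := Function.ne_iff.1 hr
  refine ⟨y j / r j, funext fun i => ?_⟩
  have := congrFun (congrFun h i) j
  simp [wedge_apply] at this
  simp only [Pi.smul_apply, smul_eq_mul]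
  have hj' : r j ≠ 0 := hj
  field_simp
  linear_combination this

theorem trace_eC_moved (hψ : ψ 1 ≠ 1) {W : Matrix (Fin m) (Fin m) F} (hW : IsWedge W) {a : Fin m}
    {P1 : Matrix (Fin k) (Fin k) ℂ} (h1 : pW M hm R ψ W * P1 = P1) (h2 : P1 * pW M hm R ψ W = P1)
    (hr : W a ≠ 0) {y : Fin m → F} (hy : ∀ t : F, za a y ≠ t • W a) :
    (R (eC M hm a y) * P1).trace = 0 := by
  have hz : pW M hm R ψ W * R (eC M hm a y) * pW M hm R ψ W = 0 := by
    rw [← eC_comm_pW M hm R hW.isAlt a y, Matrix.mul_assoc, pW_mul_pW M hm R hψ, if_neg, Matrix.mul_zero]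
    intro h
    rw [add_eq_left, wedge_eq_zero_iff hr] at h
    obtain ⟨t, ht⟩ := h
    exact hy t ht
  calc (R (eC M hm a y) * P1).trace
      = ((R (eC M hm a y) * pW M hm R ψ W) * (P1 * pW M hm R ψ W)).trace := by
        rw [h2, Matrix.mul_assoc, h1]
    _ = ((pW M hm R ψ W * R (eC M hm a y) * pW M hm R ψ W) * P1).trace := by
        rw [← Matrix.mul_assoc, Matrix.trace_mul_comm]
        simp only [Matrix.mul_assoc]
    _ = 0 := by rw [hz, Matrix.zero_mul, Matrix.trace_zero]

/-- The trace of the averaging projection on a line in a weight space. -/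
theorem trace_pC_line (hψ : ψ 1 ≠ 1) {W : Matrix (Fin m) (Fin m) F} (hW : IsWedge W) {a : Fin m}
    {P1 : Matrix (Fin k) (Fin k) ℂ} (h1 : pW M hm R ψ W * P1 = P1) (h2 : P1 * pW M hm R ψ W = P1)
    (ht : P1.trace = 1) (hr : W a ≠ 0) {χ : F → ℂ}
    (hχ : ∀ t : F, R (eC M hm a (t • W a)) * P1 = χ t • P1) :
    (Fintype.card F : ℂ) ^ m * (pC M hm R ψ a * P1).trace = (Fintype.card F : ℂ) * ∑ t : F, χ t := by
  classical
  have halt := hW.isAlt
  rw [pC, weightProj_zero_eq, smul_mul_assoc, Matrix.trace_smul, smul_eq_mul, ← mul_assoc, Fintype.card_fun,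
    Fintype.card_fin, Nat.cast_pow, mul_inv_cancel₀ (pow_ne_zero _ (Nat.cast_ne_zero.2 Fintype.card_ne_zero)),
    one_mul, Finset.sum_mul, Matrix.trace_sum]
  let g : F × F → (Fin m → F) := fun p => p.1 • W a + p.2 • Pi.single a 1
  have hga : ∀ p, za a (g p) = p.1 • W a := fun p => by
    funext i; by_cases h : i = a
    · subst h; simp [za, halt.1]
    · simp [za, g, h]
  have hinj : Function.Injective g := by
    intro p p' h
    have h1' := congrArg (za a) h
    rw [hga, hga] at h1'
    have e1 : p.1 = p'.1 := smul_left_injective F hr h1'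
    have h2' := congrFun h a
    simp [g, halt.1] at h2'
    exact Prod.ext e1 h2'
  rw [← Finset.sum_subset (Finset.subset_univ ((Finset.univ : Finset (F × F)).image g)) (fun y _ hy => ?_),
    Finset.sum_image (fun _ _ _ _ h => hinj h), Fintype.sum_prod_type, Finset.mul_sum]
  · refine Finset.sum_congr rfl fun t _ => ?_
    have e : ∀ u : F, R (eC M hm a (g (t, u))) = R (eC M hm a (t • W a)) := fun u => by
      rw [eC, hga, eC, za_of_eq_zero (show (t • W a) a = 0 by simp [halt.1])]
    simp [e, hχ, ht]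
  · refine trace_eC_moved M hm R hψ hW h1 h2 hr fun t h => hy (Finset.mem_image.2 ⟨(t, y a), Finset.mem_univ _, ?_⟩)
    funext i; by_cases hi : i = a
    · subst hi; simp [g, halt.1]
    · have := congrFun h i
      simp [za, hi] at this
      simp [g, hi, this]

end CfsgLib.OrthMinusDeg
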