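import Cfsg.Agent.OrthMinusDeg.Weights
import Cfsg.Agent.OrthPlusDeg.RootValue

/-!
The pairs spanning totally singular lines for the minus form, the value of a small character on the
root elements, and the resulting divisibility of the degree.
-/

set_option autoImplicit false
set_option linter.unusedSectionVars false

noncomputable section

namespace CfsgLib.OrthMinusDeg

open Cfsg.Geo CfsgLib.OrthGeo Matrix CfsgLib.OrthPlusDeg
open scoped MatrixGroups

variable {F : Type*} [Field F] [Fintype F] [DecidableEq F] {m k : ℕ} (M : Dat F)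

/-- A pair spanning a totally singular line. -/
def IsPairM (p : (Idx m → F) × (Idx m → F)) : Prop :=
  qM M m p.1 = 0 ∧ qM M m p.2 = 0 ∧ bform (nondeg M m) p.1 p.2 = 0 ∧ p.1 ≠ 0 ∧ ∀ c : F, c • p.1 ≠ p.2

/-- An isometry acting on pairs. -/
def mapPairM (g : IsoM M m) (p : (Idx m → F) × (Idx m → F)) : (Idx m → F) × (Idx m → F) :=
  (((g : GL (Idx m) F) : Matrix _ _ F) *ᵥ p.1, ((g : GL (Idx m) F) : Matrix _ _ F) *ᵥ p.2)

theorem mapPairM_mul (g h : IsoM M m) (p : (Idx m → F) × (Idx m → F)) :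
    mapPairM M (g * h) p = mapPairM M g (mapPairM M h p) := by
  simp [mapPairM, Matrix.mulVec_mulVec]

theorem mapPairM_one (p : (Idx m → F) × (Idx m → F)) : mapPairM M 1 p = p := by simp [mapPairM]

theorem isPairM_map (g : IsoM M m) {p : (Idx m → F) × (Idx m → F)} (h : IsPairM M p) :
    IsPairM M (mapPairM M g p) := by
  obtain ⟨h1, h2, h3, h4, h5⟩ := h
  refine ⟨?_, ?_, ?_, fun hz => h4 ?_, fun c hc => h5 c ?_⟩
  · exact (mem_isometryGroup.1 g.2 _).trans h1
  · exact (mem_isometryGroup.1 g.2 _).trans h2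
  · exact (isometry_b (nondeg M m) g.2 _ _).trans h3
  · have := congrArg (fun x => ((g : GL (Idx m) F)⁻¹ : GL (Idx m) F).1 *ᵥ x) hz
    simpa only [mapPairM, inv_mulVec_cancel, Matrix.mulVec_zero] using this
  · have := congrArg (fun x => ((g : GL (Idx m) F)⁻¹ : GL (Idx m) F).1 *ᵥ x) hc
    simpa only [mapPairM, ← Matrix.mulVec_smul, inv_mulVec_cancel] using this

theorem exists_mapPairM {p p' : (Idx m → F) × (Idx m → F)} (hp : IsPairM M p) (hp' : IsPairM M p') :
    ∃ g : IsoM M m, mapPairM M g p = p' := by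
  have hlin : ∀ {q : (Idx m → F) × (Idx m → F)}, IsPairM M q → LinearIndependent F ![q.1, q.2] :=
    fun {q} hq => (LinearIndependent.pair_iff' hq.2.2.2.1).2 hq.2.2.2.2
  obtain ⟨g, hg, hgi⟩ := CfsgLib.LinAlg.Witt.exists_quadFun_family (nondeg M m) (hlin hp) (hlin hp')
    (fun i => by fin_cases i <;> simp [hp.1, hp.2.1, hp'.1, hp'.2.1]) (fun i j => by
      have hs := fun {q : (Idx m → F) × (Idx m → F)} (hq : IsPairM M q) =>
        And.intro hq.2.2.1 ((b_symm (nondeg M m) q.2 q.1).trans hq.2.2.1)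
      simp only [← bform_apply (nondeg M m)]
      fin_cases i <;> fin_cases j <;>
        simp [hs hp, hs hp', b_self (nondeg M m), hp.1, hp.2.1, hp'.1, hp'.2.1, -bform_apply])
  exact ⟨⟨g, hg⟩, Prod.ext (hgi 0) (hgi 1)⟩

variable (hm : 3 ≤ m) (R : OmM M m →* Matrix (Fin k) (Fin k) ℂ) {ψ : AddChar F ℂ}

/-- The value of a small character at a root element. -/
theorem trace_root_minus (hψ : ψ 1 ≠ 1) (hR : ∃ g, R g ≠ 1) (hk : SmallM F m k)
    {p : (Idx m → F) × (Idx m → F)} (hp : IsPairM M p) :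
    (R (eich M hm p.1 p.2)).trace = (k : ℂ) - (Fintype.card F : ℂ) ^ (2 * m - 1) := by
  classical
  set a : Fin m := ⟨0, by omega⟩
  set b : Fin m := ⟨1, by omega⟩
  have hab : a ≠ b := by simp [a, b]
  have hp₀ : IsPairM M ((eV (Pi.single a 1) : Idx m → F), eV (Pi.single b 1)) := by
    refine ⟨qM_eV M _, qM_eV M _, by simp [eV, bform_mk, zb, -bform_apply], fun h => ?_, fun c h => ?_⟩
    · have := congrFun h (.inl (.inl a)); simp [eV, mk] at this
    · have := congrFun h (.inl (.inl b)); simp [eV, mk, hab.symm] at this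
  obtain ⟨g, hg⟩ := exists_mapPairM M hp₀ hp
  let φ : OmM M m ≃* OmM M m := MulAut.conjNormal g
  let R' : OmM M m →* Matrix (Fin k) (Fin k) ℂ := R.comp φ.toMonoidHom
  have hR' : ∃ x, R' x ≠ 1 := by
    obtain ⟨x, hx⟩ := hR
    exact ⟨φ.symm x, by simpa [R'] using hx⟩
  have e : φ (sS M hm (wflat (Pi.single a 1) (Pi.single b 1))) = eich M hm p.1 p.2 := by
    apply Subtype.ext
    rw [MulAut.conjNormal_apply, sS_wflat, conj_eich M hm g hp₀.1 hp₀.2.2.1, ← hg]
    rfl
  have key : (R' (sS M hm (wflat (Pi.single a 1) (Pi.single b 1)))).trace =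
      (k : ℂ) - (Fintype.card F : ℂ) ^ (2 * m - 1) := by
    set v := wflat (Pi.single a (1 : F)) (Pi.single b 1)
    have hv : ∀ W : Matrix (Fin m) (Fin m) F, pW M hm R' ψ W * R' (sS M hm v) = ψ (W a b) • pW M hm R' ψ W := by
      intro W
      have h := flat2_dot_wflat (1 : F) (Pi.single a 1) (Pi.single b 1) W
      rw [one_smul, one_mul, bil_single] at h
      rw [pW_mul_sS, h]
    rw [trace_weights M hm R' hψ hR' hk, hv, show (0 : Matrix (Fin m) (Fin m) F) a b = 0 from rfl,
      AddChar.map_zero_eq_one, one_smul, trace_pW M hm R' hψ,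
      Finset.sum_congr rfl (g := fun W => ψ (W a b) * (Fintype.card F : ℂ) ^ 2) (fun W hW => by
        rw [hv, Matrix.trace_smul, smul_eq_mul, trace_pW M hm R' hψ,
          (weight_structure_minus M hm R' hψ hR' hk W (mem_wedgeSet.1 hW).1).1 (mem_wedgeSet.1 hW)]
        push_cast; ring),
      ← Finset.sum_mul, sum_psi_wedge (by omega) hψ hab]
    have h := degree_split M hm R' hψ hR' hk
    have h' : (k : ℂ) = (muW M hm R' ψ (0 : Matrix (Fin m) (Fin m) F) : ℂ) +
        ((wedgeSet F m).card : ℂ) * (Fintype.card F : ℂ) ^ 2 := by exact_mod_cast h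
    rw [h', sub_mul, ← pow_add, show 2 * m - 3 + 2 = 2 * m - 1 by omega]
    ring
  rw [← e]
  exact key

/-- The singular vectors. -/
def singM (m : ℕ) : Finset (Idx m → F) := Finset.univ.filter fun v => v ≠ 0 ∧ qM M m v = 0

theorem mem_singM {m : ℕ} {v : Idx m → F} : v ∈ singM M m ↔ v ≠ 0 ∧ qM M m v = 0 := by simp [singM]

theorem card_singM {m : ℕ} (hm1 : 1 ≤ m) :
    (singM M m).card = (Fintype.card F ^ m - 1) * (Fintype.card F ^ (m + 1) + 1) := by
  classical
  set q := Fintype.card F with hq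
  have hq1 : 1 ≤ q := Fintype.card_pos
  let sol : (Fin m → F) × (Fin 2 → F) → Finset (Fin m → F) := fun p =>
    Finset.univ.filter fun y => y ⬝ᵥ p.1 + nz M p.2 = 0
  set A := (Finset.univ : Finset ((Fin m → F) × (Fin 2 → F))).sigma sol with hA
  have hsol : ∀ p : (Fin m → F) × (Fin 2 → F), p.1 ≠ 0 → (sol p).card = q ^ (m - 1) := by
    intro p hp
    have h := CfsgLib.SlMinDegree.card_perp hp
    rw [Fintype.card_fun, Fintype.card_fin, ← hq, show q ^ m = q * q ^ (m - 1) by
      rw [← pow_succ', Nat.sub_add_cancel hm1]] at h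
    have h0 := Nat.eq_of_mul_eq_mul_left hq1 h
    rw [← h0]
    obtain ⟨j, hj⟩ := Function.ne_iff.1 hp
    set y0 : Fin m → F := Pi.single j (-(nz M p.2) / p.1 j)
    have hy0 : y0 ⬝ᵥ p.1 = -(nz M p.2) := by
      rw [single_dotProduct, div_mul_cancel₀ _ hj]
    refine Finset.card_nbij' (fun y => y - y0) (fun y => y + y0) ?_ ?_ ?_ ?_
    · intro y hy
      simp only [sol, Finset.coe_filter, Finset.mem_univ, true_and, Set.mem_ofPred_eq] at hy ⊢
      rw [sub_dotProduct, hy0]; linear_combination hy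
    · intro y hy
      simp only [sol, Finset.coe_filter, Finset.mem_univ, true_and, Set.mem_ofPred_eq] at hy ⊢
      rw [add_dotProduct, hy0]; linear_combination hy
    · intro y _; simp
    · intro y _; simp
  have hsol0 : ∀ z : Fin 2 → F, (sol (0, z)).card = if z = 0 then q ^ m else 0 := by
    intro z
    by_cases hz : z = 0
    · rw [if_pos hz]; subst hz
      simp [sol, nz, q]
    · rw [if_neg hz]
      refine Finset.card_eq_zero.2 (Finset.filter_eq_empty_iff.2 fun y _ h => hz ?_)
      simp only [dotProduct_zero, zero_add] at h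
      obtain ⟨e0, e1⟩ := M.aniso _ _ h
      funext i; fin_cases i <;> assumption
  have hAcard : A.card = q ^ m + (q ^ m - 1) * (q ^ 2 * q ^ (m - 1)) := by
    rw [hA, Finset.card_sigma, Fintype.sum_prod_type,
      ← Finset.add_sum_erase _ _ (Finset.mem_univ (0 : Fin m → F))]
    congr 1
    · simp [hsol0]
    · rw [Finset.sum_congr rfl (g := fun _ => q ^ 2 * q ^ (m - 1)) (fun x hx => by
          rw [Finset.sum_congr rfl (fun z _ => hsol (x, z) (Finset.ne_of_mem_erase hx)), Finset.sum_const,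
            Finset.card_univ, Fintype.card_fun, Fintype.card_fin, smul_eq_mul]),
        Finset.sum_const, Finset.card_erase_of_mem (Finset.mem_univ _), Finset.card_univ, Fintype.card_fun,
        Fintype.card_fin, smul_eq_mul]
  have hins : A.card = (insert 0 (singM M m)).card := by
    refine Finset.card_bij (fun p _ => mk p.1.1 p.2 p.1.2) ?_ ?_ ?_
    · rintro ⟨⟨x, z⟩, y⟩ hp
      simp only [hA, sol, Finset.mem_sigma, Finset.mem_filter, Finset.mem_univ, true_and] at hp
      refine Finset.mem_insert.2 ?_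
      by_cases h0 : mk x y z = (0 : Idx m → F)
      · exact Or.inl h0
      · exact Or.inr ((mem_singM M).2 ⟨h0, by rw [qM_mk, dotProduct_comm, hp]⟩)
    · rintro ⟨⟨x, z⟩, y⟩ _ ⟨⟨x', z'⟩, y'⟩ _ h
      obtain ⟨rfl, rfl, rfl⟩ := mk_inj.1 h
      rfl
    · intro v hv
      obtain ⟨x, y, z, rfl⟩ := exists_mk v
      refine ⟨⟨(x, z), y⟩, ?_, rfl⟩
      simp only [hA, sol, Finset.mem_sigma, Finset.mem_filter, Finset.mem_univ, true_and]
      rcases Finset.mem_insert.1 hv with h | h
      · rw [dotProduct_comm, ← qM_mk, h, q_zero (nondeg M m)]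
      · rw [dotProduct_comm, ← qM_mk]; exact ((mem_singM M).1 h).2
  rw [Finset.card_insert_of_notMem (fun h => ((mem_singM M).1 h).1 rfl), hAcard,
    ← pow_add, show 2 + (m - 1) = m + 1 by omega] at hins
  have : 1 ≤ q ^ m := Nat.one_le_pow _ _ hq1
  rw [Nat.mul_add, Nat.mul_one]
  omega

open scoped _root_.Classical in
/-- The pairs spanning totally singular lines. -/
def pairM (m : ℕ) : Finset ((Idx m → F) × (Idx m → F)) := Finset.univ.filter fun p => IsPairM M p

theorem mem_pairM {m : ℕ} {p : (Idx m → F) × (Idx m → F)} : p ∈ pairM M m ↔ IsPairM M p := by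
  simp [pairM]

theorem card_pairM {m : ℕ} (hm2 : 2 ≤ m) : (pairM M m).card =
    (Fintype.card F ^ m - 1) * (Fintype.card F ^ (m + 1) + 1) *
      (Fintype.card F * ((Fintype.card F ^ (m - 1) - 1) * (Fintype.card F ^ m + 1))) := by
  classical
  obtain ⟨m, rfl⟩ : ∃ n, m = n + 1 := ⟨m - 1, by omega⟩
  have hsing := card_singM M (m := m + 1) (by omega)
  have hsmall := card_singM M (m := m) (by omega)
  rw [Nat.add_sub_cancel, ← hsing, ← hsmall]
  rw [Finset.card_eq_sum_card_fiberwise (f := fun p : (Idx (m + 1) → F) × _ => p.1)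
    (t := singM M (m + 1)) (fun p hp => (mem_singM M).2
      ⟨((mem_pairM M).1 hp).2.2.2.1, ((mem_pairM M).1 hp).1⟩)]
  rw [← smul_eq_mul, ← Finset.sum_const]
  refine Finset.sum_congr rfl fun u hu => ?_
  obtain ⟨hu0, huQ⟩ := (mem_singM M).1 hu
  set a : Idx (m + 1) → F := eV (Pi.single 0 1) with ha
  have ha0 : a ≠ 0 := fun h => one_ne_zero (show (1 : F) = 0 by
    simpa [ha, eV, mk] using congrFun h (.inl (.inl 0)))
  have haQ : qM M (m + 1) a = 0 := qM_eV M _
  obtain ⟨g, hg, hgi⟩ := CfsgLib.LinAlg.Witt.exists_quadFun_family (nondeg M (m + 1))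
    (a := ![u]) (b := ![a]) (linearIndependent_unique_iff.2 (by simpa using hu0))
    (linearIndependent_unique_iff.2 (by simpa using ha0)) (fun i => by fin_cases i; simp [huQ, haQ])
    (fun i j => by
      simp only [← bform_apply (nondeg M (m + 1))]
      fin_cases i; fin_cases j
      simp [b_self (nondeg M (m + 1)), huQ, haQ, -bform_apply])
  let G : IsoM M (m + 1) := ⟨g, hg⟩
  have hGu : ((G : GL (Idx (m + 1)) F) : Matrix _ _ F) *ᵥ u = a := hgi 0
  have hstep : ((pairM M (m + 1)).filter fun p => p.1 = u).card =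
      ((pairM M (m + 1)).filter fun p => p.1 = a).card := by
    refine Finset.card_nbij' (mapPairM M G) (mapPairM M G⁻¹) ?_ ?_ ?_ ?_
    · intro p hp
      simp only [Finset.coe_filter, Set.mem_ofPred_eq, mem_pairM] at hp ⊢
      exact ⟨isPairM_map M G hp.1, by simp [mapPairM, hp.2, hGu]⟩
    · intro p hp
      simp only [Finset.coe_filter, Set.mem_ofPred_eq, mem_pairM] at hp ⊢
      refine ⟨isPairM_map M _ hp.1, ?_⟩
      simp only [mapPairM, hp.2, ← hGu, Subgroup.coe_inv]
      exact inv_mulVec_cancel _ _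
    · intro p _; rw [← mapPairM_mul, inv_mul_cancel, mapPairM_one]
    · intro p _; rw [← mapPairM_mul, mul_inv_cancel, mapPairM_one]
  rw [hstep]
  set Rs := (Finset.univ : Finset F) ×ˢ singM M m
  have hR : Rs.card = Fintype.card F * (singM M m).card := by rw [Finset.card_product, Finset.card_univ]
  rw [← hR]
  let lift : F × (Idx m → F) → (Idx (m + 1) → F) := fun c =>
    mk (Fin.cons c.1 fun i => c.2 (.inl (.inl i))) (Fin.cons 0 fun i => c.2 (.inl (.inr i)))
      fun i => c.2 (.inr i)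
  have hQlift : ∀ c, qM M (m + 1) (lift c) = qM M m c.2 := fun c => by
    conv_rhs => rw [mk_eta c.2]
    simp only [lift, qM_mk, dotProduct, Fin.sum_univ_succ, Fin.cons_zero, Fin.cons_succ, mul_zero, zero_add]
  have hba : ∀ v, bform (nondeg M (m + 1)) a v = v (.inl (.inr 0)) := fun v => by
    obtain ⟨x, y, z, rfl⟩ := exists_mk v
    simp [ha, eV, bform_mk, zb, -bform_apply]
    rfl
  symm
  refine Finset.card_bij (fun c _ => (a, lift c)) ?_ ?_ ?_
  · intro c hc
    obtain ⟨hc0, hcQ⟩ := (mem_singM M).1 (Finset.mem_product.1 hc).2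
    refine Finset.mem_filter.2 ⟨(mem_pairM M).2 ⟨haQ, by rw [hQlift]; exact hcQ, by rw [hba]; rfl, ha0,
      fun d hd => hc0 ?_⟩, rfl⟩
    funext i
    rcases i with (i | i) | i
    · simpa [lift, ha, eV, mk, Fin.succ_ne_zero] using (congrFun hd (.inl (.inl i.succ))).symm
    · simpa [lift, ha, eV, mk] using (congrFun hd (.inl (.inr i.succ))).symm
    · simpa [lift, ha, eV, mk] using (congrFun hd (.inr i)).symm
  · intro c _ c' _ h
    have h' := (Prod.mk.inj h).2
    refine Prod.ext (by simpa [lift, mk] using congrFun h' (.inl (.inl 0))) (funext fun i => ?_)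
    rcases i with (i | i) | i
    · simpa [lift, mk] using congrFun h' (.inl (.inl i.succ))
    · simpa [lift, mk] using congrFun h' (.inl (.inr i.succ))
    · simpa [lift, mk] using congrFun h' (.inr i)
  · rintro ⟨p1, v⟩ hp
    obtain ⟨hp, hp1⟩ := Finset.mem_filter.1 hp
    obtain ⟨-, hvQ, hb, -, hne⟩ := (mem_pairM M).1 hp
    simp only at hp1 hvQ hb hne
    subst hp1
    rw [hba] at hb
    obtain ⟨x, y, z, rfl⟩ := exists_mk v
    have hy0 : y 0 = 0 := hb
    have hl : lift (x 0, mk (fun i => x i.succ) (fun i => y i.succ) z) = mk x y z := by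
      simp only [lift, mk_inj]
      refine ⟨?_, ?_, rfl⟩ <;> funext i <;> refine Fin.cases ?_ (fun i => ?_) i <;> simp [mk, hy0]
    refine ⟨(x 0, mk (fun i => x i.succ) (fun i => y i.succ) z),
      Finset.mem_product.2 ⟨Finset.mem_univ _, (mem_singM M).2 ⟨fun h0 => hne (x 0) ?_, ?_⟩⟩, by simp [hl]⟩
    · have h0' : mk (fun i => x i.succ) (fun i => y i.succ) z = mk (0 : Fin m → F) 0 0 := by
        simp only at h0
        rw [h0]; funext i; rcases i with (i | i) | i <;> rfl
      obtain ⟨e1, e2, e3⟩ := mk_inj.1 h0'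
      rw [ha, eV, mk_smul, mk_inj, smul_zero, smul_zero]
      refine ⟨?_, ?_, e3.symm⟩ <;> funext i <;> refine Fin.cases ?_ (fun i => ?_) i
      · simp
      · simpa [Fin.succ_ne_zero] using (congrFun e1 i).symm
      · simp [hy0]
      · simpa using (congrFun e2 i).symm
    · rw [← hQlift (x 0, _), hl]; exact hvQ

open scoped _root_.Classical in
include hm in
/-- The degree divides a multiple of the number of root elements. -/
theorem degree_dvd_minus (hψ : ψ 1 ≠ 1) (hR : ∃ g, R g ≠ 1) (hk : SmallM F m k) (hk0 : k ≠ 0)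
    (hschur : ∀ X, (∀ g, X * R g = R g * X) → ∃ c : ℂ, X = c • 1) {c₀ : ℕ} (hc₀ : c₀ ≠ 0)
    (hfib : ∀ e : OmM M m, c₀ ∣ ((pairM M m).filter fun p => eich M hm p.1 p.2 = e).card) :
    k ∣ (pairM M m).card / c₀ * Fintype.card F ^ (2 * m - 1) := by
  set q := Fintype.card F with hqdef
  set T := pairM M m with hT
  set S := ∑ p ∈ T, R (eich M hm p.1 p.2) with hS
  set I := T.image fun p => eich M hm p.1 p.2 with hI
  set N : OmM M m → ℕ := fun e => (T.filter fun p => eich M hm p.1 p.2 = e).card / c₀ with hN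
  have hN' : ∀ e, c₀ * N e = (T.filter fun p => eich M hm p.1 p.2 = e).card := fun e =>
    Nat.mul_div_cancel' (hfib e)
  set S' := ∑ e ∈ I, (N e : ℂ) • R e with hS'
  have hSS' : S = (c₀ : ℂ) • S' := by
    rw [hS, hS', ← Finset.sum_fiberwise_of_maps_to (g := fun p => eich M hm p.1 p.2)
      (fun p hp => Finset.mem_image_of_mem _ hp), Finset.smul_sum]
    refine Finset.sum_congr rfl fun e _ => ?_
    rw [Finset.sum_congr rfl (g := fun _ => R e) (fun p hp => by rw [(Finset.mem_filter.1 hp).2]),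
      Finset.sum_const, smul_smul, ← Nat.cast_mul, hN', Nat.cast_smul_eq_nsmul]
  have hTc : T.card = c₀ * ∑ e ∈ I, N e := by
    rw [Finset.mul_sum, Finset.sum_congr rfl (fun e _ => hN' e)]
    exact Finset.card_eq_sum_card_image _ _
  have hc0' : (c₀ : ℂ) ≠ 0 := Nat.cast_ne_zero.2 hc₀
  obtain ⟨c, hc⟩ := hschur S' (fun x => by
    have hconj : ∀ p ∈ T, R x * R (eich M hm p.1 p.2) =
        R (eich M hm (mapPairM M (x : IsoM M m) p).1 (mapPairM M (x : IsoM M m) p).2) * R x := by
      intro p hp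
      obtain ⟨h1, -, h3, -, -⟩ := (mem_pairM M).1 hp
      exact rep_semiconj R (semiconj_eich M hm x h1 h3 rfl rfl)
    have hcomm : S * R x = R x * S := by
      rw [hS, Finset.mul_sum, Finset.sum_mul, Finset.sum_congr rfl hconj]
      symm
      refine Finset.sum_nbij' (mapPairM M (x : IsoM M m)) (mapPairM M (x : IsoM M m)⁻¹) ?_ ?_ ?_ ?_ ?_
      · intro p hp; exact (mem_pairM M).2 (isPairM_map M _ ((mem_pairM M).1 hp))
      · intro p hp; exact (mem_pairM M).2 (isPairM_map M _ ((mem_pairM M).1 hp))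
      · intro p _; rw [← mapPairM_mul, inv_mul_cancel, mapPairM_one]
      · intro p _; rw [← mapPairM_mul, mul_inv_cancel, mapPairM_one]
      · intro p _; rfl
    rw [hSS', smul_mul_assoc, mul_smul_comm] at hcomm
    exact smul_right_injective _ hc0' hcomm)
  set n := ∑ e ∈ I, N e with hn
  have hck : c * k = (n : ℂ) * ((k : ℂ) - (q : ℂ) ^ (2 * m - 1)) := by
    have h := congrArg Matrix.trace hc
    rw [hS', Matrix.trace_sum, Finset.sum_congr rfl (g := fun e => (N e : ℂ) * ((k : ℂ) - (q : ℂ) ^ (2 * m - 1)))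
      (fun e he => by
        obtain ⟨p, hp, rfl⟩ := Finset.mem_image.1 he
        rw [Matrix.trace_smul, smul_eq_mul, trace_root_minus M hm R hψ hR hk ((mem_pairM M).1 hp)]),
      ← Finset.sum_mul, ← Nat.cast_sum, Matrix.trace_smul, Matrix.trace_one, Fintype.card_fin,
      smul_eq_mul] at h
    exact h.symm
  have hint : IsIntegral ℤ c := by
    haveI : Nonempty (Fin k) := ⟨⟨0, by omega⟩⟩
    have hx : IsIntegral ℤ (∑ e ∈ I, MonoidAlgebra.single e (N e : ℤ)) := IsIntegral.of_finite ℤ _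
    have h := hx.map (MonoidAlgebra.lift ℤ (Matrix (Fin k) (Fin k) ℂ) (OmM M m) R)
    rw [map_sum] at h
    simp only [MonoidAlgebra.lift_single] at h
    rw [Finset.sum_congr rfl (g := fun e => (N e : ℂ) • R e) (fun e _ => by
      rw [← Int.cast_smul_eq_zsmul ℂ, Int.cast_natCast]), ← hS', hc, ← Algebra.algebraMap_eq_smul_one] at h
    exact (isIntegral_algebraMap_iff (algebraMap ℂ (Matrix (Fin k) (Fin k) ℂ)).injective).1 h
  have hrat : c = algebraMap ℚ ℂ ((n : ℚ) * ((k : ℚ) - (q : ℚ) ^ (2 * m - 1)) / k) := by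
    have hk0' : (k : ℂ) ≠ 0 := Nat.cast_ne_zero.2 hk0
    simp only [map_div₀, map_mul, map_sub, map_pow, map_natCast]
    rw [eq_div_iff hk0', hck]
  obtain ⟨z, hz⟩ := IsIntegrallyClosed.isIntegral_iff.1
    ((isIntegral_algebraMap_iff (algebraMap ℚ ℂ).injective).1 (hrat ▸ hint))
  have hzk : z * (k : ℤ) = (n : ℤ) * ((k : ℤ) - (q : ℤ) ^ (2 * m - 1)) := by
    have hk0' : (k : ℚ) ≠ 0 := Nat.cast_ne_zero.2 hk0
    rw [eq_div_iff hk0', eq_intCast] at hz
    exact_mod_cast hz
  rw [hTc, Nat.mul_div_cancel_left _ (Nat.pos_of_ne_zero hc₀), ← Int.natCast_dvd_natCast]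
  refine ⟨(n : ℤ) - z, ?_⟩
  push_cast
  linear_combination hzk

open scoped _root_.Classical in
/-- Over the field with two elements three pairs give the same root element. -/
theorem three_dvd_fibre (hq : Fintype.card F = 2) (e : OmM M m) :
    3 ∣ ((pairM M m).filter fun p => eich M hm p.1 p.2 = e).card := by
  have h2 : (1 : F) + 1 = 0 := by
    have h : ((Fintype.card F : ℕ) : F) = 0 := Nat.cast_card_eq_zero F
    rw [hq] at h
    push_cast at h
    linear_combination h
  have hneg : ∀ x : Idx m → F, x + x = 0 := fun x => funext fun i => by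
    simp only [Pi.add_apply, Pi.zero_apply]; linear_combination (x i) * h2
  set A := (pairM M m).filter fun p => eich M hm p.1 p.2 = e
  have hstep : ∀ p ∈ A, ((p.2, p.1 + p.2) : (Idx m → F) × (Idx m → F)) ∈ A := by
    intro p hp
    obtain ⟨hp, he⟩ := Finset.mem_filter.1 hp
    obtain ⟨h1, h2', h3, h4, h5⟩ := (mem_pairM M).1 hp
    have hsum : qM M m (p.1 + p.2) = 0 := by rw [q_add (nondeg M m), h1, h2', h3]; ring
    have h21 : bform (nondeg M m) p.2 p.1 = 0 := (b_symm (nondeg M m) _ _).trans h3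
    have h2s : bform (nondeg M m) p.2 (p.1 + p.2) = 0 := by
      rw [map_add, h21, b_self (nondeg M m), h2', mul_zero, add_zero]
    have hne2 : p.2 ≠ 0 := fun h => h5 0 (by rw [zero_smul, h])
    refine Finset.mem_filter.2 ⟨(mem_pairM M).2 ⟨h2', hsum, h2s, hne2, fun c hc => ?_⟩, ?_⟩
    · change c • p.2 = p.1 + p.2 at hc
      have e1 : p.1 = (c + 1) • p.2 := by
        rw [add_smul, one_smul, hc, add_assoc, hneg, add_zero]
      by_cases hc1 : c + 1 = 0
      · exact h4 (by rw [e1, hc1, zero_smul])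
      · exact h5 (c + 1)⁻¹ (by rw [e1, inv_smul_smul₀ hc1])
    · rw [← he]
      refine om_ext M fun X Y Z => ?_
      rw [eich_apply M hm h2' h2s, eich_apply M hm h1 h3, hsum, h2']
      funext i
      simp only [Pi.add_apply, Pi.sub_apply, Pi.smul_apply, smul_eq_mul, map_add, LinearMap.add_apply]
      linear_combination (-(bform (nondeg M m) p.2 (mk X Y Z) * p.1 i) +
        bform (nondeg M m) p.1 (mk X Y Z) * p.2 i) * h2
  let f : A → A := fun p => ⟨(p.1.2, p.1.1 + p.1.2), hstep p.1 p.2⟩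
  have hf3 : ∀ p, f (f (f p)) = p := fun p => by
    apply Subtype.ext
    obtain ⟨⟨u, v⟩, hp⟩ := p
    simp only [f, Prod.mk.injEq]
    constructor <;> funext i <;> simp only [Pi.add_apply]
    · linear_combination (v i) * h2
    · linear_combination (u i + v i) * h2
  let σ : Equiv.Perm A := ⟨f, fun p => f (f p), hf3, hf3⟩
  have hσ : σ ^ 3 ^ 1 = 1 := by
    refine Equiv.ext fun p => ?_
    simp only [pow_one, pow_succ, pow_zero, one_mul, Equiv.Perm.mul_apply, Equiv.Perm.one_apply]
    exact hf3 p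
  by_contra h
  haveI : Fact (Nat.Prime 3) := ⟨Nat.prime_three⟩
  obtain ⟨p, hp⟩ := Equiv.Perm.exists_fixed_point_of_prime (p := 3) (by rwa [Fintype.card_coe]) hσ
  have hp' := congrArg (fun x : A => x.1.1) hp
  change p.1.2 = p.1.1 at hp'
  exact ((mem_pairM M).1 (Finset.mem_filter.1 p.2).1).2.2.2.2 1 (by rw [one_smul, hp'])

end CfsgLib.OrthMinusDeg
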