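import Cfsg.Agent.OrthMinusDeg.ZeroWeight
import Cfsg.Agent.Classical.Linear.Simple

/-!
For `Omega^-_8(2)` the weight zero space has dimension at least six: an element of order seven of
`SL_3(2)` is conjugate to its square, and conjugate to its inverse in the parabolic normaliser.
-/

set_option autoImplicit false
set_option linter.unusedSectionVars false

noncomputable section

namespace CfsgLib.OrthMinusDeg

open Cfsg.Geo CfsgLib.OrthGeo Matrix CfsgLib.OrthPlusDeg
open scoped MatrixGroups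

variable {F : Type*} [Field F] [Fintype F] [DecidableEq F]

theorem one_add_one_of_two (hq : Fintype.card F = 2) : (1 : F) + 1 = 0 := by
  have h : ((Fintype.card F : ℕ) : F) = 0 := Nat.cast_card_eq_zero F
  rw [hq] at h
  push_cast at h
  linear_combination h

/-- A Singer element of `SL_3(2)`. -/
def sev : Matrix.SpecialLinearGroup (Fin 3) F :=
  ⟨!![0, 0, 1; 1, 0, 1; 0, 1, 0], by simp [Matrix.det_fin_three]⟩

theorem coe_sev : ((sev : Matrix.SpecialLinearGroup (Fin 3) F) : Matrix (Fin 3) (Fin 3) F) =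
    !![0, 0, 1; 1, 0, 1; 0, 1, 0] := rfl

theorem sev_pow_seven (hq : Fintype.card F = 2) : (sev : Matrix.SpecialLinearGroup (Fin 3) F) ^ 7 = 1 := by
  have h2 := one_add_one_of_two hq
  apply Subtype.ext
  rw [Matrix.SpecialLinearGroup.coe_pow, coe_sev, Matrix.SpecialLinearGroup.coe_one]
  ext i j
  fin_cases i <;> fin_cases j <;> simp [pow_succ, Matrix.mul_apply, Fin.sum_univ_three] <;>
    first
    | exact h2
    | linear_combination h2
    | linear_combination 2 * h2
    | linear_combination 3 * h2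
    | linear_combination -h2
    | linear_combination -2 * h2

theorem exists_sev_sq (hq : Fintype.card F = 2) :
    ∃ g : Matrix.SpecialLinearGroup (Fin 3) F, g * sev = sev ^ 2 * g := by
  have h2 := one_add_one_of_two hq
  refine ⟨⟨!![1, 0, 0; 0, 0, 1; 0, 1, 1], by simp [Matrix.det_fin_three]; linear_combination -h2⟩, ?_⟩
  rw [sq]
  apply Subtype.ext
  change (!![1, 0, 0; 0, 0, 1; 0, 1, 1] : Matrix (Fin 3) (Fin 3) F) * !![0, 0, 1; 1, 0, 1; 0, 1, 0] =
    !![0, 0, 1; 1, 0, 1; 0, 1, 0] * !![0, 0, 1; 1, 0, 1; 0, 1, 0] * !![1, 0, 0; 0, 0, 1; 0, 1, 1]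
  ext i j
  fin_cases i <;> fin_cases j <;> simp [Matrix.mul_apply, Fin.sum_univ_three] <;>
    first
    | exact h2
    | exact h2.symm
    | linear_combination h2
    | linear_combination -h2

theorem exists_sev_transpose (hq : Fintype.card F = 2) :
    ∃ g : Matrix.SpecialLinearGroup (Fin 3) F,
      (g : Matrix (Fin 3) (Fin 3) F) * (sev : Matrix.SpecialLinearGroup (Fin 3) F).1 =
        (sev : Matrix.SpecialLinearGroup (Fin 3) F).1ᵀ * (g : Matrix (Fin 3) (Fin 3) F) := by
  have h2 := one_add_one_of_two hq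
  refine ⟨⟨!![1, 0, 0; 0, 0, 1; 0, 1, 0], by simp [Matrix.det_fin_three]; linear_combination -h2⟩, ?_⟩
  change (_ : Matrix (Fin 3) (Fin 3) F) * !![0, 0, 1; 1, 0, 1; 0, 1, 0] = !![0, 0, 1; 1, 0, 1; 0, 1, 0]ᵀ * _
  ext i j
  fin_cases i <;> fin_cases j <;> simp [Matrix.mul_apply, Fin.sum_univ_three]

theorem sev_moves {W : Matrix (Fin 3) (Fin 3) F} (hq : Fintype.card F = 2) (hW : IsAlt W)
    (h : (sev : Matrix.SpecialLinearGroup (Fin 3) F).1ᵀ * W * (sev : Matrix.SpecialLinearGroup (Fin 3) F).1 =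
      W) : W = 0 := by
  have h2 := one_add_one_of_two hq
  have h01 := congrFun (congrFun h 0) 1
  have h02 := congrFun (congrFun h 0) 2
  have h12 := congrFun (congrFun h 1) 2
  simp [sev, Matrix.mul_apply, Fin.sum_univ_three, hW.1, hW.2 0 1, hW.2 0 2, hW.2 1 2] at h01 h02 h12
  have e02 : W 0 2 = 0 := by linear_combination -h12 - (W 1 2) * h2
  have e01 : W 0 1 = 0 := by linear_combination -h02 - e02
  have e12 : W 1 2 = 0 := by linear_combination h01 + e01
  ext i j
  fin_cases i <;> fin_cases j <;> simp [hW.1, hW.2 0 1, hW.2 0 2, hW.2 1 2, e01, e02, e12]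

theorem zmod_seven_cases : ∀ c : ZMod 7, c ≠ 0 →
    c = 1 ∨ c = 2 ∨ c = 4 ∨ c = -1 * 1 ∨ c = -1 * 2 ∨ c = -1 * 4 := by decide

theorem zmod_seven_six : ((6 : ℕ) : ZMod 7) = -1 := by decide

theorem zmod_seven_four : (4 : ZMod 7) = 2 * 2 := by decide

variable {k : ℕ} (M : Dat F) (hm : 3 ≤ 3) (R : OmM M 3 →* Matrix (Fin k) (Fin k) ℂ) {ψ : AddChar F ℂ}

/-- An element of `Omega` inverting the Singer element modulo `SL_3`. -/
theorem exists_inverting (hq : Fintype.card F = 2) :
    ∃ L : OmM M 3, L * slM M hm sev = slM M hm sev⁻¹ * L := by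
  classical
  have h2 := one_add_one_of_two hq
  let u : Fin 3 → Idx 3 → F := fun i => mk (Pi.single i 1) (Pi.single i 1) 0
  have hu : ∀ i, qM M 3 (u i) = 1 := fun i => by simp [u, qM_mk, nz]
  have hu0 : ∀ i, qM M 3 (u i) ≠ 0 := fun i => by rw [hu]; exact one_ne_zero
  let z : Idx 3 → F := zV ![1, 0]
  have hz : qM M 3 z = 1 := by simp [z, qM_zV, nz]
  have hz0 : qM M 3 z ≠ 0 := by rw [hz]; exact one_ne_zero
  have m1 := CfsgLib.Classical.Orth.refl_mul_refl_mem_omega (nondeg M 3) (hexc hm) (hu0 1) (hu0 0)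
    (by rw [hu, hu, mul_one]; exact IsSquare.one)
  have m2 := CfsgLib.Classical.Orth.refl_mul_refl_mem_omega (nondeg M 3) (hexc hm) hz0 (hu0 2)
    (by rw [hu, hz, mul_one]; exact IsSquare.one)
  let n0 : OmM M 3 := ⟨_, mul_mem m1 m2⟩
  let r : (Fin 2 → F) → (Fin 2 → F) := fun Z => Z - zb M ![1, 0] Z • ![1, 0]
  have hn0 : ∀ X Y Z, mat M n0 *ᵥ mk X Y Z = mk Y X (r Z) := by
    intro X Y Z
    have hru : ∀ (i : Fin 3) (X Y : Fin 3 → F) (Z : Fin 2 → F),
        ((reflection (nondeg M 3) (hu0 i) : GL (Idx 3) F) : Matrix (Idx 3) (Idx 3) F) *ᵥ mk X Y Z =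
          mk (X - (X i + Y i) • Pi.single i 1) (Y - (X i + Y i) • Pi.single i 1) Z := by
      intro i X Y Z
      rw [reflection_mulVec (nondeg M 3) (hu0 i), hu]
      simp only [u, bform_mk, mk_smul, mk_sub, mk_inj]
      refine ⟨?_, ?_, by simp⟩ <;> simp [zb, add_comm]
    have hrz : ((reflection (nondeg M 3) hz0 : GL (Idx 3) F) : Matrix (Idx 3) (Idx 3) F) *ᵥ mk X Y Z =
        mk X Y (r Z) := by
      rw [reflection_mulVec (nondeg M 3) hz0, hz]
      simp only [z, zV, bform_mk, mk_smul, mk_sub, mk_inj]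
      refine ⟨by simp, by simp, ?_⟩
      simp [r]
    change ((((CfsgLib.Classical.Orth.refl (nondeg M 3) (hu0 0) * CfsgLib.Classical.Orth.refl (nondeg M 3) (hu0 1)) *
      (CfsgLib.Classical.Orth.refl (nondeg M 3) (hu0 2) * CfsgLib.Classical.Orth.refl (nondeg M 3) hz0)) :
      IsoM M 3) : GL (Idx 3) F).1 *ᵥ _ = _
    simp only [Subgroup.coe_mul, Units.val_mul, CfsgLib.Classical.Orth.coe_refl, ← Matrix.mulVec_mulVec, hrz, hru]
    rw [mk_inj]
    refine ⟨?_, ?_, rfl⟩ <;> funext i <;> fin_cases i <;> simp <;>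
      first
      | linear_combination -(Y 0) * h2
      | linear_combination -(Y 1) * h2
      | linear_combination -(Y 2) * h2
      | linear_combination -(X 0) * h2
      | linear_combination -(X 1) * h2
      | linear_combination -(X 2) * h2
  obtain ⟨g, hg⟩ := exists_sev_transpose hq
  set x : Matrix.SpecialLinearGroup (Fin 3) F := sev
  let y : Matrix.SpecialLinearGroup (Fin 3) F := g * x⁻¹ * g⁻¹
  have hy : n0 * slM M hm x = slM M hm y * n0 := by
    refine om_ext M fun X Y Z => ?_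
    rw [mat_mul_mulVec, mat_mul_mulVec, slM_apply, hn0, hn0, slM_apply, mk_inj]
    have hyt : ((y⁻¹ : Matrix.SpecialLinearGroup (Fin 3) F) : Matrix (Fin 3) (Fin 3) F)ᵀ =
        (x : Matrix (Fin 3) (Fin 3) F) := by
      have e : y⁻¹ = g * x * g⁻¹ := by simp [y, mul_assoc]
      rw [e, Matrix.SpecialLinearGroup.coe_mul, Matrix.SpecialLinearGroup.coe_mul, hg, Matrix.mul_assoc,
        ← Matrix.SpecialLinearGroup.coe_mul g, mul_inv_cancel, Matrix.SpecialLinearGroup.coe_one,
        Matrix.mul_one, Matrix.transpose_transpose]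
    have hxy : ((x⁻¹ : Matrix.SpecialLinearGroup (Fin 3) F) : Matrix (Fin 3) (Fin 3) F)ᵀ =
        (y : Matrix (Fin 3) (Fin 3) F) := by
      have e1 : (x : Matrix (Fin 3) (Fin 3) F)ᵀ * (y : Matrix (Fin 3) (Fin 3) F) = 1 := by
        have e3 := hg
        calc (x : Matrix (Fin 3) (Fin 3) F)ᵀ * (y : Matrix (Fin 3) (Fin 3) F)
            = ((x : Matrix (Fin 3) (Fin 3) F)ᵀ * (g : Matrix (Fin 3) (Fin 3) F)) *
                ((x⁻¹ * g⁻¹ : Matrix.SpecialLinearGroup (Fin 3) F) : Matrix (Fin 3) (Fin 3) F) := by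
              simp only [y, Matrix.SpecialLinearGroup.coe_mul, Matrix.mul_assoc]
          _ = ((g * x * (x⁻¹ * g⁻¹) : Matrix.SpecialLinearGroup (Fin 3) F) : Matrix (Fin 3) (Fin 3) F) := by
              rw [← e3]; simp only [Matrix.SpecialLinearGroup.coe_mul]
          _ = 1 := by rw [mul_assoc, mul_inv_cancel_left, mul_inv_cancel]; rfl
      have e2 : ((x⁻¹ : Matrix.SpecialLinearGroup (Fin 3) F) : Matrix (Fin 3) (Fin 3) F)ᵀ *
          (x : Matrix (Fin 3) (Fin 3) F)ᵀ = 1 := by
        rw [← Matrix.transpose_mul, ← Matrix.SpecialLinearGroup.coe_mul, mul_inv_cancel,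
          Matrix.SpecialLinearGroup.coe_one, Matrix.transpose_one]
      calc _ = ((x⁻¹ : Matrix.SpecialLinearGroup (Fin 3) F) : Matrix (Fin 3) (Fin 3) F)ᵀ *
            ((x : Matrix (Fin 3) (Fin 3) F)ᵀ * (y : Matrix (Fin 3) (Fin 3) F)) := by rw [e1, Matrix.mul_one]
        _ = (y : Matrix (Fin 3) (Fin 3) F) := by rw [← Matrix.mul_assoc, e2, Matrix.one_mul]
    exact ⟨by rw [hxy], by rw [hyt], rfl⟩
  refine ⟨slM M hm g⁻¹ * n0, ?_⟩
  rw [mul_assoc, hy, ← mul_assoc, ← mul_assoc, ← map_mul, ← map_mul]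
  simp [y, mul_assoc]

include hm in
/-- The weight zero space of a small representation of `Omega^-_8(2)` has dimension at least six. -/
theorem six_le_zero_weight (hψ : ψ 1 ≠ 1) (hR : ∃ g, R g ≠ 1) (hk : SmallM F 3 k)
    (hq : Fintype.card F = 2) : 6 ≤ muW M hm R ψ 0 := by
  classical
  obtain ⟨φ, hφ⟩ := exists_sl_rep M hm R hψ (m := 3)
  set x : Matrix.SpecialLinearGroup (Fin 3) F := sev with hxdef
  have hx7 : x ^ 7 = 1 := sev_pow_seven hq
  have hmoved : ∀ j : ℕ, j % 7 ≠ 0 → (φ (x ^ j)).trace = (R (slM M hm (x ^ j))).trace := by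
    intro j hj
    rw [hφ, trace_weights M hm R hψ hR hk (R (slM M hm (x ^ j))), Finset.sum_eq_zero, add_zero]
    intro W hW
    have hfix : (↑(x ^ j) : Matrix (Fin 3) (Fin 3) F)ᵀ * W * (↑(x ^ j) : Matrix (Fin 3) (Fin 3) F) ≠ W := by
      intro h
      have hpow : ∀ i : ℕ, (↑((x ^ j) ^ i) : Matrix (Fin 3) (Fin 3) F)ᵀ * W *
          (↑((x ^ j) ^ i) : Matrix (Fin 3) (Fin 3) F) = W := by
        intro i
        induction i with
        | zero => simp
        | succ i ih =>
          rw [pow_succ, Matrix.SpecialLinearGroup.coe_mul, Matrix.transpose_mul]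
          simp only [Matrix.mul_assoc] at ih h ⊢
          conv_rhs => rw [← h]
          congr 1
          simp only [← Matrix.mul_assoc] at ih ⊢
          rw [ih]
      obtain ⟨i, hi⟩ : ∃ i : ℕ, (x ^ j) ^ i = x := by
        have h7 : Nat.Coprime j 7 := by
          rw [Nat.coprime_comm, Nat.Prime.coprime_iff_not_dvd (by norm_num)]
          omega
        obtain ⟨i, hi⟩ := Nat.exists_mul_mod_eq_one_of_coprime h7 (by norm_num)
        refine ⟨i, ?_⟩
        rw [← pow_mul, pow_eq_pow_mod _ hx7, hi.2, pow_one]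
      have h' := hpow i
      rw [hi] at h'
      exact (mem_wedgeSet.1 hW).1 (sev_moves hq (mem_wedgeSet.1 hW).isAlt h')
    have hP := pW_idem M hm R hψ W
    calc (pW M hm R ψ W * R (slM M hm (x ^ j))).trace
        = (pW M hm R ψ W * (pW M hm R ψ W * R (slM M hm (x ^ j)))).trace := by
          rw [← Matrix.mul_assoc, hP]
      _ = (pW M hm R ψ W * R (slM M hm (x ^ j)) * pW M hm R ψ W).trace := by rw [Matrix.trace_mul_comm]
      _ = 0 := by
          rw [← slM_comm_pW, Matrix.mul_assoc, pW_mul_pW M hm R hψ, if_neg hfix, Matrix.mul_zero,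
            Matrix.trace_zero]
  obtain ⟨g, hg⟩ := exists_sev_sq hq (F := F)
  obtain ⟨L, hL⟩ := exists_inverting M hm hq
  have hsq : ∀ j : ℕ, (φ (x ^ (2 * j))).trace = (φ (x ^ j)).trace := by
    intro j
    have e : g * x ^ j = x ^ (2 * j) * g := by rw [pow_mul]; exact SemiconjBy.pow_right hg j
    exact (trace_eq_of_rep_semiconj φ g (rep_semiconj φ e)).symm
  have hinv : ∀ j : ℕ, (φ (x ^ (6 * j))).trace = (φ (x ^ j)).trace := by
    intro j
    by_cases hj : j % 7 = 0
    · rw [pow_eq_pow_mod _ hx7, pow_eq_pow_mod j hx7, Nat.mul_mod, hj, mul_zero, Nat.zero_mod]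
    rw [hmoved j hj, hmoved (6 * j) (by omega)]
    have e : L * slM M hm (x ^ j) = slM M hm (x ^ (6 * j)) * L := by
      have h6 : x⁻¹ = x ^ 6 := inv_eq_of_mul_eq_one_right (by rw [← pow_succ']; exact hx7)
      rw [map_pow, pow_mul, ← h6, map_pow]
      exact SemiconjBy.pow_right hL j
    exact (trace_eq_of_rep_semiconj R L (rep_semiconj R e)).symm
  haveI : Fact (Nat.Prime 7) := ⟨by norm_num⟩
  let f : (Fin 1 → ZMod 7) → Matrix (Fin (muW M hm R ψ 0)) (Fin (muW M hm R ψ 0)) ℂ :=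
    fun v => φ (x ^ (v 0).val)
  have f0 : f 0 = 1 := by simp [f]
  have fadd : ∀ u v, f (u + v) = f u * f v := fun u v => by
    simp only [f, Pi.add_apply, ← map_mul, ← pow_add, ZMod.val_add]
    rw [← pow_eq_pow_mod _ hx7]
  obtain ⟨χ, hχ⟩ : ∃ χ : AddChar (ZMod 7) ℂ, χ 1 ≠ 1 :=
    AddChar.exists_apply_ne_zero.2 (one_ne_zero : (1 : ZMod 7) ≠ 0)
  have hscale : ∀ (j : ℕ) (c : ZMod 7), (j : ZMod 7) = c →
      (∀ i : ℕ, (φ (x ^ (j * i))).trace = (φ (x ^ i)).trace) → ∀ v, (f (c • v)).trace = (f v).trace := by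
    intro j c hjc h v
    simp only [f, Pi.smul_apply, smul_eq_mul]
    rw [← h (v 0).val, pow_eq_pow_mod (j * (v 0).val) hx7]
    congr 3
    rw [← hjc, ZMod.val_mul, ZMod.val_natCast, Nat.mod_mul_mod]
  have h2 := hscale 2 2 (by norm_num) hsq
  have h6 := hscale 6 (-1) zmod_seven_six hinv
  have hc : ∀ c : ZMod 7, c ≠ 0 → ∀ v, (f (c • v)).trace = (f v).trace := by
    intro c hc v
    have h4 : ∀ v, (f ((4 : ZMod 7) • v)).trace = (f v).trace := fun v => by
      rw [zmod_seven_four, mul_smul, h2, h2]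
    have key := zmod_seven_cases c hc
    rcases key with rfl | rfl | rfl | rfl | rfl | rfl
    · rw [one_smul]
    · exact h2 v
    · exact h4 v
    · rw [mul_smul, h6, one_smul]
    · rw [mul_smul, h6, h2]
    · rw [mul_smul, h6, h4]
  have hmult : ∀ (c : ZMod 7), c ≠ 0 → ∀ w, (weightProj f χ (c • w)).trace = (weightProj f χ w).trace := by
    intro c hc0 w
    simp only [weightProj, Matrix.trace_smul, Matrix.trace_sum, smul_eq_mul]
    congr 1
    refine Fintype.sum_equiv
      { toFun := fun v => c • v, invFun := fun v => c⁻¹ • v,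
        left_inv := fun v => inv_smul_smul₀ hc0 v, right_inv := fun v => smul_inv_smul₀ hc0 v } _ _ fun v => ?_
    simp only [Equiv.coe_fn_mk]
    rw [hc c hc0 v, dotProduct_smul, smul_dotProduct]
  obtain ⟨w, hw0, hw⟩ : ∃ w : Fin 1 → ZMod 7, w ≠ 0 ∧ weightProj f χ w ≠ 0 := by
    by_contra hcon
    push Not at hcon
    have h1 : weightProj f χ (0 : Fin 1 → ZMod 7) = 1 := by
      rw [← sum_weightProj (R := f) f0 hχ]
      exact (Finset.sum_eq_single (f := fun w => weightProj f χ w) (0 : Fin 1 → ZMod 7)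
        (fun w _ hw => hcon w hw) (fun h => absurd (Finset.mem_univ _) h)).symm
    have hf : f (fun _ => 1) = 1 := by
      have h := mul_weightProj (ψ := χ) fadd (fun _ => 1) 0
      rwa [h1, mul_one, dotProduct_zero, AddChar.map_zero_eq_one, one_smul] at h
    have hx1 : x ∈ φ.ker := by
      rw [MonoidHom.mem_ker]
      simpa [f, ZMod.val_one] using hf
    obtain ⟨s, hs⟩ := exists_sl_trace_ne M hm R hψ hR hk
    rcases CfsgLib.Classical.Linear.normal_le_center_or_eq_top
        (CfsgLib.Classical.Linear.commutator_sl_eq_top_of_three_le (by simp)) φ.ker with h | h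
    · have hcomm := Subgroup.mem_center_iff.1 (h hx1) g
      rw [hg, sq] at hcomm
      have e : x * g = g := by
        refine mul_left_cancel (a := x) ?_
        rw [← mul_assoc]; exact hcomm
      have hx : x = 1 := mul_eq_right.1 e
      have := congrFun (congrFun (congrArg Subtype.val hx) 0) 0
      simp [hxdef, sev] at this
    · refine hs ?_
      rw [← hφ, MonoidHom.mem_ker.1 (h ▸ Subgroup.mem_top s : s ∈ φ.ker), Matrix.trace_one, Fintype.card_fin]
  have hS : ∀ w' ∈ (Finset.univ : Finset (Fin 1 → ZMod 7)).erase 0, (1 : Matrix _ _ ℂ) * weightProj f χ w' ≠ 0 := by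
    intro w' hw'
    rw [one_mul]
    intro hzero
    have hw00 : w 0 ≠ 0 := fun e => hw0 (funext fun i => by fin_cases i; exact e)
    have hw'0 : w' 0 ≠ 0 := fun e => Finset.ne_of_mem_erase hw' (funext fun i => by fin_cases i; exact e)
    have e : w' = (w' 0 / w 0) • w := funext fun i => by
      fin_cases i; simp [div_mul_cancel₀ _ hw00]
    have ht := hmult (w' 0 / w 0) (div_ne_zero hw'0 hw00) w
    rw [← e, hzero, Matrix.trace_zero] at ht
    exact hw (eq_zero_of_trace_idem (weightProj_idem fadd hχ w) ht.symm)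
  have hle := card_le_natTr_of_weights f0 fadd hχ (one_mul (1 : Matrix (Fin (muW M hm R ψ 0)) (Fin (muW M hm R ψ 0)) ℂ))
    (fun v => by rw [one_mul, mul_one]) _ hS
  have ht := trace_eq_natTr (one_mul (1 : Matrix (Fin (muW M hm R ψ 0)) (Fin (muW M hm R ψ 0)) ℂ))
  rw [Matrix.trace_one, Fintype.card_fin] at ht
  rw [Finset.card_erase_of_mem (Finset.mem_univ _), Finset.card_univ, Fintype.card_fun, Fintype.card_fin,
    ZMod.card] at hle
  generalize natTr _ = N at ht hle
  have ht' : muW M hm R ψ (0 : Matrix (Fin 3) (Fin 3) F) = N := by exact_mod_cast ht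
  omega

end CfsgLib.OrthMinusDeg
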