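import Cfsg.Agent.OrthMinusDeg.Level
import Cfsg.Agent.OrthMinusDeg.Pairs
import Cfsg.Agent.OrthMinusDeg.Seven
import Cfsg.Agent.OrthPlusDeg.SlBound

/-!
The Landazuri-Seitz-Zalesskii bound for `Omega^-_{2m+2}(q)`.
-/

set_option autoImplicit false
set_option linter.unusedSectionVars false

noncomputable section

namespace CfsgLib.OrthMinusDeg

open Cfsg Cfsg.Geo CfsgLib.OrthGeo Matrix CfsgLib.OrthPlusDeg CfsgLib.Chars
open scoped MatrixGroups

variable {F : Type*} [Field F] [Fintype F] [DecidableEq F] {m k : ℕ}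

/-- The degree bound for a representation of `SL_n` with a nontrivial element. -/
theorem sl_degree_bound_three {n : ℕ} (hn : 3 ≤ n)
    (hex : (n, Fintype.card F) ≠ (3, 2) ∧ (n, Fintype.card F) ≠ (3, 4) ∧ (n, Fintype.card F) ≠ (4, 2) ∧
      (n, Fintype.card F) ≠ (4, 3)) {D : ℕ}
    (φ : Matrix.SpecialLinearGroup (Fin n) F →* Matrix (Fin D) (Fin D) ℂ)
    (x : Matrix.SpecialLinearGroup (Fin n) F) (hx : (φ x).trace ≠ D) :
    (Fintype.card F ^ n - Fintype.card F) / (Fintype.card F - 1) ≤ D := by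
  classical
  let ρ : Representation ℂ (Matrix.SpecialLinearGroup (Fin n) F) (Fin D → ℂ) :=
    ((Matrix.toLinAlgEquiv' : Matrix (Fin D) (Fin D) ℂ ≃ₐ[ℂ] _).toAlgHom.toMonoidHom).comp φ
  have hchar : ∀ g, ρ.character g = (φ g).trace := fun g => by
    change LinearMap.trace ℂ _ (Matrix.toLin' (φ g)) = _
    exact Matrix.trace_toLin'_eq _
  obtain ⟨s, hs⟩ := exists_multiset_irr (G := Matrix.SpecialLinearGroup (Fin n) F)
    (χ := ρ.character) ⟨D, ρ, rfl⟩
  choose deg π hπ hπc using fun χ : IrrCharacter (Matrix.SpecialLinearGroup (Fin n) F) => χ.2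
  have hdeg : ∀ χ : IrrCharacter (Matrix.SpecialLinearGroup (Fin n) F),
      (χ : Matrix.SpecialLinearGroup (Fin n) F → ℂ) 1 = deg χ := fun χ => by
    rw [← hπc χ, Representation.char_one, Module.finrank_fin_fun]
  have hsum : (D : ℂ) = ((s.map deg).sum : ℕ) := by
    have h1 := congrFun hs 1
    rw [hchar, map_one, Matrix.trace_one, Fintype.card_fin, Pi.multiset_sum_apply, Multiset.map_map] at h1
    rw [h1, Nat.cast_multiset_sum, Multiset.map_map]
    exact congrArg Multiset.sum (Multiset.map_congr rfl fun χ _ => hdeg χ)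
  have hD : D = (s.map deg).sum := by exact_mod_cast hsum
  by_contra hlt
  refine hx ?_
  have h1 := congrFun hs x
  rw [hchar, Pi.multiset_sum_apply, Multiset.map_map] at h1
  rw [h1, hsum, Nat.cast_multiset_sum, Multiset.map_map]
  refine congrArg Multiset.sum (Multiset.map_congr rfl fun χ hχ => ?_)
  change (χ : Matrix.SpecialLinearGroup (Fin n) F → ℂ) x = (deg χ : ℂ)
  have hle : deg χ ≤ D := hD ▸ Multiset.le_sum_of_mem (Multiset.mem_map_of_mem deg hχ)
  rcases Nat.lt_or_ge (deg χ) 2 with h2 | h2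
  · have hne : deg χ ≠ 0 := by
      intro h0
      have := CfsgLib.Chars.map_one_ne_zero χ
      rw [hdeg, h0] at this
      simp at this
    have h1' : deg χ = 1 := by omega
    obtain ⟨l, hl⟩ := exists_monoidHom_of_map_one_eq_one (G := Matrix.SpecialLinearGroup (Fin n) F)
      (χ := (χ : Matrix.SpecialLinearGroup (Fin n) F → ℂ)) ⟨_, _, hπc χ⟩ (by rw [hdeg, h1', Nat.cast_one])
    rw [hl, sl_hom_eq_one hn l, h1']
    simp
  · exfalso
    have := (Cfsg.Agent.S2332.result (F := F) n hn hex).1 (deg χ) (π χ) (hπ χ) h2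
    exact hlt (this.trans hle)

variable (M : Dat F)

/-- The bound. -/
theorem degree_bound_minus (hm : 3 ≤ m) (ρ : Representation ℂ (OmM M m) (Fin k → ℂ))
    (hρ : ρ.IsIrreducible) (hk2 : 2 ≤ k) :
    (Fintype.card F ^ (m + 1) + 1) * (Fintype.card F ^ m - Fintype.card F) / (Fintype.card F ^ 2 - 1) ≤ k := by
  classical
  let R : OmM M m →* Matrix (Fin k) (Fin k) ℂ :=
    (LinearMap.toMatrixAlgEquiv' : Module.End ℂ (Fin k → ℂ) ≃ₐ[ℂ] Matrix (Fin k) (Fin k) ℂ).toMonoidHom.comp ρ
  haveI : Nonempty (Fin k) := ⟨⟨0, by omega⟩⟩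
  haveI : IsSimpleOrder (Subrepresentation ρ) := hρ
  have hschur : ∀ X, (∀ g, X * R g = R g * X) → ∃ c : ℂ, X = c • 1 := by
    intro X hX
    let L : Module.End ℂ (Fin k → ℂ) := Matrix.toLinAlgEquiv' X
    have hL : ∀ g, L * ρ g = ρ g * L := fun g => by
      have e1 := congrArg (Matrix.toLinAlgEquiv' : Matrix (Fin k) (Fin k) ℂ ≃ₐ[ℂ] _) (hX g)
      rw [map_mul, map_mul] at e1
      have e2 : (Matrix.toLinAlgEquiv' : Matrix (Fin k) (Fin k) ℂ ≃ₐ[ℂ] _) (R g) = ρ g :=
        Matrix.toLinAlgEquiv'_toMatrixAlgEquiv' _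
      rwa [e2] at e1
    obtain ⟨c, hc⟩ := Module.End.exists_eigenvalue L
    have hinv : ∀ g, ∀ x ∈ L.eigenspace c, ρ g x ∈ L.eigenspace c := fun g x hx => by
      rw [Module.End.mem_eigenspace_iff] at hx ⊢
      have := LinearMap.congr_fun (hL g) x
      rw [Module.End.mul_apply, Module.End.mul_apply, hx, map_smul] at this
      exact this
    rcases eq_bot_or_eq_top (⟨L.eigenspace c, fun g x hx => hinv g x hx⟩ : Subrepresentation ρ) with h | h
    · exact absurd (congrArg Subrepresentation.toSubmodule h) hc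
    · refine ⟨c, ?_⟩
      have htop : L.eigenspace c = ⊤ := congrArg Subrepresentation.toSubmodule h
      apply (Matrix.toLinAlgEquiv' : Matrix (Fin k) (Fin k) ℂ ≃ₐ[ℂ] _).injective
      refine LinearMap.ext fun x => ?_
      show L x = _
      have hx : x ∈ L.eigenspace c := htop ▸ Submodule.mem_top
      rw [Module.End.mem_eigenspace_iff.1 hx, map_smul, map_one]
      rfl
  have hR : ∃ g, R g ≠ 1 := by
    by_contra hc
    push Not at hc
    obtain ⟨c, hc'⟩ := hschur (Matrix.single ⟨0, by omega⟩ ⟨1, by omega⟩ 1)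
      (fun g => by rw [hc g, mul_one, one_mul])
    have := congrFun (congrFun hc' ⟨0, by omega⟩) ⟨1, by omega⟩
    simp [Matrix.one_apply] at this
  by_contra hlt
  push Not at hlt
  have hq2 : 2 ≤ Fintype.card F := Fintype.one_lt_card
  have hd0 : 0 < Fintype.card F ^ 2 - 1 := by
    have : 2 ^ 2 ≤ Fintype.card F ^ 2 := Nat.pow_le_pow_left hq2 2
    omega
  have hk : SmallM F m k := lt_of_lt_of_le ((Nat.mul_lt_mul_right hd0).2 hlt) (Nat.div_mul_le_self _ _)
  obtain ⟨ψ, hψ⟩ : ∃ ψ : AddChar F ℂ, ψ 1 ≠ 1 :=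
    AddChar.exists_apply_ne_zero.2 (one_ne_zero : (1 : F) ≠ 0)
  have hsmall := zero_weight_small M hm R hψ hR hk
  have hsplit := degree_split M hm R hψ hR hk
  have hS := card_wedgeSet (F := F) m
  obtain ⟨d, -, hd⟩ := exists_fix_nat M hm R hψ (⟨0, by omega⟩ : Fin m)
  have hge := zero_weight_ge M hm R hψ hR hk hd
  have hk0 : k ≠ 0 := by omega
  have hdvd1 := degree_dvd_minus M hm R hψ hR hk hk0 hschur one_ne_zero (fun e => one_dvd _)
  rw [card_pairM M (by omega), Nat.div_one] at hdvd1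
  by_cases hex : (m, Fintype.card F) ≠ (3, 2) ∧ (m, Fintype.card F) ≠ (3, 4) ∧ (m, Fintype.card F) ≠ (4, 2) ∧
      (m, Fintype.card F) ≠ (4, 3)
  · obtain ⟨x, hx⟩ := exists_sl_trace_ne M hm R hψ hR hk
    obtain ⟨φ, hφ⟩ := exists_sl_rep M hm R hψ
    have hD := sl_degree_bound_three hm hex φ x (by rw [hφ]; exact hx)
    set q := Fintype.card F with hqdef
    have hdiv : q - 1 ∣ q ^ m - q := by
      obtain ⟨t, ht⟩ := Nat.sub_one_dvd_pow_sub_one q (m - 1)
      refine ⟨q * t, ?_⟩
      have : q ^ m = q * q ^ (m - 1) := by rw [← pow_succ']; congr 1; omega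
      rw [this, show q * q ^ (m - 1) - q = q * (q ^ (m - 1) - 1) by rw [Nat.mul_sub, mul_one], ht]
      ring
    have hD' : q ^ m - q ≤ muW M hm R ψ 0 * (q - 1) := by
      rw [← Nat.div_mul_cancel hdiv]; exact Nat.mul_le_mul_right _ hD
    omega
  · rw [not_and_or, not_and_or, not_and_or, not_not, not_not, not_not, not_not, Prod.mk.injEq, Prod.mk.injEq,
      Prod.mk.injEq, Prod.mk.injEq] at hex
    rcases hex with ⟨rfl, hq⟩ | ⟨rfl, hq⟩ | ⟨rfl, hq⟩ | ⟨rfl, hq⟩
    · have h6 := six_le_zero_weight M hm R hψ hR hk hq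
      rw [hq] at hsmall
      norm_num at hsmall
      omega
    · have h3 := le_fix_zero_three M hm R hψ hR hk (d := d) hd
      rw [hq] at hsmall hsplit hS hdvd1 h3 hge
      norm_num at hsmall hsplit hS hdvd1 h3 hge
      have hlo : 1026 ≤ k := by omega
      have hhi : k ≤ 1027 := by omega
      interval_cases k <;> norm_num at hdvd1
    · have hdvd := degree_dvd_minus M hm R hψ hR hk hk0 hschur (c₀ := 3) (by norm_num)
        (three_dvd_fibre M hm hq)
      rw [card_pairM M (by omega)] at hdvd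
      rw [hq] at hsmall hsplit hS hdvd hge
      norm_num at hsmall hsplit hS hdvd hge
      have hlo : 147 ≤ k := by omega
      have hhi : k ≤ 153 := by omega
      interval_cases k <;> norm_num at hdvd
    · rw [hq] at hsmall hsplit hS hdvd1 hge
      norm_num at hsmall hsplit hS hdvd1 hge
      have hlo : 2366 ≤ k := by omega
      have hhi : k ≤ 2378 := by omega
      interval_cases k <;> norm_num at hdvd1

end CfsgLib.OrthMinusDeg
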