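import Cfsg.Agent.OrthPlusDeg.AltOrbit

/-!
Orbits of alternating matrices under congruence by matrices of determinant one, and a normal form
for the matrices of rank at least four.
-/

set_option autoImplicit false
set_option linter.unusedSectionVars false

noncomputable section

namespace CfsgLib.OrthMinusDeg

open Matrix CfsgLib.OrthPlusDeg

variable {F : Type*} [Field F] {n : ℕ}

/-- The bilinear value of a matrix. -/
def bil (W : Matrix (Fin n) (Fin n) F) (u v : Fin n → F) : F := u ⬝ᵥ W *ᵥ v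

theorem bil_single (W : Matrix (Fin n) (Fin n) F) (i j : Fin n) :
    bil W (Pi.single i 1) (Pi.single j 1) = W i j := by
  simp [bil, Matrix.mulVec_single_one]

theorem bil_self {W : Matrix (Fin n) (Fin n) F} (hW : IsAlt W) (u : Fin n → F) : bil W u u = 0 :=
  dot_alt_self hW u

theorem bil_swap {W : Matrix (Fin n) (Fin n) F} (hW : IsAlt W) (u v : Fin n → F) :
    bil W v u = -bil W u v := dot_alt_comm hW v u

theorem isWedge_of_apply_eq {W : Matrix (Fin n) (Fin n) F} {p q : Fin n} (hpq : W p q ≠ 0)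
    (h : ∀ i j, W i j = (W p i * W q j - W p j * W q i) / W p q) : IsWedge W := by
  refine ⟨fun h0 => hpq (by rw [h0]; rfl), (W p q)⁻¹ • W p, W q, ?_⟩
  ext i j
  rw [h i j, wedge_apply]
  simp only [Pi.smul_apply, smul_eq_mul]
  field_simp

theorem isWedge_three {W : Matrix (Fin 3) (Fin 3) F} (hW : IsAlt W) (h0 : W ≠ 0) : IsWedge W := by
  obtain ⟨p, q, hpq⟩ := exists_ne_zero_of_row h0
  refine isWedge_of_apply_eq hpq fun i j => ?_
  rw [eq_div_iff hpq]
  have d0 := hW.1 0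
  have d1 := hW.1 1
  have d2 := hW.1 2
  have e10 := hW.2 0 1
  have e20 := hW.2 0 2
  have e21 := hW.2 1 2
  fin_cases p <;> fin_cases q <;> fin_cases i <;> fin_cases j <;>
    simp [d0, d1, d2, e10, e20, e21] at hpq ⊢ <;> ring

/-- Two commuting hyperbolic pairs for a matrix of rank at least four. -/
theorem exists_two_pairs {W : Matrix (Fin n) (Fin n) F} (hW : IsAlt W) (h0 : W ≠ 0) (hw : ¬ IsWedge W) :
    ∃ x y x' y' : Fin n → F, bil W x y ≠ 0 ∧ bil W x x' = 0 ∧ bil W x y' = 0 ∧ bil W x' y' ≠ 0 := by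
  classical
  obtain ⟨p, q, hpq⟩ := exists_ne_zero_of_row h0
  obtain ⟨i, j, hij⟩ : ∃ i j, W i j ≠ (W p i * W q j - W p j * W q i) / W p q := by
    by_contra hc
    push Not at hc
    exact hw (isWedge_of_apply_eq hpq hc)
  let v : Fin n → (Fin n → F) := fun i => Pi.single i 1 - (W p i / W p q) • Pi.single q 1
  refine ⟨Pi.single p 1, Pi.single q 1, v i, v j, ?_, ?_, ?_, ?_⟩
  · rwa [bil_single]
  · simp only [bil, v, Matrix.mulVec_sub, Matrix.mulVec_smul, Matrix.mulVec_single_one, dotProduct_sub,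
      dotProduct_smul, single_dotProduct, Matrix.col_apply, one_mul, smul_eq_mul]
    field_simp
    ring
  · simp only [bil, v, Matrix.mulVec_sub, Matrix.mulVec_smul, Matrix.mulVec_single_one, dotProduct_sub,
      dotProduct_smul, single_dotProduct, Matrix.col_apply, one_mul, smul_eq_mul]
    field_simp
    ring
  · intro h
    apply hij
    simp only [bil, v, Matrix.mulVec_sub, Matrix.mulVec_smul, Matrix.mulVec_single_one, dotProduct_sub,
      dotProduct_smul, sub_dotProduct, smul_dotProduct, single_dotProduct, Matrix.col_apply, one_mul,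
      smul_eq_mul, hW.1 q] at h
    rw [hW.2 q i] at h
    rw [eq_div_iff hpq]
    refine mul_left_cancel₀ hpq ?_
    field_simp at h ⊢
    first
      | linear_combination h
      | (refine mul_left_cancel₀ hpq ?_; linear_combination h)

variable [Fintype F] [DecidableEq F]

open scoped Classical in
/-- The orbit under congruence by matrices of determinant one. -/
def slOrbit (W : Matrix (Fin n) (Fin n) F) : Finset (Matrix (Fin n) (Fin n) F) :=
  ((Finset.univ : Finset (Matrix (Fin n) (Fin n) F)).filter fun g => g.det = 1).image fun g => g * W * gᵀ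

theorem mem_slOrbit {W M : Matrix (Fin n) (Fin n) F} :
    M ∈ slOrbit W ↔ ∃ g : Matrix (Fin n) (Fin n) F, g.det = 1 ∧ g * W * gᵀ = M := by
  simp [slOrbit]

theorem slOrbit_trans {W M g : Matrix (Fin n) (Fin n) F} (hM : M ∈ slOrbit W) (hg : g.det = 1) :
    g * M * gᵀ ∈ slOrbit W := by
  obtain ⟨h, hh, rfl⟩ := mem_slOrbit.1 hM
  exact mem_slOrbit.2 ⟨g * h, by rw [Matrix.det_mul, hg, hh, one_mul],
    by simp only [Matrix.transpose_mul, Matrix.mul_assoc]⟩

/-- The lower block matrix `[[c, 0], [u, G]]`. -/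
def lowBlk {m : ℕ} (c : F) (u : Fin m → F) (G : Matrix (Fin m) (Fin m) F) :
    Matrix (Fin (m + 1)) (Fin (m + 1)) F :=
  Matrix.of (Fin.cons (Fin.cons c 0) fun i => Fin.cons (u i) (G i))

theorem det_lowBlk {m : ℕ} (c : F) (u : Fin m → F) (G : Matrix (Fin m) (Fin m) F) :
    (lowBlk c u G).det = c * G.det := by
  rw [Matrix.det_succ_row_zero, Finset.sum_eq_single 0]
  · have : (lowBlk c u G).submatrix Fin.succ (Fin.succAbove 0) = G := by
      ext i j; simp [lowBlk]
    rw [this]; simp [lowBlk]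
  · intro j _ hj
    obtain ⟨j, rfl⟩ := Fin.exists_succ_eq.2 hj
    simp [lowBlk]
  · simp

theorem lowBlk_col {m : ℕ} (c : F) (u : Fin m → F) (G : Matrix (Fin m) (Fin m) F)
    (M : Matrix (Fin (m + 1)) (Fin (m + 1)) F) (i : Fin m) :
    (lowBlk c u G * M * (lowBlk c u G)ᵀ) i.succ 0 = c * (u i * M 0 0 + (G *ᵥ fun j => M j.succ 0) i) := by
  simp [CfsgLib.SympWeil.congr_apply', lowBlk, dotProduct, Matrix.mulVec, Fin.sum_univ_succ, add_mul,
    Finset.sum_mul]
  ring_nf
  simp [Finset.mul_sum, mul_assoc, mul_comm, mul_left_comm]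

theorem lowBlk_block {m : ℕ} (u : Fin m → F) {M : Matrix (Fin (m + 1)) (Fin (m + 1)) F} (hM : IsAlt M) :
    (lowBlk 1 u 1 * M * (lowBlk 1 u 1)ᵀ).submatrix Fin.succ Fin.succ =
      M.submatrix Fin.succ Fin.succ + wedge (fun i => M i.succ 0) u := by
  ext i j
  simp [CfsgLib.SympWeil.congr_apply', lowBlk, dotProduct, Matrix.mulVec, Fin.sum_univ_succ,
    Matrix.one_apply, wedge_apply, hM.1 0, hM.2 j.succ 0]
  ring

/-- Every nonzero alternating matrix has a big orbit. -/
theorem card_slOrbit_ge (hn : 3 ≤ n) {W : Matrix (Fin n) (Fin n) F} (hW : IsAlt W) (hW0 : W ≠ 0) :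
    (Fintype.card F ^ n - 1) * (Fintype.card F ^ (n - 1) - 1) ≤ Fintype.card F ^ 2 * (slOrbit W).card := by
  classical
  obtain ⟨m, rfl⟩ : ∃ m, n = m + 1 := ⟨n - 1, by omega⟩
  rw [Nat.add_sub_cancel]
  set q := Fintype.card F with hqdef
  set O := slOrbit W
  set e0 : Fin (m + 1) → F := Pi.single 0 1 with he0
  have he0ne : e0 ≠ 0 := fun h => one_ne_zero (show (1 : F) = 0 by simpa [he0] using congrFun h 0)
  have hcol : ∀ (M : Matrix (Fin (m + 1)) (Fin (m + 1)) F) i, (M *ᵥ e0) i = M i 0 := fun M i => by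
    rw [he0, Matrix.mulVec_single_one]; rfl
  have halt : ∀ M ∈ O, IsAlt M := fun M hM => by
    obtain ⟨g, -, rfl⟩ := mem_slOrbit.1 hM
    exact hW.congr g
  set T := O.filter fun M => M *ᵥ e0 ≠ 0 with hT
  obtain ⟨M₀, hM₀, hM₀e⟩ : ∃ M ∈ O, M *ᵥ e0 ≠ 0 := by
    obtain ⟨j, hj⟩ : ∃ j, W *ᵥ Pi.single j 1 ≠ 0 := by
      by_contra hc
      push Not at hc
      exact hW0 (Matrix.ext_of_mulVec_single fun j => by rw [hc j, Matrix.zero_mulVec])
    have hjne : (Pi.single j 1 : Fin (m + 1) → F) ≠ 0 := fun h => hj (by rw [h, Matrix.mulVec_zero])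
    obtain ⟨G, hG, hGe⟩ := exists_det_one_mulVec (by omega) he0ne hjne
    have hu' : IsUnit Gᵀ.det := by rw [Matrix.det_transpose, hG]; exact isUnit_one
    refine ⟨Gᵀ * W * Gᵀᵀ, mem_slOrbit.2 ⟨Gᵀ, by rw [Matrix.det_transpose, hG], rfl⟩, fun h => hj ?_⟩
    rw [Matrix.transpose_transpose, ← Matrix.mulVec_mulVec, ← Matrix.mulVec_mulVec, hGe] at h
    have := congrArg ((Gᵀ)⁻¹ *ᵥ ·) h
    simpa [Matrix.mulVec_mulVec, ← Matrix.mul_assoc, Matrix.nonsing_inv_mul _ hu'] using this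
  set b : Fin m → F := fun i => M₀ i.succ 0 with hb
  have hb0 : b ≠ 0 := fun h => hM₀e <| funext fun i => by
    rw [hcol]
    refine Fin.cases ?_ (fun i => ?_) i
    · exact (halt M₀ hM₀).1 0
    · exact congrFun h i
  have hfam : ∀ v : Fin m → F, ∃ M₁ : Matrix (Fin (m + 1)) (Fin (m + 1)) F, v ≠ 0 →
      M₁ ∈ O ∧ ∀ i, M₁ i.succ 0 = v i := by
    intro v
    by_cases hv : v = 0
    · exact ⟨0, fun h => absurd hv h⟩
    obtain ⟨G, hG, hGv⟩ := exists_det_one_mulVec (by omega) hb0 hv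
    refine ⟨lowBlk 1 0 G * M₀ * (lowBlk 1 0 G)ᵀ, fun _ =>
      ⟨slOrbit_trans hM₀ (by simp [det_lowBlk, hG]), fun i => ?_⟩⟩
    rw [lowBlk_col, ← hb, hGv]; simp
  choose M₁ hM using hfam
  set S := ((Finset.univ : Finset (Fin m → F)).erase 0) ×ˢ (Finset.univ : Finset (Fin m → F))
  set Φ : (Fin m → F) × (Fin m → F) → Matrix (Fin (m + 1)) (Fin (m + 1)) F :=
    fun p => lowBlk 1 p.2 1 * M₁ p.1 * (lowBlk 1 p.2 1)ᵀ
  have hbase : ∀ p ∈ S, M₁ p.1 ∈ O ∧ (∀ i, M₁ p.1 i.succ 0 = p.1 i) ∧ p.1 ≠ 0 := by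
    intro p hp
    have hv := Finset.ne_of_mem_erase (Finset.mem_product.1 hp).1
    exact ⟨(hM p.1 hv).1, (hM p.1 hv).2, hv⟩
  have hΦcol : ∀ p ∈ S, ∀ i, Φ p i.succ 0 = p.1 i := by
    intro p hp i
    obtain ⟨hO, hc, -⟩ := hbase p hp
    simp only [Φ, lowBlk_col, (halt _ hO).1 0, mul_zero, zero_add, one_mul, Matrix.one_mulVec, hc]
  have hsub : S.image Φ ⊆ T := by
    intro M hM'
    obtain ⟨p, hp, rfl⟩ := Finset.mem_image.1 hM'
    obtain ⟨hO, -, hv⟩ := hbase p hp
    refine Finset.mem_filter.2 ⟨slOrbit_trans hO (by simp [det_lowBlk]), fun h => hv ?_⟩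
    funext i
    have := congrFun h i.succ
    rw [hcol, hΦcol p hp] at this
    exact this
  have hfib : ∀ M ∈ S.image Φ, (S.filter fun p => Φ p = M).card ≤ q := by
    intro M hM'
    obtain ⟨p₀, hp₀, rfl⟩ := Finset.mem_image.1 hM'
    obtain ⟨-, -, hv⟩ := hbase p₀ hp₀
    set v := p₀.1
    obtain ⟨k, hk⟩ := Function.ne_iff.1 hv
    refine Finset.card_le_card_of_injOn (t := (Finset.univ : Finset F)) (fun p => p.2 k)
      (fun p _ => Finset.mem_univ _) ?_
    intro p hp p' hp' (hpk : p.2 k = p'.2 k)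
    obtain ⟨hpS, hpΦ⟩ := Finset.mem_filter.1 hp
    obtain ⟨hpS', hpΦ'⟩ := Finset.mem_filter.1 hp'
    have h1 : p.1 = v := funext fun i => by rw [← hΦcol p hpS, hpΦ, hΦcol p₀ hp₀]
    have h2 : p'.1 = v := funext fun i => by rw [← hΦcol p' hpS', hpΦ', hΦcol p₀ hp₀]
    obtain ⟨hO, hc, -⟩ := hbase p hpS
    obtain ⟨hO', hc', -⟩ := hbase p' hpS'
    have he := congrArg (fun N => N.submatrix Fin.succ Fin.succ) (hpΦ.trans hpΦ'.symm)
    simp only [Φ] at he
    rw [lowBlk_block _ (halt _ hO), lowBlk_block _ (halt _ hO'),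
      show (fun i => _) = p.1 from funext hc, show (fun i => _) = p'.1 from funext hc', h1, h2,
      add_right_inj] at he
    refine Prod.ext (h1.trans h2.symm) (funext fun i => ?_)
    have := congrFun (congrFun he k) i
    simp only [wedge_apply, hpk] at this
    exact mul_left_cancel₀ hk (sub_left_inj.1 this)
  have h := (Finset.card_le_mul_card_image S q hfib).trans (Nat.mul_le_mul_left _ (Finset.card_le_card hsub))
  rw [Finset.card_product, Finset.card_erase_of_mem (Finset.mem_univ _), Finset.card_univ,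
    Fintype.card_fun, Fintype.card_fin, ← hqdef] at h
  have hle : ∀ x : Fin (m + 1) → F, x ≠ 0 → T.card ≤ (O.filter fun M => M *ᵥ x ≠ 0).card := by
    intro x hx
    obtain ⟨H, hH, hHx⟩ := exists_det_one_mulVec (by omega) hx he0ne
    have hu : IsUnit H.det := by rw [hH]; exact isUnit_one
    have hu' : IsUnit Hᵀ.det := by rw [Matrix.det_transpose]; exact hu
    refine Finset.card_le_card_of_injOn (fun M => Hᵀ * M * Hᵀᵀ) (fun M hM' => ?_) ?_
    · obtain ⟨hMO, hMe⟩ := Finset.mem_filter.1 hM'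
      refine Finset.mem_filter.2 ⟨slOrbit_trans hMO (by rw [Matrix.det_transpose, hH]), fun h => hMe ?_⟩
      rw [Matrix.transpose_transpose, ← Matrix.mulVec_mulVec, ← Matrix.mulVec_mulVec, hHx] at h
      have := congrArg ((Hᵀ)⁻¹ *ᵥ ·) h
      simpa [Matrix.mulVec_mulVec, ← Matrix.mul_assoc, Matrix.nonsing_inv_mul _ hu'] using this
    · intro M _ M' _ hMM
      simp only [Matrix.transpose_transpose] at hMM
      have := congrArg (fun N => (Hᵀ)⁻¹ * N * H⁻¹) hMM
      simpa [← Matrix.mul_assoc, Matrix.nonsing_inv_mul _ hu', Matrix.mul_nonsing_inv_cancel_right _ _ hu]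
        using this
  have hsum : (q ^ (m + 1) - 1) * T.card ≤ O.card * q ^ (m + 1) := by
    have h1 := Finset.card_nsmul_le_sum ((Finset.univ : Finset (Fin (m + 1) → F)).erase 0) _ T.card
      (fun x hx => hle x (Finset.ne_of_mem_erase hx))
    rw [Finset.card_erase_of_mem (Finset.mem_univ _), Finset.card_univ, Fintype.card_fun, Fintype.card_fin,
      smul_eq_mul, ← hqdef] at h1
    refine h1.trans ((Finset.sum_le_sum_of_subset (Finset.erase_subset _ _)).trans ?_)
    refine (Finset.sum_card_bipartiteAbove_eq_sum_card_bipartiteBelow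
      (fun (M : Matrix (Fin (m + 1)) (Fin (m + 1)) F) (x : Fin (m + 1) → F) => M *ᵥ x ≠ 0)
      (s := O) (t := Finset.univ)).symm.le.trans ?_
    refine (Finset.sum_le_card_nsmul _ _ (q ^ (m + 1)) fun M _ => (Finset.card_le_univ _).trans ?_).trans le_rfl
    rw [Fintype.card_fun, Fintype.card_fin]
  have hqm : 0 < q ^ m := pow_pos (by rw [hqdef]; exact Fintype.card_pos) _
  refine Nat.le_of_mul_le_mul_right ?_ hqm
  calc (q ^ (m + 1) - 1) * (q ^ m - 1) * q ^ m = (q ^ (m + 1) - 1) * ((q ^ m - 1) * q ^ m) := by ring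
    _ ≤ (q ^ (m + 1) - 1) * (q * T.card) := Nat.mul_le_mul_left _ h
    _ = q * ((q ^ (m + 1) - 1) * T.card) := by ring
    _ ≤ q * (O.card * q ^ (m + 1)) := Nat.mul_le_mul_left _ hsum
    _ = q ^ 2 * O.card * q ^ m := by ring

end CfsgLib.OrthMinusDeg
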