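import Cfsg.Agent.OrthMinusDeg.Weights

/-!
In a representation of small degree the Eichler elements act trivially on the weight zero space and
on the weight spaces orthogonal to their parameter.
-/

set_option autoImplicit false
set_option linter.unusedSectionVars false

noncomputable section

namespace CfsgLib.OrthMinusDeg

open Cfsg.Geo CfsgLib.OrthGeo Matrix CfsgLib.OrthPlusDeg
open scoped MatrixGroups

/-- A set of weights of an abelian group on an invariant projection is not bigger than its trace. -/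
theorem card_le_natTr_of_weights {k : ℕ} {F : Type*} [Field F] [Fintype F] [DecidableEq F] {ι : Type*}
    [Fintype ι] [DecidableEq ι] {f : (ι → F) → Matrix (Fin k) (Fin k) ℂ} {ψ : AddChar F ℂ} (h0 : f 0 = 1)
    (hadd : ∀ u v, f (u + v) = f u * f v) (hψ : ψ 1 ≠ 1) {P : Matrix (Fin k) (Fin k) ℂ} (hP : P * P = P)
    (h : ∀ v, P * f v = f v * P) (S : Finset (ι → F)) (hS : ∀ w ∈ S, P * weightProj f ψ w ≠ 0) :
    S.card ≤ natTr hP := by
  classical
  have hidem : ∀ w, P * weightProj f ψ w * (P * weightProj f ψ w) = P * weightProj f ψ w := fun w =>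
    idem_mul hP (weightProj_idem hadd hψ w) (commute_weightProj h w)
  have hsum : (natTr hP : ℂ) = ((∑ w : ι → F, natTr (hidem w) : ℕ) : ℂ) := by
    rw [← trace_eq_natTr hP, Nat.cast_sum]
    conv_lhs => rw [← mul_one P, ← sum_weightProj h0 hψ, Finset.mul_sum, Matrix.trace_sum]
    exact Finset.sum_congr rfl fun w _ => trace_eq_natTr (hidem w)
  rw [show natTr hP = ∑ w : ι → F, natTr (hidem w) by exact_mod_cast hsum]
  calc S.card = ∑ _w ∈ S, 1 := Finset.card_eq_sum_ones S
    _ ≤ ∑ w ∈ S, natTr (hidem w) := Finset.sum_le_sum fun w hw =>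
        Nat.one_le_iff_ne_zero.2 fun e => hS w hw (eq_zero_of_natTr _ e)
    _ ≤ _ := Finset.sum_le_sum_of_subset (Finset.subset_univ S)

variable {F : Type*} [Field F] [Fintype F] [DecidableEq F] {m k : ℕ} (M : Dat F) (hm : 3 ≤ m)
variable (R : OmM M m →* Matrix (Fin k) (Fin k) ℂ) {ψ : AddChar F ℂ}

/-- An element commuting with two dual Eichler subgroups acts as a scalar on a weight space. -/
theorem scalar_on_pW (hψ : ψ 1 ≠ 1) {W : Matrix (Fin m) (Fin m) F}
    (hμ : muW M hm R ψ W = Fintype.card F ^ 2) {x y : Fin m → F} (ht : bil W x y ≠ 0)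
    {X : Matrix (Fin k) (Fin k) ℂ} (hX : pW M hm R ψ W * X = X * pW M hm R ψ W)
    (hx : ∀ z, pW M hm R ψ W * (R (eE M hm x z) * X) = pW M hm R ψ W * (X * R (eE M hm x z)))
    (hy : ∀ z, pW M hm R ψ W * (R (eE M hm y z) * X) = pW M hm R ψ W * (X * R (eE M hm y z))) :
    ∃ c : ℂ, pW M hm R ψ W * X = c • pW M hm R ψ W := by
  classical
  set P := pW M hm R ψ W with hPdef
  set P0 := P * px M hm R ψ x 0 with hP0
  have hP0i : P0 * P0 = P0 := sub_idem M hm R hψ W x 0
  have hq : Fintype.card F ^ 2 ≠ 0 := pow_ne_zero _ Fintype.card_ne_zero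
  have hP0t : P0.trace = 1 := by
    have h := muW_eq_sq_mul M hm R hψ ht
    rw [hμ] at h
    rw [trace_eq_natTr hP0i, show natTr hP0i = 1 from (Nat.eq_of_mul_eq_mul_left (Nat.pos_of_ne_zero hq)
      (h.symm.trans (mul_one _).symm)), Nat.cast_one]
  have hcomm : P0 * X = X * P0 := by
    simp only [hP0, px, weightProj, mul_smul_comm, smul_mul_assoc, Finset.mul_sum, Finset.sum_mul]
    congr 1
    refine Finset.sum_congr rfl fun z _ => ?_
    rw [Matrix.mul_assoc, hx z, ← Matrix.mul_assoc, hX, Matrix.mul_assoc]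
  set c := (P0 * X).trace
  have hc : P0 * X = c • P0 := mul_eq_trace_smul hP0i hP0t hcomm
  refine ⟨c, ?_⟩
  have hall : ∀ lam, P * px M hm R ψ x lam * X = c • (P * px M hm R ψ x lam) := by
    intro lam
    obtain ⟨z, hz⟩ := ((Matrix.mulVec_surjective_iff_isUnit).2
      ((Matrix.isUnit_iff_isUnit_det _).2 (det_Bz M).isUnit)) lam
    have h := translate M hm R (pW_mul_sS M hm R (ψ := ψ) W) (fun z => eE_comm_pW M hm R x z W)
      (fun z => eE_comm_pW M hm R y z W) ((bil W x y)⁻¹ • z) lam
    rw [Matrix.mulVec_smul, smul_inv_smul₀ ht, hz, sub_self, ← hP0] at h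
    set L := R (eE M hm y ((bil W x y)⁻¹ • z))
    set L' := R (eE M hm y ((bil W x y)⁻¹ • z))⁻¹
    have e : P * px M hm R ψ x lam = L' * (P0 * L) := by
      rw [← h, ← Matrix.mul_assoc, rep_inv_mul, Matrix.one_mul]
    have e2 : P0 * L * X = c • (P0 * L) := by
      have : P0 * L * X = P0 * X * L := by
        have hP0P : P0 = P0 * P := by
          rw [hP0, Matrix.mul_assoc, ← pW_comm_px, ← Matrix.mul_assoc, pW_idem M hm R hψ]
        rw [hP0P, Matrix.mul_assoc P0 P, Matrix.mul_assoc P0, Matrix.mul_assoc P L X, hy,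
          ← Matrix.mul_assoc P X L]
        simp only [Matrix.mul_assoc]
      rw [this, hc, smul_mul_assoc]
    rw [e, Matrix.mul_assoc, e2, mul_smul_comm]
  calc P * X = ∑ lam, P * px M hm R ψ x lam * X := by
        rw [← Finset.sum_mul, ← Finset.mul_sum]
        simp only [px]
        rw [sum_weightProj (R := fun z => R (eE M hm x z)) (rE_zero M hm R x) hψ, Matrix.mul_one]
    _ = ∑ lam, c • (P * px M hm R ψ x lam) := Finset.sum_congr rfl fun lam _ => hall lam
    _ = c • P := by
        rw [← Finset.smul_sum, ← Finset.mul_sum]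
        simp only [px]
        rw [sum_weightProj (R := fun z => R (eE M hm x z)) (rE_zero M hm R x) hψ, Matrix.mul_one]

theorem pW_eE_semiconj {W : Matrix (Fin m) (Fin m) F} {x x' : Fin m → F} (h : bil W x' x = 0)
    (z z' : Fin 2 → F) :
    pW M hm R ψ W * (R (eE M hm x z) * R (eE M hm x' z')) =
      pW M hm R ψ W * (R (eE M hm x' z') * R (eE M hm x z)) := by
  rw [← map_mul, eE_comm_eE, map_mul, map_mul, ← Matrix.mul_assoc, ← Matrix.mul_assoc,
    ← eE_comm_pW M hm R x' z' W, Matrix.mul_assoc (R (eE M hm x' z')), pW_mul_sS, flat2_dot_wflat, h,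
    mul_zero, AddChar.map_zero_eq_one, one_smul, eE_comm_pW M hm R x' z' W, ← Matrix.mul_assoc]

/-- An Eichler element fixes the weight spaces orthogonal to its parameter. -/
theorem pW_mul_eE_eq (hψ : ψ 1 ≠ 1) (hR : ∃ g, R g ≠ 1) (hk : SmallM F m k) {W : Matrix (Fin m) (Fin m) F}
    (hW : IsWedge W) {x : Fin m → F} (hx : ∀ u, bil W x u = 0) (z : Fin 2 → F) :
    pW M hm R ψ W * R (eE M hm x z) = pW M hm R ψ W := by
  classical
  set P := pW M hm R ψ W with hPdef
  have hμ := (weight_structure_minus M hm R hψ hR hk W hW.1).1 hW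
  obtain ⟨p, q, hpq⟩ := exists_ne_zero_of_row hW.1
  have hx' : ∀ u, bil W u x = 0 := fun u => by rw [bil_swap hW.isAlt, hx, neg_zero]
  have hsc : ∀ z, ∃ c : ℂ, P * R (eE M hm x z) = c • P := fun z =>
    scalar_on_pW M hm R hψ hμ (x := Pi.single p 1) (y := Pi.single q 1) (by rwa [bil_single])
      (eE_comm_pW M hm R x z W).symm
      (fun z' => pW_eE_semiconj M hm R (hx _) z' z) (fun z' => pW_eE_semiconj M hm R (hx _) z' z)
  choose c hc using hsc
  have hμ0 : ((muW M hm R ψ W : ℕ) : ℂ) ≠ 0 := by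
    rw [hμ]; exact Nat.cast_ne_zero.2 (pow_ne_zero _ Fintype.card_ne_zero)
  have hPt : P.trace ≠ 0 := by rw [hPdef, trace_pW M hm R hψ]; exact hμ0
  have hP0 : P ≠ 0 := fun e => hPt (by rw [e, Matrix.trace_zero])
  have hadd : ∀ u v, c (u + v) = c u * c v := fun u v => by
    refine smul_left_injective ℂ hP0 ?_
    change c (u + v) • P = (c u * c v) • P
    rw [← hc, rE_add, ← Matrix.mul_assoc, hc, smul_mul_assoc, hc, smul_smul]
  have h0 : c 0 = 1 := by
    refine smul_left_injective ℂ hP0 ?_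
    change c 0 • P = (1 : ℂ) • P
    rw [← hc, rE_zero, Matrix.mul_one, one_smul]
  have hne : ∀ v, c v ≠ 0 := fun v e => by
    have := hadd v (-v)
    rw [add_neg_cancel, h0, e, zero_mul] at this
    exact one_ne_zero this
  obtain ⟨g, ρ, hg, hρ⟩ := exists_rotation M hm
  have hgP : R g * P = P * R g := commute_pW M hm R (fun v => rep_semiconj R (om_ext M fun X Y Z => by
    rw [mat_mul_mulVec, mat_mul_mulVec, sS_apply, hg, hg, sS_apply])) W
  have hinv : ∀ z, c (ρ z) = c z := by
    intro z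
    have e : R g * R (eE M hm x z) = R (eE M hm x (ρ z)) * R g :=
      rep_semiconj R (semiconj_eich M hm g (qM_eV M x) (eE_cond M x z) (by rw [eV, hg]; simp)
        (by rw [zV, hg]; rfl))
    have e2 : R g * (P * R (eE M hm x z)) = P * R (eE M hm x (ρ z)) * R g := by
      rw [← Matrix.mul_assoc, hgP, Matrix.mul_assoc, e, ← Matrix.mul_assoc]
    have := trace_eq_of_rep_semiconj R g e2
    rw [hc, hc, Matrix.trace_smul, Matrix.trace_smul, smul_eq_mul, smul_eq_mul] at this
    exact (mul_right_cancel₀ hPt this).symm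
  have hinj : Function.Injective (ρ - LinearMap.id : (Fin 2 → F) →ₗ[F] (Fin 2 → F)) := by
    rw [← LinearMap.ker_eq_bot, LinearMap.ker_eq_bot']
    intro Z hZ
    exact hρ Z (sub_eq_zero.1 hZ)
  obtain ⟨w, hw⟩ := LinearMap.surjective_of_injective hinj z
  have : c z = 1 := by
    have e := hadd z w
    rw [show z + w = ρ w by rw [← hw]; simp, hinv] at e
    exact (mul_eq_right₀ (hne w)).1 e.symm
  rw [hc, this, one_smul]

/-- Eichler elements fix the weight zero space when it is small. -/
theorem pW_zero_mul_eE (hψ : ψ 1 ≠ 1) (hD : muW M hm R ψ 0 < Fintype.card F ^ m - 1) (x : Fin m → F)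
    (z : Fin 2 → F) : pW M hm R ψ 0 * R (eE M hm x z) = pW M hm R ψ 0 := by
  classical
  set P := pW M hm R ψ (0 : Matrix (Fin m) (Fin m) F) with hPdef
  have hPi : P * P = P := pW_idem M hm R hψ 0
  have hPX : ∀ x, P * R (eE M hm x z) = R (eE M hm x z) * P := fun x => (eE_comm_pW M hm R x z 0).symm
  let f : (Fin m → F) → Matrix (Fin k) (Fin k) ℂ := fun x => P * R (eE M hm x z) + (1 - P)
  have hz0 : eE M hm (0 : Fin m → F) z = 1 := om_ext M fun X Y Z => by
    rw [eE_apply]; simp [mat, mk]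
  have f0 : f 0 = 1 := by simp [f, hz0]
  have hmul : ∀ x x', P * R (eE M hm (x + x') z) = P * R (eE M hm x z) * (P * R (eE M hm x' z)) := by
    intro x x'
    rw [hPX x, Matrix.mul_assoc (R (eE M hm x z)), ← Matrix.mul_assoc P P, hPi, ← Matrix.mul_assoc, ← hPX x,
      Matrix.mul_assoc, ← map_mul, eE_add_left, map_mul, ← Matrix.mul_assoc, hPX, Matrix.mul_assoc,
      pW_mul_sS]
    simp [flat2, dotProduct, hPdef]
  have h1 : ∀ x, P * R (eE M hm x z) * (1 - P) = 0 := fun x => by
    rw [Matrix.mul_sub, Matrix.mul_one, Matrix.mul_assoc, ← hPX, ← Matrix.mul_assoc, hPi, sub_self]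
  have h2 : ∀ x, (1 - P) * (P * R (eE M hm x z)) = 0 := fun x => by
    rw [← Matrix.mul_assoc, Matrix.sub_mul, Matrix.one_mul, hPi, sub_self, Matrix.zero_mul]
  have fadd : ∀ u v, f (u + v) = f u * f v := fun u v => by
    simp only [f, Matrix.add_mul, Matrix.mul_add, h1, h2, idem_one_sub hPi, add_zero, zero_add, hmul]
  have hPf : ∀ v, P * f v = P * R (eE M hm v z) := fun v => by
    simp only [f, Matrix.mul_add, ← Matrix.mul_assoc, hPi, Matrix.mul_sub, Matrix.mul_one, sub_self, add_zero]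
  have hfP : ∀ v, P * f v = f v * P := fun v => by
    rw [hPf]
    simp only [f, Matrix.add_mul, Matrix.sub_mul, Matrix.one_mul, hPi, sub_self, add_zero]
    rw [Matrix.mul_assoc, ← hPX, ← Matrix.mul_assoc, hPi]
  have hzero : ∀ w : Fin m → F, w ≠ 0 → P * weightProj f ψ w = 0 := by
    intro w hw
    by_contra hne
    have hS : ∀ w' ∈ (Finset.univ : Finset (Fin m → F)).erase 0, P * weightProj f ψ w' ≠ 0 := by
      intro w' hw'
      obtain ⟨G, hG, hGw⟩ := exists_det_one_mulVec (by omega) (Finset.ne_of_mem_erase hw') hw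
      let g : Matrix.SpecialLinearGroup (Fin m) F := ⟨Gᵀ, by rw [Matrix.det_transpose, hG]⟩
      have hgP : R (slM M hm g) * P = P * R (slM M hm g) := by
        have := slM_comm_pW M hm R (ψ := ψ) g 0
        rwa [Matrix.mul_zero, Matrix.zero_mul] at this
      have hLf : ∀ v, R (slM M hm g) * f v = f ((g : Matrix (Fin m) (Fin m) F) *ᵥ v) * R (slM M hm g) := by
        intro v
        simp only [f, Matrix.mul_add, Matrix.add_mul, Matrix.mul_sub, Matrix.sub_mul, Matrix.mul_one,
          Matrix.one_mul, hgP]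
        rw [← Matrix.mul_assoc, hgP, Matrix.mul_assoc, rep_semiconj R (slM_eE M hm g v z), ← Matrix.mul_assoc]
      let e : (Fin m → F) ≃ (Fin m → F) :=
        { toFun := fun v => (g : Matrix (Fin m) (Fin m) F) *ᵥ v
          invFun := fun v => ((g⁻¹ : Matrix.SpecialLinearGroup (Fin m) F) : Matrix (Fin m) (Fin m) F) *ᵥ v
          left_inv := fun v => by
            simp only [Matrix.mulVec_mulVec]
            rw [← Matrix.SpecialLinearGroup.coe_mul, inv_mul_cancel]
            simp
          right_inv := fun v => by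
            simp only [Matrix.mulVec_mulVec]
            rw [← Matrix.SpecialLinearGroup.coe_mul, mul_inv_cancel]
            simp }
      have hcw : R (slM M hm g) * weightProj f ψ w = weightProj f ψ w' * R (slM M hm g) :=
        comm_weightProj e hLf (fun v => by
          change (Gᵀ *ᵥ v) ⬝ᵥ w' = v ⬝ᵥ w
          rw [← hGw, Matrix.mulVec_transpose, ← Matrix.dotProduct_mulVec])
      intro h0
      refine hne ?_
      have h3 : R (slM M hm g) * (P * weightProj f ψ w) = 0 := by
        rw [← Matrix.mul_assoc, hgP, Matrix.mul_assoc, hcw, ← Matrix.mul_assoc, h0, Matrix.zero_mul]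
      have := congrArg (fun N => R (slM M hm g)⁻¹ * N) h3
      simpa only [← Matrix.mul_assoc, rep_inv_mul, Matrix.one_mul, Matrix.mul_zero] using this
    have hle := card_le_natTr_of_weights f0 fadd hψ hPi hfP _ hS
    have ht : (natTr hPi : ℂ) = (muW M hm R ψ (0 : Matrix (Fin m) (Fin m) F) : ℂ) := by
      rw [← trace_eq_natTr hPi, hPdef, trace_pW M hm R hψ]
    rw [show natTr hPi = muW M hm R ψ (0 : Matrix (Fin m) (Fin m) F) by exact_mod_cast ht,
      Finset.card_erase_of_mem (Finset.mem_univ _), Finset.card_univ, Fintype.card_fun, Fintype.card_fin] at hle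
    omega
  have hP0 : P * weightProj f ψ 0 = P := by
    conv_rhs => rw [← Matrix.mul_one P, ← sum_weightProj f0 hψ, Finset.mul_sum]
    exact (Finset.sum_eq_single (f := fun w => P * weightProj f ψ w) (0 : Fin m → F)
      (fun w _ hw => hzero w hw) (fun h => absurd (Finset.mem_univ _) h)).symm
  calc P * R (eE M hm x z) = P * f x := (hPf x).symm
    _ = f x * (P * weightProj f ψ 0) := by rw [hP0, hfP]
    _ = P * (f x * weightProj f ψ 0) := by rw [← Matrix.mul_assoc, ← hfP, Matrix.mul_assoc]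
    _ = P := by rw [mul_weightProj fadd, dotProduct_zero, AddChar.map_zero_eq_one, one_smul, hP0]

include hm in
theorem zero_weight_small (hψ : ψ 1 ≠ 1) (hR : ∃ g, R g ≠ 1) (hk : SmallM F m k) :
    muW M hm R ψ 0 * (Fintype.card F - 1) < Fintype.card F ^ m - Fintype.card F := by
  have h := degree_split M hm R hψ hR hk
  generalize muW M hm R ψ (0 : Matrix (Fin m) (Fin m) F) = D at h ⊢
  have hS := card_wedgeSet (F := F) m
  unfold SmallM at hk
  set q := Fintype.card F with hq
  have hq2 : 2 ≤ q := Fintype.one_lt_card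
  have hV : q ≤ q ^ (m - 1) := Nat.le_self_pow (by omega) q
  have hQ : q ^ m = q * q ^ (m - 1) := by rw [← pow_succ']; congr 1; omega
  rw [h, pow_succ' q m] at hk
  rw [hQ] at hk hS ⊢
  generalize q ^ (m - 1) = V at *
  obtain ⟨p, hp⟩ : ∃ p, q = p + 1 := ⟨q - 1, by omega⟩
  obtain ⟨v, rfl⟩ : ∃ v, V = v + 1 := ⟨V - 1, by omega⟩
  rw [show q * (v + 1) - q = q * v by rw [Nat.mul_add, Nat.mul_one, Nat.add_sub_cancel]] at hk ⊢
  rw [Nat.add_sub_cancel] at hS
  have hq2' : q ^ 2 - 1 = (p + 2) * p := by rw [hp]; ring_nf; omega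
  rw [hq2'] at hk hS
  obtain ⟨A, hA⟩ : ∃ A, q * (v + 1) = A + 1 :=
    ⟨q * (v + 1) - 1, by have : 0 < q * (v + 1) := Nat.mul_pos (by omega) (by omega); omega⟩
  rw [hA, Nat.add_sub_cancel] at hS
  rw [hA] at hk
  rw [show q - 1 = p by omega]
  rw [hp] at hk hA
  have e : (A + 1) = (p + 1) * (v + 1) := hA.symm
  rw [hp]
  by_contra hc
  push Not at hc
  nlinarith [Nat.mul_le_mul_left (p + 2) hc]

include hm in
theorem zero_weight_lt (hψ : ψ 1 ≠ 1) (hR : ∃ g, R g ≠ 1) (hk : SmallM F m k) :
    muW M hm R ψ 0 < Fintype.card F ^ m - 1 := by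
  have h := zero_weight_small M hm R hψ hR hk
  have hq2 : 2 ≤ Fintype.card F := Fintype.one_lt_card
  have : muW M hm R ψ (0 : Matrix (Fin m) (Fin m) F) ≤
      muW M hm R ψ (0 : Matrix (Fin m) (Fin m) F) * (Fintype.card F - 1) := Nat.le_mul_of_pos_right _ (by omega)
  omega

end CfsgLib.OrthMinusDeg
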