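import Cfsg.Agent.OrthPlusDeg.Weight

/-!
Idempotent matrices commuting with a group of matrices, and weight projections.
-/

set_option autoImplicit false
set_option linter.unusedSectionVars false

noncomputable section

namespace CfsgLib.OrthMinusDeg

open Matrix CfsgLib.OrthPlusDeg

variable {k : ℕ}

theorem idem_mul {P Q : Matrix (Fin k) (Fin k) ℂ} (hP : P * P = P) (hQ : Q * Q = Q) (h : P * Q = Q * P) :
    P * Q * (P * Q) = P * Q :=
  calc P * Q * (P * Q) = P * (Q * P) * Q := by simp only [Matrix.mul_assoc]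
    _ = P * (P * Q) * Q := by rw [h]
    _ = P * P * (Q * Q) := by simp only [Matrix.mul_assoc]
    _ = P * Q := by rw [hP, hQ]

theorem idem_one_sub {P : Matrix (Fin k) (Fin k) ℂ} (hP : P * P = P) : (1 - P) * (1 - P) = 1 - P := by
  rw [Matrix.sub_mul, Matrix.mul_sub, Matrix.mul_sub, hP, Matrix.one_mul, Matrix.one_mul, Matrix.mul_one,
    sub_self, sub_zero]

/-- The trace of an idempotent matrix, as a natural number. -/
def natTr {P : Matrix (Fin k) (Fin k) ℂ} (hP : P * P = P) : ℕ :=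
  (CfsgLib.SlMinDegree.exists_natCast_trace hP).choose

theorem trace_eq_natTr {P : Matrix (Fin k) (Fin k) ℂ} (hP : P * P = P) : P.trace = natTr hP :=
  (CfsgLib.SlMinDegree.exists_natCast_trace hP).choose_spec.1

theorem eq_zero_of_natTr {P : Matrix (Fin k) (Fin k) ℂ} (hP : P * P = P) (h : natTr hP = 0) : P = 0 :=
  (CfsgLib.SlMinDegree.exists_natCast_trace hP).choose_spec.2 h

theorem eq_zero_of_trace_idem {P : Matrix (Fin k) (Fin k) ℂ} (hP : P * P = P) (h : P.trace = 0) : P = 0 :=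
  eq_zero_of_natTr hP (by rw [trace_eq_natTr hP] at h; exact_mod_cast h)

theorem exists_nat_trace {P : Matrix (Fin k) (Fin k) ℂ} (hP : P * P = P) : ∃ a : ℕ, P.trace = a :=
  ⟨_, trace_eq_natTr hP⟩

theorem trace_eq_of_semiconj {A B L L' : Matrix (Fin k) (Fin k) ℂ} (h1 : L' * L = 1) (h2 : L * L' = 1)
    (h : L * A = B * L) : A.trace = B.trace := by
  calc A.trace = (L' * (L * A)).trace := by rw [← Matrix.mul_assoc, h1, Matrix.one_mul]
    _ = (B * (L * L')).trace := by rw [h, Matrix.trace_mul_comm, Matrix.mul_assoc]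
    _ = B.trace := by rw [h2, Matrix.mul_one]

theorem mul_eq_trace_smul {P X : Matrix (Fin k) (Fin k) ℂ} (hP : P * P = P) (ht : P.trace = 1)
    (h : P * X = X * P) : P * X = (P * X).trace • P := by
  conv_lhs => rw [← hP, Matrix.mul_assoc, h, ← Matrix.mul_assoc,
    CfsgLib.SlMinDegree.mul_mul_of_trace_one hP ht]

variable {G : Type*} [Group G] (R : G →* Matrix (Fin k) (Fin k) ℂ)

theorem rep_inv_mul (g : G) : R g⁻¹ * R g = 1 := by rw [← map_mul, inv_mul_cancel, map_one]

theorem rep_mul_inv (g : G) : R g * R g⁻¹ = 1 := by rw [← map_mul, mul_inv_cancel, map_one]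

theorem trace_eq_of_rep_semiconj {A B : Matrix (Fin k) (Fin k) ℂ} (g : G) (h : R g * A = B * R g) :
    A.trace = B.trace := trace_eq_of_semiconj (rep_inv_mul R g) (rep_mul_inv R g) h

theorem rep_semiconj {g x y : G} (h : g * x = y * g) : R g * R x = R y * R g := by
  rw [← map_mul, h, map_mul]

section weights

variable {F : Type*} [Field F] [Fintype F] [DecidableEq F] {ι : Type*} [Fintype ι] [DecidableEq ι]
variable {f : (ι → F) → Matrix (Fin k) (Fin k) ℂ} {ψ : AddChar F ℂ}

theorem commute_weightProj {X : Matrix (Fin k) (Fin k) ℂ} (h : ∀ v, X * f v = f v * X) (w : ι → F) :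
    X * weightProj f ψ w = weightProj f ψ w * X := by
  simp only [weightProj, mul_smul_comm, smul_mul_assoc, Finset.mul_sum, Finset.sum_mul, h]

theorem weightProj_zero_eq : weightProj f ψ 0 = (Fintype.card (ι → F) : ℂ)⁻¹ • ∑ v : ι → F, f v := by
  simp [weightProj]

theorem trace_split (h0 : f 0 = 1) (hψ : ψ 1 ≠ 1) (X : Matrix (Fin k) (Fin k) ℂ) :
    X.trace = ∑ w : ι → F, (weightProj f ψ w * X).trace := by
  rw [← Matrix.trace_sum, ← Finset.sum_mul, sum_weightProj h0 hψ, one_mul]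

theorem exists_weightProj_mul_ne_zero (h0 : f 0 = 1) (hψ : ψ 1 ≠ 1) {P : Matrix (Fin k) (Fin k) ℂ}
    (hP : P ≠ 0) : ∃ w : ι → F, P * weightProj f ψ w ≠ 0 := by
  by_contra h
  push Not at h
  exact hP (by rw [← mul_one P, ← sum_weightProj h0 hψ, Finset.mul_sum,
    Finset.sum_eq_zero fun w _ => h w])

/-- On a projection of rank one commuting with an abelian group the group acts by one weight. -/
theorem exists_char_of_trace_one (h0 : f 0 = 1) (hadd : ∀ u v, f (u + v) = f u * f v) (hψ : ψ 1 ≠ 1)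
    {P : Matrix (Fin k) (Fin k) ℂ} (hP : P * P = P) (ht : P.trace = 1) (h : ∀ v, P * f v = f v * P) :
    ∃ w : ι → F, ∀ v, P * f v = ψ (v ⬝ᵥ w) • P := by
  have hne : P ≠ 0 := fun e => by rw [e, Matrix.trace_zero] at ht; exact zero_ne_one ht
  obtain ⟨w, hw⟩ := exists_weightProj_mul_ne_zero (ψ := ψ) h0 hψ hne
  refine ⟨w, fun v => ?_⟩
  have e := mul_eq_trace_smul hP ht (h v)
  have e2 := congrArg (fun N => N * weightProj f ψ w) e
  simp only [Matrix.mul_assoc, mul_weightProj hadd, mul_smul_comm, smul_mul_assoc] at e2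
  rw [e, ← smul_left_injective ℂ hw e2]

theorem sum_psi_dot_smul (hψ : ψ 1 ≠ 1) (w : ι → F) :
    ∑ v : ι → F, ψ (v ⬝ᵥ w) = if w = 0 then (Fintype.card (ι → F) : ℂ) else 0 := by
  rw [← sum_psi_pairing hψ w]
  exact Finset.sum_congr rfl fun v _ => by rw [dotProduct_comm]

end weights

end CfsgLib.OrthMinusDeg
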