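import Cfsg.Agent.OrthMinusDeg.Group
import Cfsg.Agent.OrthMinusDeg.Orbit
import Cfsg.Agent.OrthMinusDeg.Tools
import Cfsg.Agent.Classical.Orth.CentreOmega
import Cfsg.Agent.OrthGeo.Simple

/-!
The weights of the Siegel radical of `Omega^-_{2m+2}(q)` in a representation of small degree: the
nonzero decomposable alternating matrices, each with multiplicity `q^2`.
-/

set_option autoImplicit false
set_option linter.unusedSectionVars false

noncomputable section

namespace CfsgLib.OrthMinusDeg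

open Cfsg.Geo CfsgLib.OrthGeo Matrix CfsgLib.OrthPlusDeg
open scoped MatrixGroups

variable {F : Type*} [Field F] [Fintype F] [DecidableEq F] {m k : ℕ} (M : Dat F) (hm : 3 ≤ m)
variable (R : OmM M m →* Matrix (Fin k) (Fin k) ℂ) (ψ : AddChar F ℂ)

/-- The restriction to the Siegel radical. -/
def rz (v : Fin m × Fin m → F) : Matrix (Fin k) (Fin k) ℂ := R (sS M hm v)

/-- The projection of a weight. -/
def pW (W : Matrix (Fin m) (Fin m) F) : Matrix (Fin k) (Fin k) ℂ := weightProj (rz M hm R) ψ (flat2 W)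

/-- The multiplicity of a weight. -/
def muW (W : Matrix (Fin m) (Fin m) F) : ℕ := weightMult (rz M hm R) ψ (flat2 W)

/-- The projection of a weight of an Eichler subgroup. -/
def px (x : Fin m → F) (lam : Fin 2 → F) : Matrix (Fin k) (Fin k) ℂ :=
  weightProj (fun z => R (eE M hm x z)) ψ lam

theorem rz_zero : rz M hm R 0 = 1 := by rw [rz, sS_zero, map_one]

theorem rz_add (u v : Fin m × Fin m → F) : rz M hm R (u + v) = rz M hm R u * rz M hm R v := by
  rw [rz, sS_add, map_mul]; rfl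

theorem eE_zero (x : Fin m → F) : eE M hm x 0 = 1 := by
  have := eE_add M hm x 0 0
  rwa [add_zero, left_eq_mul] at this

theorem rE_zero (x : Fin m → F) : R (eE M hm x 0) = 1 := by rw [eE_zero, map_one]

theorem rE_add (x : Fin m → F) (z z' : Fin 2 → F) :
    R (eE M hm x (z + z')) = R (eE M hm x z) * R (eE M hm x z') := by rw [eE_add, map_mul]

theorem rz_eq_one {v : Fin m × Fin m → F} (h : altOf v = 0) : rz M hm R v = 1 := by
  rw [rz, sS_congr M hm (show altOf v = altOf 0 by rw [h]; ext i j; simp [altOf_apply]), sS_zero, map_one]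

theorem flat2_dot_wflat (c : F) (x x' : Fin m → F) (W : Matrix (Fin m) (Fin m) F) :
    (c • wflat x x') ⬝ᵥ flat2 W = c * bil W x x' := by
  rw [smul_dotProduct, smul_eq_mul]
  congr 1
  simp only [wflat, flat2, dotProduct, bil, Matrix.mulVec, Fintype.sum_prod_type, vecMulVec_apply,
    Finset.mul_sum]
  exact Finset.sum_congr rfl fun i _ => Finset.sum_congr rfl fun j _ => by ring

variable {ψ}

theorem pW_idem (hψ : ψ 1 ≠ 1) (W : Matrix (Fin m) (Fin m) F) :
    pW M hm R ψ W * pW M hm R ψ W = pW M hm R ψ W := weightProj_idem (rz_add M hm R) hψ _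

theorem trace_pW (hψ : ψ 1 ≠ 1) (W : Matrix (Fin m) (Fin m) F) :
    (pW M hm R ψ W).trace = muW M hm R ψ W := trace_weightProj (rz_add M hm R) hψ _

theorem pW_mul_pW (hψ : ψ 1 ≠ 1) (W W' : Matrix (Fin m) (Fin m) F) :
    pW M hm R ψ W * pW M hm R ψ W' = if W = W' then pW M hm R ψ W' else 0 := by
  rw [pW, pW, weightProj_mul_weightProj (rz_add M hm R) hψ]
  by_cases h : W = W'
  · simp [h]
  · rw [if_neg h, if_neg fun e => h (flat2_injective e)]

theorem pW_mul_sS (W : Matrix (Fin m) (Fin m) F) (v : Fin m × Fin m → F) :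
    pW M hm R ψ W * R (sS M hm v) = ψ (v ⬝ᵥ flat2 W) • pW M hm R ψ W :=
  weightProj_mul (rz_add M hm R) v _

theorem commute_pW {X : Matrix (Fin k) (Fin k) ℂ} (h : ∀ v, X * R (sS M hm v) = R (sS M hm v) * X)
    (W : Matrix (Fin m) (Fin m) F) : X * pW M hm R ψ W = pW M hm R ψ W * X :=
  commute_weightProj (f := rz M hm R) h _

theorem eE_comm_pW (x : Fin m → F) (z : Fin 2 → F) (W : Matrix (Fin m) (Fin m) F) :
    R (eE M hm x z) * pW M hm R ψ W = pW M hm R ψ W * R (eE M hm x z) :=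
  commute_pW M hm R (fun v => rep_semiconj R (sS_comm_eE M hm v x z).symm) W

theorem conj_comm_pW (L : OmM M m) {g g' : Matrix (Fin m) (Fin m) F} (h1 : g * g' = 1) (h2 : g' * g = 1)
    (hL : ∀ v, L * sS M hm v = sS M hm (flat2 (g * sq2 v * gᵀ)) * L) (W : Matrix (Fin m) (Fin m) F) :
    R L * pW M hm R ψ (gᵀ * W * g) = pW M hm R ψ W * R L := by
  let e : (Fin m × Fin m → F) ≃ (Fin m × Fin m → F) :=
    { toFun := fun v => flat2 (g * sq2 v * gᵀ)
      invFun := fun v => flat2 (g' * sq2 v * g'ᵀ)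
      left_inv := fun v => by
        simp only [sq2_flat2, ← Matrix.mul_assoc, h2, Matrix.one_mul]
        rw [Matrix.mul_assoc, ← Matrix.transpose_mul, h2, Matrix.transpose_one, Matrix.mul_one, flat2_sq2]
      right_inv := fun v => by
        simp only [sq2_flat2, ← Matrix.mul_assoc, h1, Matrix.one_mul]
        rw [Matrix.mul_assoc, ← Matrix.transpose_mul, h1, Matrix.transpose_one, Matrix.mul_one, flat2_sq2] }
  refine comm_weightProj e (fun v => ?_) (fun v => ?_)
  · rw [rz, rz, ← map_mul, ← map_mul, hL v]; rfl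
  · exact flat2_dot_congr _ _ _

theorem slM_comm_pW (g : Matrix.SpecialLinearGroup (Fin m) F) (W : Matrix (Fin m) (Fin m) F) :
    R (slM M hm g) * pW M hm R ψ ((g : Matrix (Fin m) (Fin m) F)ᵀ * W * (g : Matrix (Fin m) (Fin m) F)) =
      pW M hm R ψ W * R (slM M hm g) :=
  conj_comm_pW M hm R _ (g' := ((g⁻¹ : Matrix.SpecialLinearGroup (Fin m) F) : Matrix (Fin m) (Fin m) F))
    (by rw [← Matrix.SpecialLinearGroup.coe_mul, mul_inv_cancel, Matrix.SpecialLinearGroup.coe_one])
    (by rw [← Matrix.SpecialLinearGroup.coe_mul, inv_mul_cancel, Matrix.SpecialLinearGroup.coe_one])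
    (slM_sS M hm g) W

theorem tT_comm_pW {x y : Fin m → F} (h : x ⬝ᵥ y = 0) (W : Matrix (Fin m) (Fin m) F) :
    R (tT M hm x y) * pW M hm R ψ ((1 + vecMulVec x y)ᵀ * W * (1 + vecMulVec x y)) =
      pW M hm R ψ W * R (tT M hm x y) := by
  have e : ∀ x y : Fin m → F, x ⬝ᵥ y = 0 → (1 + vecMulVec x y) * (1 - vecMulVec x y) = 1 ∧
      (1 - vecMulVec x y) * (1 + vecMulVec x y) = 1 := fun x y h => by
    constructor <;>
    · simp only [Matrix.add_mul, Matrix.mul_sub, Matrix.sub_mul, Matrix.mul_add,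
        Matrix.vecMulVec_mul_vecMulVec, dotProduct_comm y x, h]
      simp
  exact conj_comm_pW M hm R _ (e x y h).1 (e x y h).2 (tT_sS M hm h) W

theorem muW_congr (hψ : ψ 1 ≠ 1) {g : Matrix (Fin m) (Fin m) F} (hg : g.det = 1)
    (W : Matrix (Fin m) (Fin m) F) : muW M hm R ψ (g * W * gᵀ) = muW M hm R ψ W := by
  have h := slM_comm_pW M hm R (ψ := ψ) ⟨gᵀ, by rw [Matrix.det_transpose, hg]⟩ W
  simp only [Matrix.transpose_transpose] at h
  have h2 := trace_eq_of_rep_semiconj R _ h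
  rw [trace_pW M hm R hψ, trace_pW M hm R hψ] at h2
  exact_mod_cast h2

/-- A translation permutes the weights of an Eichler subgroup inside a weight space of the radical. -/
theorem translate {P : Matrix (Fin k) (Fin k) ℂ} {W : Matrix (Fin m) (Fin m) F}
    (hP : ∀ v, P * R (sS M hm v) = ψ (v ⬝ᵥ flat2 W) • P) {x y : Fin m → F}
    (hx : ∀ z, R (eE M hm x z) * P = P * R (eE M hm x z))
    (hy : ∀ z, R (eE M hm y z) * P = P * R (eE M hm y z)) (z1 lam : Fin 2 → F) :
    R (eE M hm y z1) * (P * px M hm R ψ x lam) =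
      P * px M hm R ψ x (lam - bil W x y • Bz M *ᵥ z1) * R (eE M hm y z1) := by
  simp only [px, weightProj, mul_smul_comm, smul_mul_assoc, Finset.mul_sum, Finset.sum_mul]
  congr 1
  refine Finset.sum_congr rfl fun z _ => ?_
  have h1 : R (eE M hm y z1) * R (eE M hm x z) =
      R (eE M hm x z) * R (sS M hm (zb M z1 z • wflat x y)) * R (eE M hm y z1) := by
    rw [← map_mul, ← map_mul, ← map_mul, eE_comm_eE]
  have h2 : P * (R (eE M hm x z) * R (sS M hm (zb M z1 z • wflat x y))) =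
      ψ (zb M z1 z * bil W x y) • (P * R (eE M hm x z)) := by
    rw [← Matrix.mul_assoc, ← hx, Matrix.mul_assoc, hP, flat2_dot_wflat, mul_smul_comm, hx]
  rw [← Matrix.mul_assoc, hy, Matrix.mul_assoc, h1, ← Matrix.mul_assoc P, h2, smul_mul_assoc, smul_smul,
    ← AddChar.map_add_eq_mul]
  congr 2
  rw [dotProduct_sub, dotProduct_smul, smul_eq_mul, zb_comm, zb]
  ring

theorem trace_px_eq {P : Matrix (Fin k) (Fin k) ℂ} {W : Matrix (Fin m) (Fin m) F}
    (hP : ∀ v, P * R (sS M hm v) = ψ (v ⬝ᵥ flat2 W) • P) {x y : Fin m → F}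
    (hx : ∀ z, R (eE M hm x z) * P = P * R (eE M hm x z))
    (hy : ∀ z, R (eE M hm y z) * P = P * R (eE M hm y z)) (ht : bil W x y ≠ 0) (lam : Fin 2 → F) :
    (P * px M hm R ψ x lam).trace = (P * px M hm R ψ x 0).trace := by
  obtain ⟨z, hz⟩ := ((Matrix.mulVec_surjective_iff_isUnit).2
    ((Matrix.isUnit_iff_isUnit_det _).2 (det_Bz M).isUnit)) lam
  have h := translate M hm R hP hx hy ((bil W x y)⁻¹ • z) lam
  rw [Matrix.mulVec_smul, smul_inv_smul₀ ht, hz, sub_self] at h
  exact trace_eq_of_rep_semiconj R _ h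

theorem trace_eq_sq_mul (hψ : ψ 1 ≠ 1) {P : Matrix (Fin k) (Fin k) ℂ} {W : Matrix (Fin m) (Fin m) F}
    (hP : ∀ v, P * R (sS M hm v) = ψ (v ⬝ᵥ flat2 W) • P) {x y : Fin m → F}
    (hx : ∀ z, R (eE M hm x z) * P = P * R (eE M hm x z))
    (hy : ∀ z, R (eE M hm y z) * P = P * R (eE M hm y z)) (ht : bil W x y ≠ 0) :
    P.trace = (Fintype.card F : ℂ) ^ 2 * (P * px M hm R ψ x 0).trace := by
  conv_lhs => rw [← mul_one P, ← sum_weightProj (R := fun z => R (eE M hm x z)) (rE_zero M hm R x) hψ,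
    Finset.mul_sum, Matrix.trace_sum]
  change ∑ lam, (P * px M hm R ψ x lam).trace = _
  rw [Finset.sum_congr rfl (fun lam _ => trace_px_eq M hm R hP hx hy ht lam), Finset.sum_const,
    Finset.card_univ, Fintype.card_fun, Fintype.card_fin, nsmul_eq_mul, Nat.cast_pow]

theorem px_idem (hψ : ψ 1 ≠ 1) (x : Fin m → F) (lam : Fin 2 → F) :
    px M hm R ψ x lam * px M hm R ψ x lam = px M hm R ψ x lam :=
  weightProj_idem (rE_add M hm R x) hψ lam

theorem pW_comm_px (W : Matrix (Fin m) (Fin m) F) (x : Fin m → F) (lam : Fin 2 → F) :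
    pW M hm R ψ W * px M hm R ψ x lam = px M hm R ψ x lam * pW M hm R ψ W :=
  commute_weightProj (f := fun z => R (eE M hm x z)) (fun z => (eE_comm_pW M hm R x z W).symm) lam

theorem sub_idem (hψ : ψ 1 ≠ 1) (W : Matrix (Fin m) (Fin m) F) (x : Fin m → F) (lam : Fin 2 → F) :
    pW M hm R ψ W * px M hm R ψ x lam * (pW M hm R ψ W * px M hm R ψ x lam) =
      pW M hm R ψ W * px M hm R ψ x lam :=
  idem_mul (pW_idem M hm R hψ W) (px_idem M hm R hψ x lam) (pW_comm_px M hm R W x lam)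

/-- On a weight space, Eichler elements with orthogonal parameters commute. -/
theorem eE_comm_sub {W : Matrix (Fin m) (Fin m) F} {x x' : Fin m → F} (h : bil W x x' = 0)
    (z : Fin 2 → F) (lam : Fin 2 → F) :
    R (eE M hm x' z) * (pW M hm R ψ W * px M hm R ψ x lam) =
      pW M hm R ψ W * px M hm R ψ x lam * R (eE M hm x' z) := by
  have e := translate M hm R (pW_mul_sS M hm R (ψ := ψ) W) (x := x) (y := x')
    (fun z => eE_comm_pW M hm R x z W) (fun z => eE_comm_pW M hm R x' z W) z lam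
  rwa [h, zero_smul, sub_zero] at e

theorem sub_mul_sS (W : Matrix (Fin m) (Fin m) F) (x : Fin m → F) (lam : Fin 2 → F)
    (v : Fin m × Fin m → F) : pW M hm R ψ W * px M hm R ψ x lam * R (sS M hm v) =
      ψ (v ⬝ᵥ flat2 W) • (pW M hm R ψ W * px M hm R ψ x lam) := by
  rw [pW_comm_px, Matrix.mul_assoc, pW_mul_sS, mul_smul_comm]

theorem muW_eq_sq_mul (hψ : ψ 1 ≠ 1) {W : Matrix (Fin m) (Fin m) F} {x y : Fin m → F}
    (ht : bil W x y ≠ 0) :
    muW M hm R ψ W = Fintype.card F ^ 2 * natTr (sub_idem M hm R hψ W x (0 : Fin 2 → F)) := by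
  have h := trace_eq_sq_mul M hm R hψ (pW_mul_sS M hm R W) (fun z => eE_comm_pW M hm R x z W)
    (fun z => eE_comm_pW M hm R y z W) ht
  rw [trace_pW M hm R hψ, trace_eq_natTr (sub_idem M hm R hψ W x 0)] at h
  exact_mod_cast h

theorem isAlt_of_muW (hψ : ψ 1 ≠ 1) {W : Matrix (Fin m) (Fin m) F} (h : muW M hm R ψ W ≠ 0) : IsAlt W := by
  refine ⟨fun i => ?_, fun i j => ?_⟩
  · have := dot_eq_zero_of_weightMult (rz_add M hm R) hψ h (v := Pi.single (i, i) 1)
      (fun x => rz_eq_one M hm R (by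
        ext a b
        by_cases ha : a = i <;> by_cases hb : b = i <;> simp [altOf_apply, Pi.single_apply, ha, hb]))
    simpa [flat2] using this
  · have := dot_eq_zero_of_weightMult (rz_add M hm R) hψ h (v := Pi.single (i, j) 1 + Pi.single (j, i) 1)
      (fun x => rz_eq_one M hm R (by
        ext a b
        simp [altOf_apply, Pi.single_apply, and_comm]
        split_ifs <;> ring))
    rw [add_dotProduct, single_dotProduct, single_dotProduct, one_mul, one_mul] at this
    exact eq_neg_of_add_eq_zero_right this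

/-- The multiplicity of a weight of rank at least four is divisible by `q^4`. -/
theorem pow_four_le_muW (hψ : ψ 1 ≠ 1) {W : Matrix (Fin m) (Fin m) F} (hW0 : W ≠ 0) (hw : ¬ IsWedge W)
    (h : muW M hm R ψ W ≠ 0) : Fintype.card F ^ 4 ≤ muW M hm R ψ W := by
  have halt := isAlt_of_muW M hm R hψ h
  obtain ⟨x, y, x', y', hxy, hx', hy', hxy'⟩ := exists_two_pairs halt hW0 hw
  have h1 := muW_eq_sq_mul M hm R hψ hxy
  have h2 := trace_eq_sq_mul M hm R hψ (sub_mul_sS M hm R W x (0 : Fin 2 → F))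
    (fun z => eE_comm_sub M hm R hx' z 0) (fun z => eE_comm_sub M hm R hy' z 0) hxy'
  have hcomm : pW M hm R ψ W * px M hm R ψ x 0 * px M hm R ψ x' 0 =
      px M hm R ψ x' 0 * (pW M hm R ψ W * px M hm R ψ x 0) :=
    commute_weightProj (f := fun z => R (eE M hm x' z)) (fun z => (eE_comm_sub M hm R hx' z 0).symm) 0
  have hidem := idem_mul (sub_idem M hm R hψ W x 0) (px_idem M hm R hψ x' 0) hcomm
  rw [trace_eq_natTr (sub_idem M hm R hψ W x 0), trace_eq_natTr hidem] at h2
  have h2' : natTr (sub_idem M hm R hψ W x (0 : Fin 2 → F)) = Fintype.card F ^ 2 * natTr hidem := by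
    exact_mod_cast h2
  rw [h2', ← mul_assoc, ← pow_add] at h1
  rw [h1] at h ⊢
  exact Nat.le_mul_of_pos_right _ (Nat.pos_of_ne_zero (right_ne_zero_of_mul h))

/-- The degree hypothesis: below the bound. -/
def SmallM (F : Type*) [Fintype F] (m k : ℕ) : Prop :=
  k * (Fintype.card F ^ 2 - 1) < (Fintype.card F ^ (m + 1) + 1) * (Fintype.card F ^ m - Fintype.card F)

include M hm R in
theorem sum_muW (hψ : ψ 1 ≠ 1) : ∑ w : Fin m × Fin m → F, weightMult (rz M hm R) ψ w = k :=
  sum_weightMult (rz_zero M hm R) (rz_add M hm R) hψ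

theorem sum_muW_le (hψ : ψ 1 ≠ 1) (S : Finset (Matrix (Fin m) (Fin m) F)) :
    ∑ W ∈ S, muW M hm R ψ W ≤ k := by
  classical
  refine le_of_le_of_eq ?_ (sum_muW M hm R hψ)
  simp only [muW]
  rw [← Finset.sum_image (f := fun w => weightMult (rz M hm R) ψ w) (g := flat2)
    (fun _ _ _ _ h => flat2_injective h)]
  exact Finset.sum_le_sum_of_subset (Finset.subset_univ _)

/-- A normal subgroup of `Omega^-` is central or everything. -/
theorem normal_center_or_top (hm : 3 ≤ m) (N : Subgroup (OmM M m)) [N.Normal] :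
    N ≤ Subgroup.center (OmM M m) ∨ N = ⊤ := by
  let e : OmM M m ≃* omegaGL (qM M m) :=
    (OmM M m).equivMapOfInjective (IsoM M m).subtype Subtype.val_injective
  have : (N.map e.toMonoidHom).Normal := Subgroup.Normal.map inferInstance _ e.surjective
  rcases omegaGL_normal_le_center_or_top (nondeg M m) (five_le hm) (N.map e.toMonoidHom) with h | h
  · refine Or.inl fun x hx => Subgroup.mem_center_iff.2 fun y => e.injective ?_
    rw [map_mul, map_mul]
    exact Subgroup.mem_center_iff.1 (h ⟨x, hx, rfl⟩) (e y)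
  · refine Or.inr (eq_top_iff.2 fun x _ => ?_)
    obtain ⟨y, hy, hxy⟩ := h.symm ▸ Subgroup.mem_top (e x)
    exact e.injective hxy ▸ hy

include hm in
theorem exists_weight (hψ : ψ 1 ≠ 1) (hR : ∃ g, R g ≠ 1) :
    ∃ W : Matrix (Fin m) (Fin m) F, W ≠ 0 ∧ muW M hm R ψ W ≠ 0 := by
  classical
  by_contra hc
  push Not at hc
  have hP : weightProj (rz M hm R) ψ (0 : Fin m × Fin m → F) = 1 := by
    rw [← sum_weightProj (R := rz M hm R) (rz_zero M hm R) hψ]
    refine (Finset.sum_eq_single (f := fun w => weightProj (rz M hm R) ψ w) (0 : Fin m × Fin m → F) (fun w _ hw => weightProj_eq_zero (rz_add M hm R) hψ ?_)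
      (fun h => absurd (Finset.mem_univ _) h)).symm
    have := hc (sq2 w) fun h => hw (by rw [← flat2_sq2 w, h]; rfl)
    rwa [muW, flat2_sq2] at this
  set v : Fin m × Fin m → F := Pi.single (⟨0, by omega⟩, ⟨1, by omega⟩) 1
  have hv : R (sS M hm v) = 1 := by
    have h := mul_weightProj (ψ := ψ) (rz_add M hm R) v 0
    rwa [hP, mul_one, dotProduct_zero, AddChar.map_zero_eq_one, one_smul] at h
  rcases normal_center_or_top M hm R.ker with h | h
  · obtain ⟨c, hc'⟩ := CfsgLib.Classical.Orth.scalar_of_mem_center (nondeg M m) (five_le hm)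
      (h (MonoidHom.mem_ker.2 hv))
    have := congrFun (hc' (mk (0 : Fin m → F) (Pi.single ⟨1, by omega⟩ 1) 0)) (.inl (.inl ⟨0, by omega⟩))
    change (mat M (sS M hm v) *ᵥ _) _ = _ at this
    rw [sS_apply] at this
    simp [v, mk, Matrix.mulVec_single_one, altOf_apply] at this
  · obtain ⟨g, hg⟩ := hR
    exact hg (MonoidHom.mem_ker.1 (h ▸ Subgroup.mem_top g : g ∈ R.ker))

include hm in
theorem small_arith {X : ℕ} (hk : SmallM F m k)
    (hX : 2 * (Fintype.card F ^ m - 1) * (Fintype.card F ^ (m - 1) - 1) * Fintype.card F ^ 2 ≤ X) :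
    k * (Fintype.card F ^ 2 - 1) < X := by
  refine lt_of_lt_of_le hk (le_trans ?_ hX)
  set q := Fintype.card F with hq
  have hq2 : 2 ≤ q := Fintype.one_lt_card
  have hV : 4 ≤ q ^ (m - 1) := le_trans (by nlinarith) (Nat.pow_le_pow_right (show 0 < q by omega) (show 2 ≤ m - 1 by omega))
  have hQ : q ^ m = q * q ^ (m - 1) := by rw [← pow_succ']; congr 1; omega
  rw [pow_succ' q m, hQ]
  generalize q ^ (m - 1) = V at *
  obtain ⟨v, rfl⟩ : ∃ v, V = v + 1 := ⟨V - 1, by omega⟩
  rw [show q * (v + 1) - q = q * v by rw [Nat.mul_add, Nat.mul_one, Nat.add_sub_cancel], Nat.add_sub_cancel]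
  obtain ⟨A, hA⟩ : ∃ A, q * (v + 1) = A + 1 :=
    ⟨q * (v + 1) - 1, by have : 0 < q * (v + 1) := Nat.mul_pos (by omega) (by omega); omega⟩
  rw [hA, Nat.add_sub_cancel]
  have h3 : q * (A + 1) + 1 ≤ 2 * A * q := by
    have : 4 ≤ A := by nlinarith
    nlinarith
  calc (q * (A + 1) + 1) * (q * v) ≤ 2 * A * q * (q * v) := Nat.mul_le_mul_right _ h3
    _ = 2 * A * v * q ^ 2 := by ring

/-- The nonzero weights are the decomposable matrices, each with multiplicity `q^2`. -/
theorem weight_structure_minus (hψ : ψ 1 ≠ 1) (hR : ∃ g, R g ≠ 1) (hk : SmallM F m k)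
    (W : Matrix (Fin m) (Fin m) F) (hW0 : W ≠ 0) :
    (IsWedge W → muW M hm R ψ W = Fintype.card F ^ 2) ∧ (¬ IsWedge W → muW M hm R ψ W = 0) := by
  classical
  set q := Fintype.card F with hqdef
  have hq2 : 2 ≤ q := Fintype.one_lt_card
  have hd : 3 ≤ q ^ 2 - 1 := by
    have : 2 ^ 2 ≤ q ^ 2 := Nat.pow_le_pow_left hq2 2
    omega
  have hno : ∀ W : Matrix (Fin m) (Fin m) F, W ≠ 0 → ¬ IsWedge W → muW M hm R ψ W = 0 := by
    intro W hW hw
    by_contra hne
    have halt := isAlt_of_muW M hm R hψ hne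
    have h4 := pow_four_le_muW M hm R hψ hW hw hne
    have hle : (slOrbit W).card * q ^ 4 ≤ k := by
      refine le_trans ?_ (sum_muW_le M hm R hψ (slOrbit W))
      rw [← smul_eq_mul]
      refine Finset.card_nsmul_le_sum _ _ _ fun N hN => ?_
      obtain ⟨g, hg, rfl⟩ := mem_slOrbit.1 hN
      rwa [muW_congr M hm R hψ hg]
    have hbig := card_slOrbit_ge hm halt hW
    rw [← hqdef] at hbig
    have := small_arith hm hk (X := k * (q ^ 2 - 1)) ?_
    · exact lt_irrefl _ this
    calc 2 * (q ^ m - 1) * (q ^ (m - 1) - 1) * q ^ 2 = 2 * (((q ^ m - 1) * (q ^ (m - 1) - 1)) * q ^ 2) := by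
          ring
      _ ≤ (q ^ 2 - 1) * ((q ^ 2 * (slOrbit W).card) * q ^ 2) :=
          Nat.mul_le_mul (by omega) (Nat.mul_le_mul_right _ hbig)
      _ = (q ^ 2 - 1) * ((slOrbit W).card * q ^ 4) := by ring
      _ ≤ k * (q ^ 2 - 1) := by rw [mul_comm k]; exact Nat.mul_le_mul_left _ hle
  obtain ⟨W₀, hW₀, hμ₀⟩ := exists_weight M hm R hψ hR
  have hwedge₀ : IsWedge W₀ := by
    by_contra h
    exact hμ₀ (hno W₀ hW₀ h)
  have hn2 : (⟨0, by omega⟩ : Fin m) ≠ ⟨1, by omega⟩ := by simp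
  have hconst : ∀ W : Matrix (Fin m) (Fin m) F, IsWedge W → muW M hm R ψ W = muW M hm R ψ W₀ := by
    intro W hW
    obtain ⟨g, hg, hgW⟩ := hW.exists_det_one hm hn2
    obtain ⟨g₀, hg₀, hgW₀⟩ := hwedge₀.exists_det_one hm hn2
    rw [← hgW, muW_congr M hm R hψ hg, ← hgW₀, muW_congr M hm R hψ hg₀]
  have hone : muW M hm R ψ W₀ = q ^ 2 := by
    obtain ⟨i, j, hij⟩ := exists_ne_zero_of_row hW₀
    have h1 := muW_eq_sq_mul M hm R hψ (W := W₀) (x := Pi.single i 1) (y := Pi.single j 1) (by rwa [bil_single])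
    generalize natTr (sub_idem M hm R hψ W₀ (Pi.single i 1) (0 : Fin 2 → F)) = c at h1
    rw [← hqdef] at h1
    have hc0 : c ≠ 0 := fun h => hμ₀ (by rw [h1, h, mul_zero])
    by_contra hne
    have hc2 : 2 ≤ c := by
      rcases (show c = 1 ∨ 2 ≤ c by omega) with rfl | h
      · exact absurd (by rw [h1, mul_one]) hne
      · exact h
    have hle : (wedgeSet F m).card * (q ^ 2 * c) ≤ k := by
      refine le_trans ?_ (sum_muW_le M hm R hψ (wedgeSet F m))
      rw [← smul_eq_mul]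
      refine Finset.card_nsmul_le_sum _ _ _ fun N hN => ?_
      rw [hconst N (mem_wedgeSet.1 hN), h1]
    have hS := card_wedgeSet (F := F) m
    rw [← hqdef] at hS
    have := small_arith hm hk (X := k * (q ^ 2 - 1)) ?_
    · exact lt_irrefl _ this
    calc 2 * (q ^ m - 1) * (q ^ (m - 1) - 1) * q ^ 2 = ((q ^ 2 - 1) * (wedgeSet F m).card) * (q ^ 2 * 2) := by
          rw [hS]; ring
      _ ≤ ((q ^ 2 - 1) * (wedgeSet F m).card) * (q ^ 2 * c) :=
          Nat.mul_le_mul_left _ (Nat.mul_le_mul_left _ hc2)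
      _ = (q ^ 2 - 1) * ((wedgeSet F m).card * (q ^ 2 * c)) := by ring
      _ ≤ k * (q ^ 2 - 1) := by rw [mul_comm k]; exact Nat.mul_le_mul_left _ hle
  exact ⟨fun h => by rw [hconst W h, hone], hno W hW0⟩

/-- A trace as a sum over the weights. -/
theorem trace_weights (hψ : ψ 1 ≠ 1) (hR : ∃ g, R g ≠ 1) (hk : SmallM F m k) (X : Matrix (Fin k) (Fin k) ℂ) :
    X.trace = (pW M hm R ψ 0 * X).trace + ∑ W ∈ wedgeSet F m, (pW M hm R ψ W * X).trace := by
  classical
  rw [trace_split (f := rz M hm R) (rz_zero M hm R) hψ X,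
    ← Finset.add_sum_erase _ _ (Finset.mem_univ (0 : Fin m × Fin m → F))]
  congr 1
  have himg : (wedgeSet F m).image flat2 ⊆ (Finset.univ : Finset (Fin m × Fin m → F)).erase 0 := by
    intro w hw
    obtain ⟨W, hW, rfl⟩ := Finset.mem_image.1 hw
    exact Finset.mem_erase.2 ⟨fun h => (mem_wedgeSet.1 hW).1 (flat2_injective h), Finset.mem_univ _⟩
  rw [← Finset.sum_subset himg (fun w hw hw' => ?_),
    Finset.sum_image (fun _ _ _ _ h => flat2_injective h)]
  · rfl
  · rw [weightProj_eq_zero (rz_add M hm R) hψ, zero_mul, Matrix.trace_zero]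
    have := (weight_structure_minus M hm R hψ hR hk (sq2 w) fun h => Finset.ne_of_mem_erase hw
      (by rw [← flat2_sq2 w, h]; rfl)).2 fun h => hw' (Finset.mem_image.2 ⟨sq2 w, mem_wedgeSet.2 h, rfl⟩)
    rwa [muW, flat2_sq2] at this

theorem degree_split (hψ : ψ 1 ≠ 1) (hR : ∃ g, R g ≠ 1) (hk : SmallM F m k) :
    k = muW M hm R ψ 0 + (wedgeSet F m).card * Fintype.card F ^ 2 := by
  have h := trace_weights M hm R hψ hR hk 1
  simp only [mul_one, Matrix.trace_one, Fintype.card_fin, trace_pW M hm R hψ] at h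
  rw [Finset.sum_congr rfl (g := fun _ => ((Fintype.card F ^ 2 : ℕ) : ℂ)) (fun W hW => by
    rw [(weight_structure_minus M hm R hψ hR hk W (mem_wedgeSet.1 hW).1).1 (mem_wedgeSet.1 hW)]),
    Finset.sum_const, nsmul_eq_mul] at h
  exact_mod_cast h

end CfsgLib.OrthMinusDeg
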