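import Cfsg.Agent.OrthMinusDeg.Fix
import Cfsg.Agent.OrthPlusDeg.RootValue

/-!
Lower bounds for the weight zero space.
-/

set_option autoImplicit false
set_option linter.unusedSectionVars false

noncomputable section

namespace CfsgLib.OrthMinusDeg

open Cfsg.Geo CfsgLib.OrthGeo Matrix CfsgLib.OrthPlusDeg
open scoped MatrixGroups

variable {F : Type*} [Field F] [Fintype F] [DecidableEq F] {m k : ℕ} (M : Dat F) (hm : 3 ≤ m)
variable (R : OmM M m →* Matrix (Fin k) (Fin k) ℂ) {ψ : AddChar F ℂ}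

include hm in
/-- The moved part of the weight zero space. -/
theorem zero_weight_ge (hψ : ψ 1 ≠ 1) (hR : ∃ g, R g ≠ 1) (hk : SmallM F m k) {d : ℕ}
    (hd : (pW M hm R ψ 0 * pC M hm R ψ ⟨0, by omega⟩).trace = d) :
    d + (Fintype.card F ^ (m - 1) - 1) ≤ muW M hm R ψ 0 := by
  classical
  obtain ⟨n, rfl⟩ : ∃ n, m = n + 1 := ⟨m - 1, by omega⟩
  set a : Fin (n + 1) := ⟨0, by omega⟩ with ha
  have ha0 : a = 0 := rfl
  set P0 := pW M hm R ψ (0 : Matrix (Fin (n + 1)) (Fin (n + 1)) F) with hP0def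
  set C := pC M hm R ψ a with hCdef
  have h0 : IsAlt (0 : Matrix (Fin (n + 1)) (Fin (n + 1)) F) := ⟨fun _ => rfl, fun _ _ => by simp⟩
  have hc : P0 * C = C * P0 := pC_comm_pW M hm R h0 rfl
  have hP0 := pW_idem M hm R hψ (0 : Matrix (Fin (n + 1)) (Fin (n + 1)) F)
  have hC := pC_idem M hm R hψ a
  have hne : P0 * C ≠ P0 := (fix_main M hm R hψ hR hk).2
  set P := P0 * (1 - C) with hP
  have hc' : P0 * (1 - C) = (1 - C) * P0 := by
    rw [Matrix.mul_sub, Matrix.sub_mul, Matrix.mul_one, Matrix.one_mul, hc]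
  have hPi : P * P = P := idem_mul hP0 (idem_one_sub hC) hc'
  have hPC : P * C = 0 := by
    rw [hP, Matrix.mul_assoc, Matrix.sub_mul, Matrix.one_mul, hC, sub_self, Matrix.mul_zero]
  let f : (Fin (n + 1) → F) → Matrix (Fin k) (Fin k) ℂ := fun y => R (eC M hm a y)
  have f0 : f 0 = 1 := rC_zero M hm R a
  have fadd : ∀ u v, f (u + v) = f u * f v := rC_add M hm R a
  have hfC : ∀ y, f y * C = C * f y := fun y =>
    commute_weightProj (f := f) (fun v => by rw [← fadd, ← fadd, add_comm]) 0
  have hPf : ∀ y, P * f y = f y * P := fun y => by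
    rw [hP, Matrix.mul_assoc, Matrix.sub_mul, Matrix.one_mul, ← hfC, ← Matrix.mul_assoc,
      Matrix.mul_sub (f y * P0), Matrix.mul_one, Matrix.mul_sub, ← Matrix.mul_assoc, eC_comm_zero,
      Matrix.mul_assoc P0 (f y) C]
  have hPne : P ≠ 0 := fun h => hne (by
    rw [hP, Matrix.mul_sub, Matrix.mul_one, sub_eq_zero] at h
    exact h.symm)
  obtain ⟨w, hw⟩ := exists_weightProj_mul_ne_zero (f := f) (ψ := ψ) f0 hψ hPne
  have hw0 : w ≠ 0 := fun h => hw (by rw [h]; exact hPC)
  have hwa : w 0 = 0 := by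
    by_contra hne0
    refine hw ?_
    set v : Fin (n + 1) → F := (w 0)⁻¹ • Pi.single 0 1 with hv
    have hfv : f v = 1 := by
      have : za a v = 0 := by
        funext i; by_cases hi : i = 0 <;> simp [za, hv, ha0, hi]
      change R (eC M hm a v) = 1
      rw [eC, this, ← za_zero a]
      exact rC_zero M hm R a
    have hvw : v ⬝ᵥ w = 1 := by
      rw [hv, smul_dotProduct, single_dotProduct, one_mul, smul_eq_mul, inv_mul_cancel₀ hne0]
    have h1 := mul_weightProj (ψ := ψ) fadd v w
    rw [hfv, one_mul, hvw] at h1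
    by_contra h2
    have hz : weightProj f ψ w ≠ 0 := fun e => h2 (by rw [e, Matrix.mul_zero])
    exact hψ (smul_left_injective ℂ hz (by simpa using h1.symm))
  set S : Finset (Fin (n + 1) → F) :=
    ((Finset.univ : Finset (Fin n → F)).erase 0).image (fun v => Fin.cons 0 v) with hS
  have hScard : S.card = Fintype.card F ^ n - 1 := by
    rw [hS, Finset.card_image_of_injective _ (fun u v h => (Fin.cons_inj.1 h).2),
      Finset.card_erase_of_mem (Finset.mem_univ _), Finset.card_univ, Fintype.card_fun, Fintype.card_fin]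
  have hall : ∀ w' ∈ S, P * weightProj f ψ w' ≠ 0 := by
    intro w' hw'
    obtain ⟨v', hv', rfl⟩ := Finset.mem_image.1 hw'
    have hwt : (fun i => w (Fin.succ i)) ≠ (0 : Fin n → F) := fun h => hw0 (funext fun i => by
      refine Fin.cases ?_ (fun i => ?_) i
      · exact hwa
      · exact congrFun h i)
    obtain ⟨G, hG, hGv⟩ := exists_det_one_mulVec (by omega) hwt (Finset.ne_of_mem_erase hv')
    let g : Matrix.SpecialLinearGroup (Fin (n + 1)) F := ⟨lowBlk 1 0 G, by rw [det_lowBlk, hG, one_mul]⟩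
    have hg : (g : Matrix (Fin (n + 1)) (Fin (n + 1)) F) = lowBlk 1 0 G := rfl
    have hgw : (g : Matrix (Fin (n + 1)) (Fin (n + 1)) F) *ᵥ w = Fin.cons 0 v' := by
      funext i
      rw [hg]
      refine Fin.cases ?_ (fun i => ?_) i
      · simp [lowBlk, Matrix.mulVec, dotProduct, Fin.sum_univ_succ, hwa]
      · rw [Fin.cons_succ, ← hGv]
        simp [lowBlk, Matrix.mulVec, dotProduct, Fin.sum_univ_succ]
    have hgC : ∀ u u' : Fin (n + 1) → F, (g : Matrix (Fin (n + 1)) (Fin (n + 1)) F) *ᵥ u = u' →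
        R (slM M hm g) * weightProj f ψ u = weightProj f ψ u' * R (slM M hm g) := fun u u' hu => by
      refine slM_comm_pC M hm R a g one_ne_zero ?_ ?_ (fun v => ?_)
      · rw [hg, ha0, lowBlk_mulVec_zero]
      · rw [hg, ha0, lowBlk_transpose, lowBlk_mulVec_zero]
      · rw [one_smul, ← hu, Matrix.dotProduct_mulVec, Matrix.vecMul_mulVec, Matrix.transpose_transpose,
          ← Matrix.SpecialLinearGroup.coe_mul, inv_mul_cancel, Matrix.SpecialLinearGroup.coe_one,
          Matrix.vecMul_one]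
    have hgP0 : R (slM M hm g) * P0 = P0 * R (slM M hm g) := by
      have := slM_comm_pW M hm R (ψ := ψ) g 0
      rwa [Matrix.mul_zero, Matrix.zero_mul] at this
    have hgPC : R (slM M hm g) * C = C * R (slM M hm g) := hgC 0 0 (Matrix.mulVec_zero _)
    have hgP : R (slM M hm g) * P = P * R (slM M hm g) := by
      rw [hP, ← Matrix.mul_assoc, hgP0, Matrix.mul_assoc, Matrix.mul_sub, Matrix.mul_one, hgPC,
        Matrix.mul_assoc P0 (1 - C), Matrix.sub_mul, Matrix.one_mul]
    intro hzero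
    refine hw ?_
    have h3 : R (slM M hm g) * (P * weightProj f ψ w) = 0 := by
      rw [← Matrix.mul_assoc, hgP, Matrix.mul_assoc, hgC w _ hgw, ← Matrix.mul_assoc, hzero, Matrix.zero_mul]
    have := congrArg (fun N => R (slM M hm g)⁻¹ * N) h3
    simpa only [← Matrix.mul_assoc, rep_inv_mul, Matrix.one_mul, Matrix.mul_zero] using this
  have hle := card_le_natTr_of_weights f0 fadd hψ hPi hPf S hall
  have ht : (natTr hPi : ℂ) + d = (muW M hm R ψ (0 : Matrix (Fin (n + 1)) (Fin (n + 1)) F) : ℂ) := by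
    rw [← trace_eq_natTr hPi, ← hd, ← Matrix.trace_add, hP, Matrix.mul_sub, Matrix.mul_one,
      sub_add_cancel, hP0def, trace_pW M hm R hψ]
  have ht' : natTr hPi + d = muW M hm R ψ (0 : Matrix (Fin (n + 1)) (Fin (n + 1)) F) := by exact_mod_cast ht
  rw [hScard] at hle
  rw [Nat.add_sub_cancel]
  omega

/-- A transvection of `SL_m`. -/
def slT {x y : Fin m → F} (h : x ⬝ᵥ y = 0) : Matrix.SpecialLinearGroup (Fin m) F :=
  ⟨1 + vecMulVec x y, by
    rw [Matrix.vecMulVec_eq Unit, Matrix.det_one_add_replicateCol_mul_replicateRow, dotProduct_comm, h,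
      add_zero]⟩

theorem slM_slT {x y : Fin m → F} (h : x ⬝ᵥ y = 0) : slM M hm (slT h) = tT M hm x y := by
  have hinv : (((slT h)⁻¹ : Matrix.SpecialLinearGroup (Fin m) F) : Matrix (Fin m) (Fin m) F) =
      1 - vecMulVec x y := by
    have h2 : (slT h : Matrix (Fin m) (Fin m) F) * (1 - vecMulVec x y) = 1 := by
      change (1 + vecMulVec x y) * (1 - vecMulVec x y) = 1
      rw [Matrix.add_mul, Matrix.mul_sub, Matrix.mul_sub, Matrix.vecMulVec_mul_vecMulVec, dotProduct_comm, h]
      simp
    calc _ = (((slT h)⁻¹ : Matrix.SpecialLinearGroup (Fin m) F) : Matrix (Fin m) (Fin m) F) *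
          ((slT h : Matrix (Fin m) (Fin m) F) * (1 - vecMulVec x y)) := by rw [h2, Matrix.mul_one]
      _ = 1 - vecMulVec x y := by
        rw [← Matrix.mul_assoc, ← Matrix.SpecialLinearGroup.coe_mul, inv_mul_cancel,
          Matrix.SpecialLinearGroup.coe_one, Matrix.one_mul]
  refine om_ext M fun X Y Z => ?_
  rw [tT_apply M hm h, slM_apply, hinv, mk_inj]
  refine ⟨?_, ?_, rfl⟩
  · change (1 + vecMulVec x y) *ᵥ X = _
    rw [Matrix.add_mulVec, Matrix.one_mulVec, Matrix.vecMulVec_mulVec, op_smul_eq_smul, dotProduct_comm]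
  · rw [Matrix.transpose_sub, Matrix.transpose_one, Matrix.transpose_vecMulVec, Matrix.sub_mulVec,
      Matrix.one_mulVec, Matrix.vecMulVec_mulVec, op_smul_eq_smul]

include hm in
/-- The group `SL_m` acts non-trivially on the weight zero space. -/
theorem exists_sl_trace_ne (hψ : ψ 1 ≠ 1) (hR : ∃ g, R g ≠ 1) (hk : SmallM F m k) :
    ∃ g : Matrix.SpecialLinearGroup (Fin m) F,
      (pW M hm R ψ 0 * R (slM M hm g)).trace ≠ (muW M hm R ψ 0 : ℂ) := by
  by_contra hc
  push Not at hc
  have h : (pW M hm R ψ 0 * pC M hm R ψ ⟨0, by omega⟩).trace =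
      ((muW M hm R ψ (0 : Matrix (Fin m) (Fin m) F) : ℕ) : ℂ) := by
    rw [pC, weightProj_zero_eq, mul_smul_comm, Finset.mul_sum, Matrix.trace_smul, Matrix.trace_sum,
      Finset.sum_congr rfl (g := fun _ => ((muW M hm R ψ (0 : Matrix (Fin m) (Fin m) F) : ℕ) : ℂ))
        (fun y _ => by rw [eC, ← slM_slT M hm (single_dot_za _ y)]; exact hc _),
      Finset.sum_const, Finset.card_univ, nsmul_eq_mul, smul_eq_mul, ← mul_assoc,
      inv_mul_cancel₀ (Nat.cast_ne_zero.2 Fintype.card_ne_zero), one_mul]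
  have h2 := zero_weight_ge M hm R hψ hR hk h
  have h3 : Fintype.card F ≤ Fintype.card F ^ (m - 1) := Nat.le_self_pow (by omega) _
  have : 2 ≤ Fintype.card F := Fintype.one_lt_card
  omega

/-- The representation of `SL_m` on the weight zero space. -/
theorem exists_sl_rep (hψ : ψ 1 ≠ 1) :
    ∃ φ : Matrix.SpecialLinearGroup (Fin m) F →*
        Matrix (Fin (muW M hm R ψ 0)) (Fin (muW M hm R ψ 0)) ℂ,
      ∀ g, (φ g).trace = (pW M hm R ψ 0 * R (slM M hm g)).trace := by
  classical
  set P := pW M hm R ψ (0 : Matrix (Fin m) (Fin m) F)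
  obtain ⟨A, B, hAB, hBA⟩ := exists_factor (pW_idem M hm R hψ (0 : Matrix (Fin m) (Fin m) F))
    (trace_pW M hm R hψ 0)
  have hcomm : ∀ x : Matrix.SpecialLinearGroup (Fin m) F, R (slM M hm x) * P = P * R (slM M hm x) := fun x => by
    have h := slM_comm_pW M hm R (ψ := ψ) x 0
    rwa [Matrix.mul_zero, Matrix.zero_mul] at h
  refine ⟨{ toFun := fun x => B * R (slM M hm x) * A
            map_one' := by rw [map_one, map_one, Matrix.mul_one, hBA]
            map_mul' := fun x y => by
              rw [map_mul, map_mul]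
              calc B * (R (slM M hm x) * R (slM M hm y)) * A
                  = B * (R (slM M hm x) * R (slM M hm y)) * A * (B * A) := by rw [hBA, Matrix.mul_one]
                _ = B * R (slM M hm x) * (R (slM M hm y) * P) * A := by
                    simp only [P, ← hAB, Matrix.mul_assoc]
                _ = B * R (slM M hm x) * (P * R (slM M hm y)) * A := by rw [hcomm]
                _ = B * R (slM M hm x) * A * (B * R (slM M hm y) * A) := by
                    simp only [P, ← hAB, Matrix.mul_assoc] }, fun g => ?_⟩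
  change (B * R (slM M hm g) * A).trace = _
  rw [Matrix.trace_mul_comm, ← Matrix.mul_assoc, hAB]

end CfsgLib.OrthMinusDeg
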